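import Mathlib
import Cfsg.Agent.Block.STCore

/-!
Character theory for the identification of `PSU₃(7)` and `PSU₃(9)`.
-/

set_option autoImplicit false

namespace Cfsg.Agent.U3Id

open Cfsg Cfsg.Agent.Char Cfsg.Agent.Block Function Subgroup
open scoped ComplexConjugate

theorem norm_central {Q : Type*} [Group Q] [Finite Q] {θ : Q → ℂ} (hθ : IsIrrCharacter Q θ)
    {d : ℕ} (hd : θ 1 = d) {z : Q} (hz : z ∈ center Q) : ‖θ z‖ = d := by
  have h := irr_central_pow hθ (fun g => (mem_center_iff.1 hz g).symm) (orderOf z) 1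
  have h0 := irr_one_ne_zero hθ
  rw [pow_orderOf_eq_one, mul_one] at h
  have h1 : (θ z / θ 1) ^ orderOf z = 1 := by
    apply mul_right_cancel₀ h0; rw [← h, one_mul]
  have := norm_eq_one_of_pow_orderOf h1
  rw [norm_div, div_eq_one_iff_eq (by simpa using h0), hd] at this
  simpa using this

theorem sum_norm_sq {Q : Type*} [Group Q] [Fintype Q] {θ : Q → ℂ} (hθ : IsIrrCharacter Q θ) :
    ∑ x, ‖θ x‖ ^ 2 = (Nat.card Q : ℝ) := by
  have h := inner_irr_self hθ
  rw [inner_self_eq] at h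
  have h0 : (Nat.card Q : ℝ) ≠ 0 := by exact_mod_cast Nat.card_pos.ne'
  have : (Nat.card Q : ℝ)⁻¹ * ∑ g, ‖θ g‖ ^ 2 = 1 := by exact_mod_cast h
  field_simp at this
  exact this

theorem chr {Q : Type*} [Group Q] [Fintype Q] {q : ℕ} (hq : q = 7 ∨ q = 9)
    (hQ : Nat.card Q = q ^ 3) {φ : Q → ℂ} (hφ : IsCharacter Q φ) (h1 : φ 1 = q ^ 2 - q)
    (hN : ∑ x, φ x * φ x⁻¹ = q ^ 3 * (q - 1)) :
    (∃ x y : Q, x * y ≠ y * x) ∧ Nat.card (center Q) ≤ q ∧ (Nat.card (center Q) = q →
      ∀ x ∉ center Q, φ x = 0 ∧ Nat.card (centralizer ({x} : Set Q)) ≤ q ^ 2) := by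
  classical
  obtain ⟨c, hc, hsum, hnorm⟩ := gen_exists_coeff (gen_of_char hφ)
  choose d hd0 hd using fun θ : IrrCharacter Q => irr_apply_one θ.2
  have hq0 : (q : ℂ) ≠ 0 := by rcases hq with rfl | rfl <;> norm_num
  have c0 : ∀ θ, 0 ≤ c θ := fun θ => by
    obtain ⟨n, hn⟩ := inner_char_char hφ (irr_isCharacter θ.2)
    have : c θ = n := by exact_mod_cast (hc θ).symm.trans hn
    omega
  have e1 : ∑ θ, c θ ^ 2 = q - 1 := by
    rw [inner_char_right hφ, hN, hQ] at hnorm
    have : ((q : ℂ) - 1) = ((∑ θ, c θ ^ 2 : ℤ) : ℂ) := by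
      rw [← hnorm]; push_cast; field_simp
    exact_mod_cast this.symm
  have e2 : ∑ θ, c θ * d θ = q ^ 2 - q := by
    have := congrFun hsum 1
    rw [h1, Finset.sum_apply] at this
    simp only [Pi.smul_apply, smul_eq_mul] at this
    have k : ((q : ℂ) ^ 2 - q) = ((∑ θ, c θ * d θ : ℤ) : ℂ) := by
      rw [this]; push_cast; exact Finset.sum_congr rfl fun θ _ => by rw [hd θ]
    exact_mod_cast k.symm
  have e3 : ∑ θ, d θ ^ 2 = q ^ 3 := by
    have := sum_sq_degree (G := Q)
    rw [hQ] at this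
    have k : ((∑ θ, d θ ^ 2 : ℕ) : ℂ) = (q ^ 3 : ℕ) := by
      rw [← this]; push_cast; exact Finset.sum_congr rfl fun θ _ => by rw [hd θ]
    exact_mod_cast k
  have dle : ∀ θ, d θ ≤ q := fun θ => by
    have hdv := irr_degree_dvd_card θ.2 (hd θ)
    by_cases hθ : θ = ⟨1, irr_one⟩
    · have := hd θ
      rw [hθ] at this
      have : d ⟨1, irr_one⟩ = 1 := by
        have k : ((d ⟨1, irr_one⟩ : ℕ) : ℂ) = 1 := this.symm
        exact_mod_cast k
      rw [hθ]; omega
    have hlt : d θ ^ 2 < q ^ 3 := by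
      rw [← e3, ← Finset.add_sum_erase _ _ (Finset.mem_univ θ)]
      have := Finset.single_le_sum (f := fun θ => d θ ^ 2) (fun _ _ => Nat.zero_le _)
        (Finset.mem_erase.2 ⟨Ne.symm hθ, Finset.mem_univ (⟨1, irr_one⟩ : IrrCharacter Q)⟩)
      have := pow_pos (hd0 ⟨1, irr_one⟩) 2
      omega
    rw [hQ] at hdv
    rcases hq with rfl | rfl
    · obtain ⟨i, hi, e⟩ := (Nat.dvd_prime_pow (by norm_num : Nat.Prime 7)).1 hdv
      rw [e] at hlt ⊢
      interval_cases i <;> simp_all
    · obtain ⟨i, hi, e⟩ := (Nat.dvd_prime_pow (by norm_num : Nat.Prime 3)).1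
        (show d θ ∣ 3 ^ 6 from hdv)
      rw [e] at hlt ⊢
      interval_cases i <;> simp_all
  have hq1 : (1 : ℤ) < q := by rcases hq with rfl | rfl <;> norm_num
  have key : ∀ θ, c θ = 0 ∨ (c θ = 1 ∧ d θ = q) := by
    have nn : ∀ θ ∈ Finset.univ, 0 ≤ c θ * (q * c θ - d θ) := fun θ _ => by
      have := c0 θ
      have h2 : (d θ : ℤ) ≤ q := by exact_mod_cast dle θ
      rcases this.eq_or_lt with e | e
      · rw [← e]; simp
      · exact mul_nonneg this (by nlinarith)
    have z : ∑ θ, c θ * (q * c θ - d θ) = 0 := by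
      have : ∑ θ, c θ * (q * c θ - d θ) = q * ∑ θ, c θ ^ 2 - ∑ θ, c θ * d θ := by
        rw [Finset.mul_sum, ← Finset.sum_sub_distrib]
        exact Finset.sum_congr rfl fun θ _ => by ring
      rw [this, e1, e2]; ring
    intro θ
    have := (Finset.sum_eq_zero_iff_of_nonneg nn).1 z θ (Finset.mem_univ θ)
    rcases mul_eq_zero.1 this with e | e
    · exact Or.inl e
    · have h2 : (d θ : ℤ) ≤ q := by exact_mod_cast dle θ
      have h3 : (0 : ℤ) < d θ := by exact_mod_cast hd0 θ
      have h4 := c0 θ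
      have : c θ = 1 := by
        rcases lt_trichotomy (c θ) 1 with k | k | k
        · have : c θ = 0 := by omega
          rw [this] at e; omega
        · exact k
        · nlinarith
      right
      refine ⟨this, ?_⟩
      rw [this] at e; omega
  obtain ⟨θ₀, hθ₀⟩ : ∃ θ, d θ = q := by
    by_contra hne
    push Not at hne
    rw [Finset.sum_eq_zero fun θ _ => by rw [(key θ).resolve_right fun k => hne θ k.2]; simp] at e1
    omega
  have hsplit : ∀ θ : IrrCharacter Q, d θ = q → (Nat.card (center Q) : ℝ) * q ^ 2 +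
      ∑ x ∈ Finset.univ.filter (· ∉ center Q), ‖θ.1 x‖ ^ 2 = q ^ 3 := fun θ hθ => by
    have := sum_norm_sq θ.2
    rw [← Finset.sum_filter_add_sum_filter_not _ (· ∈ center Q), hQ] at this
    rw [Finset.sum_congr rfl fun x hx => by
      rw [norm_central θ.2 (hd θ) (Finset.mem_filter.1 hx).2, hθ]] at this
    rw [Finset.sum_const, nsmul_eq_mul, ← Fintype.card_subtype, ← Nat.card_eq_fintype_card] at this
    exact_mod_cast this
  have hqR : (0 : ℝ) < q := by rcases hq with rfl | rfl <;> norm_num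
  refine ⟨?_, ?_, fun hZ x hx => ?_⟩
  · by_contra hne
    push Not at hne
    haveI : IsMulCommutative Q := ⟨⟨hne⟩⟩
    have := irr_apply_one_of_comm θ₀.2
    rw [hd, hθ₀] at this
    have : q = 1 := by exact_mod_cast this
    omega
  · have := hsplit θ₀ hθ₀
    have nn : 0 ≤ ∑ x ∈ Finset.univ.filter (· ∉ center Q), ‖θ₀.1 x‖ ^ 2 :=
      Finset.sum_nonneg fun _ _ => by positivity
    have : (Nat.card (center Q) : ℝ) ≤ q := by
      by_contra hlt
      push Not at hlt
      nlinarith [mul_lt_mul_of_pos_right hlt (pow_pos hqR 2)]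
    exact_mod_cast this
  have hv : ∀ θ : IrrCharacter Q, d θ = q → θ.1 x = 0 := fun θ hθ => by
    have := hsplit θ hθ
    rw [hZ] at this
    have z : ∑ x ∈ Finset.univ.filter (· ∉ center Q), ‖θ.1 x‖ ^ 2 = 0 := by linarith [pow_succ (q : ℝ) 2]
    have := (Finset.sum_eq_zero_iff_of_nonneg fun _ _ => by positivity).1 z x (by simpa using hx)
    simpa using this
  constructor
  · rw [hsum, Finset.sum_apply]
    refine Finset.sum_eq_zero fun θ _ => ?_
    rcases key θ with e | e
    · simp [e]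
    · simp [hv θ e.2]
  · have h2 := sum_irr_mul_conj x x
    rw [if_pos (IsConj.refl x)] at h2
    have h3 : ∑ θ : IrrCharacter Q, ‖θ.1 x‖ ^ 2 = (Nat.card (centralizer ({x} : Set Q)) : ℝ) := by
      have : ((∑ θ : IrrCharacter Q, ‖θ.1 x‖ ^ 2 : ℝ) : ℂ) =
          (Nat.card (centralizer ({x} : Set Q)) : ℂ) := by
        rw [← h2]; push_cast
        exact Finset.sum_congr rfl fun θ _ => by rw [Complex.mul_conj']
      exact_mod_cast this
    have h4 : ∀ θ : IrrCharacter Q, ‖θ.1 x‖ ^ 2 ≤ (d θ : ℝ) ^ 2 - q ^ 2 * (c θ : ℝ) ^ 2 := fun θ => by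
      rcases key θ with e | e
      · have := char_norm_le (irr_isCharacter θ.2) x
        rw [hd] at this
        simp only [e, Complex.natCast_re] at this ⊢
        simpa using pow_le_pow_left₀ (norm_nonneg _) this 2
      · simp [hv θ e.2, e.1, e.2]
    have h5 := Finset.sum_le_sum fun θ (_ : θ ∈ Finset.univ) => h4 θ
    rw [h3, Finset.sum_sub_distrib, ← Finset.mul_sum] at h5
    have f1 : ∑ θ, (c θ : ℝ) ^ 2 = q - 1 := by exact_mod_cast e1
    have f3 : ∑ θ, (d θ : ℝ) ^ 2 = q ^ 3 := by exact_mod_cast e3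
    rw [f1, f3] at h5
    have : (Nat.card (centralizer ({x} : Set Q)) : ℝ) ≤ q ^ 2 := by linarith [pow_succ (q : ℝ) 2]
    exact_mod_cast this

/-- the congruence between the values at `x` and `x * k` -/
theorem cong {G : Type*} [Group G] [Finite G] {χ : G → ℂ} (hχ : IsCharacter G χ) {x k : G}
    (hc : Commute x k) {l : ℕ} (hl : l.Prime) (hk : k ^ l = 1) (hx : (orderOf x).Coprime l)
    (h0 : χ x = 0) (h1 : ∀ i, 0 < i → i < l → χ (x * k ^ i) = 1) : False := by
  classical
  haveI := Fact.mk hl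
  have hx' : x ∈ zpowers (x * k) := by
    have : x ∈ zpowers (x ^ l) := mem_zpowers_pow_iff.2 hx.symm
    rw [← mul_one (x ^ l), ← hk, ← hc.mul_pow] at this
    exact zpowers_le.2 (npow_mem_zpowers _ _) this
  have hk' : k ∈ zpowers (x * k) := by
    have := mul_mem (inv_mem hx') (mem_zpowers (x * k))
    simpa using this
  obtain ⟨i, hi⟩ := mem_powers_iff_mem_zpowers.2 hx'
  obtain ⟨j, hj⟩ := mem_powers_iff_mem_zpowers.2 hk'
  simp only at hi hj
  obtain ⟨s, hs, -, hv⟩ := char_exists_roots hχ (x * k)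
  have hdv : orderOf (x * k) ∣ j * l := by
    rw [orderOf_dvd_iff_pow_eq_one, pow_mul, hj, hk]
  have e : ∀ n : ℕ, χ (x * k ^ n) = (s.map fun z => z ^ i * (z ^ j) ^ n).sum := fun n => by
    have := hv (i + j * n : ℕ)
    rw [zpow_natCast, pow_add, pow_mul, hi, hj] at this
    rw [this]
    congr 1
    exact Multiset.map_congr rfl fun z _ => by rw [zpow_natCast, pow_add, pow_mul]
  have hsum : ∑ n ∈ Finset.range l, χ (x * k ^ n) =
      l * (s.map fun z => if z ^ j = 1 then z ^ i else 0).sum := by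
    simp only [e]
    rw [← Multiset.sum_map_sum, ← Multiset.sum_map_mul_left]
    congr 1
    refine Multiset.map_congr rfl fun z hz => ?_
    rw [← Finset.mul_sum, sum_root_pow (p := l) (by
      obtain ⟨m, hm⟩ := hdv
      rw [← pow_mul, hm, pow_mul, hs z hz, one_pow])]
    split_ifs <;> ring
  have hint : IsIntegral ℤ (s.map fun z => if z ^ j = 1 then z ^ i else 0).sum := by
    refine IsIntegral.multiset_sum fun w hw => ?_
    obtain ⟨z, hz, rfl⟩ := Multiset.mem_map.1 hw
    split_ifs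
    · exact (IsIntegral.of_pow (orderOf_pos (x * k)) (by rw [hs z hz]; exact isIntegral_one)).pow i
    · exact isIntegral_zero
  obtain ⟨m, rfl⟩ : ∃ m, l = m + 1 := ⟨l - 1, by have := hl.pos; omega⟩
  rw [Finset.sum_range_succ', pow_zero, mul_one, h0, add_zero,
    Finset.sum_congr rfl fun n hn => h1 (n + 1) n.succ_pos (by simpa using hn)] at hsum
  simp only [Finset.sum_const, Finset.card_range, nsmul_eq_mul, mul_one] at hsum
  have hm : (((m + 1 : ℕ) : ℂ)) ≠ 0 := by exact_mod_cast hl.ne_zero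
  have := int_dvd_of_isIntegral_div (a := m) hl.pos (by
    rw [hsum, mul_div_cancel_left₀ _ hm]; exact hint)
  have h2 := hl.two_le
  exact absurd (Nat.le_of_dvd (by omega) this) (by omega)

end Cfsg.Agent.U3Id
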