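import Mathlib
import Cfsg.Agent.Amalg.UField

/-!
Linear algebra for the identification of `PSU₃(7)` and `PSU₃(9)`.
-/

set_option autoImplicit false

namespace Cfsg.Agent.U3Id

open Cfsg Cfsg.Agent.Amalg Function

/-- transport of coordinates along two parametrisations -/
theorem lin_glue {V W E A B : Type*} [AddCommGroup V] [AddCommGroup W] [AddCommGroup E]
    [AddCommGroup A] [AddCommGroup B] [Finite V] [Finite W] [Finite E] [Finite A] [Finite B]
    (hA : Nat.card A = Nat.card V) (hA' : Nat.card A = Nat.card E) (hB : Nat.card B = Nat.card W)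
    (ι : A →+ V) (ι' : A →+ E) (κ : B →+ W) (κ' : B →+ E) (hι : Injective ι) (hι' : Injective ι')
    (hκ' : Injective κ') (β : V → V → W) (β' : E → E → E) (hs : ∀ w, ∃ x y, β x y = w)
    (C : A → A → B) (hC : ∀ c d, β (ι c) (ι d) = κ (C c d))
    (hC' : ∀ c d, β' (ι' c) (ι' d) = κ' (C c d)) (f : V → V) (f' : E → E) (M : A → A)
    (hM : ∀ c, f (ι c) = ι (M c)) (hM' : ∀ c, f' (ι' c) = ι' (M c)) :
    ∃ (π : V ≃+ E) (ζ : W →+ E), Injective ζ ∧ (∀ v, π (f v) = f' (π v)) ∧
      ∀ v w, ζ (β v w) = β' (π v) (π w) := by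
  have b1 : Bijective ι := hι.bijective_of_nat_card_le hA.ge
  have b2 : Bijective ι' := hι'.bijective_of_nat_card_le hA'.ge
  have s3 : Surjective κ := fun w => by
    obtain ⟨x, y, rfl⟩ := hs w
    obtain ⟨c, rfl⟩ := b1.2 x
    obtain ⟨d, rfl⟩ := b1.2 y
    exact ⟨_, (hC c d).symm⟩
  have b3 : Bijective κ := s3.bijective_of_nat_card_le hB.le
  let e1 := AddEquiv.ofBijective ι b1
  let e2 := AddEquiv.ofBijective ι' b2
  let e3 := AddEquiv.ofBijective κ b3
  have k1 : ∀ c, (e1.symm.trans e2) (ι c) = ι' c := fun c => by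
    rw [AddEquiv.trans_apply, show e1.symm (ι c) = c from e1.symm_apply_apply c]; rfl
  refine ⟨e1.symm.trans e2, κ'.comp e3.symm.toAddMonoidHom, hκ'.comp e3.symm.injective,
    fun v => ?_, fun v w => ?_⟩
  · obtain ⟨c, rfl⟩ := b1.2 v
    rw [hM, k1, k1, hM']
  · obtain ⟨c, rfl⟩ := b1.2 v
    obtain ⟨d, rfl⟩ := b1.2 w
    rw [hC, k1, k1, hC']
    exact congrArg κ' (e3.symm_apply_apply _)

section Two

variable {M W : Type*} [AddCommGroup M] [Module (ZMod 7) M] [AddCommGroup W] [Module (ZMod 7) W]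

/-- parametrisation of a plane over the field with seven elements -/
def io2 (u v : M) : ZMod 7 × ZMod 7 →+ M where
  toFun c := c.1 • u + c.2 • v
  map_zero' := by simp
  map_add' c d := by simp only [Prod.fst_add, Prod.snd_add, add_smul]; abel

theorem io2_apply (u v : M) (c : ZMod 7 × ZMod 7) : io2 u v c = c.1 • u + c.2 • v := rfl

theorem io2_f (f : M →+ M) (hf : ∀ v, f (f v) = (3 : ℤ) • f v - v) (v : M) (c : ZMod 7 × ZMod 7) :
    f (io2 v (f v) c) = io2 v (f v) (-c.2, c.1 + 3 * c.2) := by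
  simp only [io2_apply, map_add, ZMod.map_smul, hf]
  module

theorem io2_aux : ∀ a b : ZMod 7, a * (a + 3 * b) + b * b = 0 → (a, b) = 0 := by decide

theorem io2_inj (f : M →+ M) (hf : ∀ v, f (f v) = (3 : ℤ) • f v - v) {v : M} (hv : v ≠ 0) :
    Injective (io2 v (f v)) := by
  haveI : Fact (Nat.Prime 7) := ⟨by norm_num⟩
  rw [injective_iff_map_eq_zero]
  rintro ⟨a, b⟩ h
  have h2 := io2_f f hf v (a, b)
  rw [h, map_zero] at h2
  simp only [io2_apply] at h h2
  have : (a * (a + 3 * b) + b * b) • v = 0 := by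
    linear_combination (norm := module) (a + 3 * b) • h + b • h2
  have h3 := (smul_eq_zero.1 this).resolve_right hv
  exact io2_aux a b h3

theorem io2_beta (β : M →+ M →+ W) (halt : ∀ v, β v v = 0) (u v : M) (c d : ZMod 7 × ZMod 7) :
    β (io2 u v c) (io2 u v d) = (c.1 * d.2 - c.2 * d.1) • β u v := by
  have hsk : β v u = -β u v := by
    have := halt (u + v)
    simp only [map_add, AddMonoidHom.add_apply, halt] at this
    linear_combination (norm := abel) this
  have sm : ∀ (a : ZMod 7) (x y : M), β (a • x) y = a • β x y := fun a x y =>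
    ZMod.map_smul (β.flip y) a x
  simp only [io2_apply, map_add, AddMonoidHom.add_apply, ZMod.map_smul, sm, halt, hsk,
    AddMonoidHom.smul_apply]
  module

end Two

section Four

variable {M W : Type*} [AddCommGroup M] [Module (ZMod 3) M] [AddCommGroup W] [Module (ZMod 3) W]

/-- parametrisation of a space of dimension four over the field with three elements -/
def io4 (f : M →+ M) (v : M) : ZMod 3 × ZMod 3 × ZMod 3 × ZMod 3 →+ M where
  toFun c := c.1 • v + c.2.1 • f v + c.2.2.1 • f (f v) + c.2.2.2 • f (f (f v))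
  map_zero' := by simp
  map_add' c d := by simp only [Prod.fst_add, Prod.snd_add, add_smul]; abel

theorem io4_apply (f : M →+ M) (v : M) (c : ZMod 3 × ZMod 3 × ZMod 3 × ZMod 3) :
    io4 f v c = c.1 • v + c.2.1 • f v + c.2.2.1 • f (f v) + c.2.2.2 • f (f (f v)) := rfl

/-- the companion map -/
def sh4 (c : ZMod 3 × ZMod 3 × ZMod 3 × ZMod 3) : ZMod 3 × ZMod 3 × ZMod 3 × ZMod 3 :=
  (-c.2.2.2, c.1 - c.2.2.2, c.2.1 - c.2.2.2, c.2.2.1 - c.2.2.2)

theorem io4_f (f : M →+ M) (hf : ∀ v, f (f (f (f v))) = -v - f v - f (f v) - f (f (f v))) (v : M)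
    (c : ZMod 3 × ZMod 3 × ZMod 3 × ZMod 3) : f (io4 f v c) = io4 f v (sh4 c) := by
  simp only [io4_apply, sh4, map_add, ZMod.map_smul, hf]
  module

theorem sh4_gen : ∀ c : ZMod 3 × ZMod 3 × ZMod 3 × ZMod 3, c = 0 ∨ ∃ a b d e : ZMod 3,
    a • c + b • sh4 c + d • sh4 (sh4 c) + e • sh4 (sh4 (sh4 c)) = (1, 0, 0, 0) := by
  decide +kernel

theorem io4_inj (f : M →+ M) (hf : ∀ v, f (f (f (f v))) = -v - f v - f (f v) - f (f (f v)))
    {v : M} (hv : v ≠ 0) : Injective (io4 f v) := by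
  rw [injective_iff_map_eq_zero]
  intro c h
  refine (sh4_gen c).resolve_right ?_
  rintro ⟨a, b, d, e, k⟩
  have h1 : io4 f v (sh4 c) = 0 := by rw [← io4_f f hf, h, map_zero]
  have h2 : io4 f v (sh4 (sh4 c)) = 0 := by rw [← io4_f f hf, h1, map_zero]
  have h3 : io4 f v (sh4 (sh4 (sh4 c))) = 0 := by rw [← io4_f f hf, h2, map_zero]
  have := congrArg (io4 f v) k
  simp only [map_add, ZMod.map_smul, h, h1, h2, h3, smul_zero, add_zero] at this
  exact hv (by simpa [io4_apply] using this.symm)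

/-- parametrisation of a plane over the field with three elements -/
def io3 (u v : W) : ZMod 3 × ZMod 3 →+ W where
  toFun c := c.1 • u + c.2 • v
  map_zero' := by simp
  map_add' c d := by simp only [Prod.fst_add, Prod.snd_add, add_smul]; abel

theorem io3_apply (u v : W) (c : ZMod 3 × ZMod 3) : io3 u v c = c.1 • u + c.2 • v := rfl

/-- the coefficients of an invariant alternating form -/
def cf4 (c d : ZMod 3 × ZMod 3 × ZMod 3 × ZMod 3) : ZMod 3 × ZMod 3 :=
  (c.1 * d.2.1 - c.2.1 * d.1 + c.2.1 * d.2.2.1 - c.2.2.1 * d.2.1 + c.2.2.1 * d.2.2.2 -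
      c.2.2.2 * d.2.2.1,
    c.1 * d.2.2.1 - c.2.2.1 * d.1 + c.2.1 * d.2.2.2 - c.2.2.2 * d.2.1 - c.1 * d.2.2.2 +
      c.2.2.2 * d.1)

theorem io4_beta (β : M →+ M →+ W) (halt : ∀ v, β v v = 0) (f : M →+ M)
    (hf : ∀ v, f (f (f (f v))) = -v - f v - f (f v) - f (f (f v)))
    (hβ : ∀ x y, β (f x) (f y) = β x y) (v : M) (c d : ZMod 3 × ZMod 3 × ZMod 3 × ZMod 3) :
    β (io4 f v c) (io4 f v d) = io3 (β v (f v)) (β v (f (f v))) (cf4 c d) := by
  have hsk : ∀ x y, β y x = -β x y := fun x y => by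
    have := halt (x + y)
    simp only [map_add, AddMonoidHom.add_apply, halt] at this
    linear_combination (norm := abel) this
  have sm : ∀ (a : ZMod 3) (x y : M), β (a • x) y = a • β x y := fun a x y =>
    ZMod.map_smul (β.flip y) a x
  have h5 : f (f (f (f (f v)))) = v := by
    rw [hf (f v), hf v]; abel
  have e03 : β v (f (f (f v))) = -β v (f (f v)) := by
    rw [← hβ, ← hβ, h5, hsk]
  have e10 := hsk v (f v)
  have e20 := hsk v (f (f v))
  have e30 : β (f (f (f v))) v = β v (f (f v)) := by rw [hsk, e03, neg_neg]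
  simp only [io4_apply, io3_apply, cf4, map_add, AddMonoidHom.add_apply, ZMod.map_smul, sm, halt,
    hβ, e03, e10, e20, e30, AddMonoidHom.smul_apply]
  module

end Four

variable {E : Type*} [Field E] [Fintype E] {q : ℕ} [Fact (Fintype.card E = q ^ 2)]

/-- the standard alternating map -/
noncomputable def bE (q : ℕ) [Fact (Fintype.card E = q ^ 2)] : E →+ E →+ E where
  toFun x :=
    { toFun := fun y => cj q x * y - cj q y * x
      map_zero' := by simp
      map_add' := fun y y' => by rw [map_add]; ring }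
  map_zero' := by ext; simp
  map_add' x x' := by ext y; simp; ring

theorem bE_apply (x y : E) : bE q x y = cj q x * y - cj q y * x := rfl

theorem lin7 {V W E : Type*} [AddCommGroup V] [AddCommGroup W] [Finite V] [Finite W] [Field E]
    [Fintype E] [Fact (Fintype.card E = 7 ^ 2)] (hV : Nat.card V = 49) (hW : Nat.card W = 7)
    (hp : ∀ v : V, 7 • v = 0) (β : V →+ V →+ W) (halt : ∀ v, β v v = 0)
    (hs : ∀ w, ∃ x y, β x y = w) (f : V →+ V) (hf : ∀ v, f (f v) = (3 : ℤ) • f v - v) (ε : E)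
    (hε : ε ^ 2 = 3 * ε - 1) :
    ∃ (π : V ≃+ E) (ζ : W →+ E), Injective ζ ∧ (∀ v, π (f v) = ε * π v) ∧
      ∀ v w, ζ (β v w) = cj 7 (π v) * π w - cj 7 (π w) * π v := by
  haveI : Fact (Nat.Prime 7) := ⟨by norm_num⟩
  have hE : Fintype.card E = 7 ^ 2 := Fact.out
  haveI : CharP E 7 := charP_of_card_eq_prime_pow hE
  have h7 : (7 : E) = 0 := by exact_mod_cast CharP.cast_eq_zero E 7
  letI : Module (ZMod 7) V := AddCommGroup.zmodModule hp
  letI : Module (ZMod 7) W := AddCommGroup.zmodModule (fun w => by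
    rw [← hW]; exact card_nsmul_eq_zero')
  letI : Module (ZMod 7) E := AddCommGroup.zmodModule (fun w => by
    rw [nsmul_eq_mul]; simp [h7])
  haveI : Nontrivial V := Finite.one_lt_card_iff_nontrivial.1 (by omega)
  obtain ⟨v, hv⟩ := exists_ne (0 : V)
  let f' : E →+ E := AddMonoidHom.mulLeft ε
  have hf' : ∀ v, f' (f' v) = (3 : ℤ) • f' v - v := fun v => by
    simp only [f', AddMonoidHom.coe_mulLeft, zsmul_eq_mul]
    push_cast
    linear_combination v * hε
  have hne : bE 7 (1 : E) (f' 1) ≠ 0 := by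
    simp only [f', bE_apply, AddMonoidHom.coe_mulLeft, map_one, mul_one, one_mul, cj_apply]
    intro h
    have e7 : ε ^ 7 = 3 - ε := by
      linear_combination (ε ^ 5 + 3 * ε ^ 4 + 8 * ε ^ 3 + 21 * ε ^ 2 + 55 * ε + 144) * hε +
        (54 * ε - 21) * h7
    rw [e7] at h
    have h5 : (5 : E) = 0 := by linear_combination (2 * ε - 3) * h - (4 : E) * hε
    exact one_ne_zero (α := E) (by linear_combination 3 * h5 - 2 * h7)
  let κ : ZMod 7 →+ W := (smulAddHom (ZMod 7) W).flip (β v (f v))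
  let κ' : ZMod 7 →+ E := (smulAddHom (ZMod 7) E).flip (bE 7 (1 : E) (f' 1))
  refine lin_glue (A := ZMod 7 × ZMod 7) (B := ZMod 7) (by simp [hV]) (by simp [hE]) (by simp [hW])
    (io2 v (f v)) (io2 1 (f' 1)) κ κ' (io2_inj f hf hv) (io2_inj f' hf' one_ne_zero) ?_
    (fun x y => β x y) (fun x y => bE 7 x y) hs (fun c d => c.1 * d.2 - c.2 * d.1)
    (io2_beta β halt _ _) (io2_beta (M := E) (W := E) (bE 7) (fun x => sub_self _) 1 (f' 1)) f f'
    (fun c => (-c.2, c.1 + 3 * c.2)) (io2_f f hf v) (io2_f f' hf' 1)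
  rw [injective_iff_map_eq_zero]
  intro c hc
  exact (smul_eq_zero.1 hc).resolve_right hne

theorem lin9 {V W E : Type*} [AddCommGroup V] [AddCommGroup W] [Finite V] [Finite W] [Field E]
    [Fintype E] [Fact (Fintype.card E = 9 ^ 2)] (hV : Nat.card V = 81) (hW : Nat.card W = 9)
    (hp : ∀ v : V, 3 • v = 0) (hp' : ∀ w : W, 3 • w = 0) (β : V →+ V →+ W) (halt : ∀ v, β v v = 0)
    (hs : ∀ w, ∃ x y, β x y = w) (f : V →+ V)
    (hf : ∀ v, f (f (f (f v))) = -v - f v - f (f v) - f (f (f v)))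
    (hβ : ∀ x y, β (f x) (f y) = β x y) (η : E) (hη : η ^ 4 = -1 - η - η ^ 2 - η ^ 3) :
    ∃ (π : V ≃+ E) (ζ : W →+ E), Injective ζ ∧ (∀ v, π (f v) = η * π v) ∧
      ∀ v w, ζ (β v w) = cj 9 (π v) * π w - cj 9 (π w) * π v := by
  haveI : Fact (Nat.Prime 3) := ⟨by norm_num⟩
  have hE : Fintype.card E = 9 ^ 2 := Fact.out
  haveI : CharP E 3 := charP_of_card_eq_prime_pow (f := 4) (by rw [hE]; norm_num)
  have h3 : (3 : E) = 0 := by exact_mod_cast CharP.cast_eq_zero E 3
  letI : Module (ZMod 3) V := AddCommGroup.zmodModule hp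
  letI : Module (ZMod 3) W := AddCommGroup.zmodModule hp'
  letI : Module (ZMod 3) E := AddCommGroup.zmodModule (fun w => by
    rw [nsmul_eq_mul]; simp [h3])
  haveI : Nontrivial V := Finite.one_lt_card_iff_nontrivial.1 (by omega)
  obtain ⟨v, hv⟩ := exists_ne (0 : V)
  let f' : E →+ E := AddMonoidHom.mulLeft η
  have hf' : ∀ v, f' (f' (f' (f' v))) = -v - f' v - f' (f' v) - f' (f' (f' v)) := fun v => by
    simp only [f', AddMonoidHom.coe_mulLeft]
    linear_combination v * hη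
  have h5 : η ^ 5 = 1 := by linear_combination (η - 1) * hη
  have h9 : cj 9 η = η ^ 4 := by rw [cj_apply]; linear_combination η ^ 4 * h5
  have hβ' : ∀ x y, bE 9 (f' x) (f' y) = bE 9 x y := fun x y => by
    simp only [f', AddMonoidHom.coe_mulLeft, bE_apply, map_mul, h9]
    linear_combination (cj 9 x * y - cj 9 y * x) * h5
  refine lin_glue (A := ZMod 3 × ZMod 3 × ZMod 3 × ZMod 3) (B := ZMod 3 × ZMod 3)
    (by simp [hV]) (by simp [hE]) (by simp [hW])
    (io4 f v) (io4 f' 1) (io3 _ _) (io3 _ _) (io4_inj f hf hv) (io4_inj f' hf' one_ne_zero) ?_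
    (fun x y => β x y) (fun x y => bE 9 x y) hs cf4
    (io4_beta β halt f hf hβ v) (io4_beta (bE 9) (fun x => by simp [bE_apply]) f' hf' hβ' 1) f f'
    sh4 (io4_f f hf v) (io4_f f' hf' 1)
  rw [injective_iff_map_eq_zero]
  rintro ⟨a, b⟩ hc
  have e1 : bE 9 (1 : E) (f' 1) = 1 + (f' 1 + f' 1) + f' (f' 1) + f' (f' (f' 1)) := by
    simp only [f', AddMonoidHom.coe_mulLeft, bE_apply, map_mul, h9, map_one]
    linear_combination -hη
  have e2 : bE 9 (1 : E) (f' (f' 1)) = f' (f' 1) - f' (f' (f' 1)) := by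
    simp only [f', AddMonoidHom.coe_mulLeft, bE_apply, map_mul, h9, map_one]
    linear_combination -η ^ 3 * h5
  have : io4 f' 1 (a, a + a, a + b, a - b) = 0 := by
    rw [← hc, io4_apply, io3_apply, e1, e2]
    module
  have := (injective_iff_map_eq_zero _).1 (io4_inj f' hf' one_ne_zero) _ this
  simp only [Prod.mk_eq_zero] at this ⊢
  obtain ⟨h1, -, h2, -⟩ := this
  exact ⟨h1, by simpa [h1] using h2⟩

end Cfsg.Agent.U3Id
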