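import Mathlib
import Cfsg.Agent.U3Id.Lin

/-!
Coordinates on a special group of order `q ^ 3`, `q = 7, 9`.
-/

set_option autoImplicit false

namespace Cfsg.Agent.U3Id

open Cfsg Cfsg.Agent.Amalg Function Subgroup
open scoped IsMulCommutative commutatorElement

variable {Q : Type*} [Group Q]

/-- class two, and every central element is a commutator -/
structure Sp (Q : Type*) [Group Q] : Prop where
  hc : ∀ x y : Q, ⁅x, y⁆ ∈ center Q
  hs : ∀ z ∈ center Q, ∃ x y : Q, ⁅x, y⁆ = z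

theorem comm_mul_left (hc : ∀ x y : Q, ⁅x, y⁆ ∈ center Q) (x x' y : Q) :
    ⁅x * x', y⁆ = ⁅x, y⁆ * ⁅x', y⁆ := by
  have := mem_center_iff.1 (hc x' y) x
  have h2 := mem_center_iff.1 (hc x' y) ⁅x, y⁆
  calc ⁅x * x', y⁆ = x * ⁅x', y⁆ * (y * x⁻¹ * y⁻¹) := by simp only [commutatorElement_def]; group
    _ = ⁅x', y⁆ * ⁅x, y⁆ := by rw [this]; simp only [commutatorElement_def]; group
    _ = _ := h2.symm

theorem comm_mul_right (hc : ∀ x y : Q, ⁅x, y⁆ ∈ center Q) (x y y' : Q) :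
    ⁅x, y * y'⁆ = ⁅x, y⁆ * ⁅x, y'⁆ := by
  have := mem_center_iff.1 (hc x y') y
  calc ⁅x, y * y'⁆ = ⁅x, y⁆ * (y * ⁅x, y'⁆ * y⁻¹) := by simp only [commutatorElement_def]; group
    _ = _ := by rw [this]; group

theorem Sp.commutator_eq (h : Sp Q) : commutator Q = center Q := by
  apply le_antisymm
  · rw [commutator_def, commutator_le]
    exact fun x _ y _ => h.hc x y
  · intro z hz
    obtain ⟨x, y, rfl⟩ := h.hs z hz
    exact commutator_mem_commutator (mem_top x) (mem_top y)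

/-- the class of an element in the additive abelianization -/
def ab (x : Q) : Additive (Abelianization Q) := Additive.ofMul (Abelianization.of x)

theorem ab_mul (x y : Q) : ab (x * y) = ab x + ab y := by simp [ab]

theorem ab_surj (v : Additive (Abelianization Q)) : ∃ x, ab x = v := by
  obtain ⟨x, hx⟩ := QuotientGroup.mk_surjective (Additive.toMul v)
  exact ⟨x, congrArg Additive.ofMul hx⟩

theorem Sp.ab_eq_zero (h : Sp Q) (x : Q) : ab x = 0 ↔ x ∈ center Q := by
  rw [← h.commutator_eq, ← Abelianization.ker_of, MonoidHom.mem_ker]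
  exact ofMul_eq_zero

theorem Sp.exists_beta (h : Sp Q) :
    ∃ β : Additive (Abelianization Q) →+ Additive (Abelianization Q) →+ Additive (center Q),
      ∀ x y, β (ab x) (ab y) = Additive.ofMul ⟨⁅x, y⁆, h.hc x y⟩ := by
  let c : Q → Q →* center Q := fun x =>
    MonoidHom.mk' (fun y => ⟨⁅x, y⁆, h.hc x y⟩) fun y y' => Subtype.ext (comm_mul_right h.hc x y y')
  let c' : Q →* (Abelianization Q →* center Q) :=
    MonoidHom.mk' (fun x => Abelianization.lift (c x)) fun x x' => by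
      ext y
      simp [c, comm_mul_left h.hc]
  let B := Abelianization.lift c'
  refine ⟨AddMonoidHom.mk' (fun v => AddMonoidHom.mk'
    (fun w => Additive.ofMul (B v.toMul w.toMul)) fun w w' => by simp) fun v v' => ?_,
    fun x y => by simp [B, c', c, ab]⟩
  ext w
  simp

theorem Sp.card_ab [Finite Q] (h : Sp Q) :
    Nat.card (Additive (Abelianization Q)) * Nat.card (center Q) = Nat.card Q := by
  rw [← h.commutator_eq]
  exact (card_eq_card_quotient_mul_card_subgroup (commutator Q)).symm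

/-- the additive map induced on the abelianization -/
def abm (φ : Q →* Q) : Additive (Abelianization Q) →+ Additive (Abelianization Q) :=
  MonoidHom.toAdditive (Abelianization.map φ)

theorem abm_ab (φ : Q →* Q) (x : Q) : abm φ (ab x) = ab (φ x) := rfl

variable {E : Type*} [Field E] [Fintype E]

/-- the conclusion of the coordinatisation -/
structure Cd (q : ℕ) [Fact (Fintype.card E = q ^ 2)] (τ φ : Q →* Q) (ε : E) (π Y : Q → E) :
    Prop where
  hπ : ∀ x y, π (x * y) = π x + π y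
  hY : ∀ x y, Y (x * y) = Y x + Y y + cj q (π x) * π y
  hiso : ∀ x, Y x + cj q (Y x) = π x * cj q (π x)
  hinj : ∀ x, π x = 0 → Y x = 0 → x = 1
  hsurj : ∀ p y, y + cj q y = p * cj q p → ∃ x, π x = p ∧ Y x = y
  hcen : ∀ x, π x = 0 ↔ x ∈ center Q
  πφ : ∀ x, π (φ x) = ε * π x
  Yφ : ∀ x, Y (φ x) = Y x
  πτ : ∀ x, π (τ x) = -π x
  Yτ : ∀ x, Y (τ x) = Y x

theorem Sp.cd {q : ℕ} [Fact (Fintype.card E = q ^ 2)] (h : Sp Q) (h2 : (2 : E) ≠ 0)
    {τ φ : Q →* Q} (hτz : ∀ z ∈ center Q, τ z = z) (hτ : ∀ x, τ x * x ∈ center Q)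
    (hττ : ∀ x, τ (τ x) = x)
    (hφz : ∀ z ∈ center Q, φ z = z) (hφτ : ∀ x, φ (τ x) = τ (φ x)) {ε : E}
    (hε : ε * cj q ε = 1)
    {β : Additive (Abelianization Q) →+ Additive (Abelianization Q) →+ Additive (center Q)}
    (hβ : ∀ x y, β (ab x) (ab y) = Additive.ofMul ⟨⁅x, y⁆, h.hc x y⟩)
    (π : Additive (Abelianization Q) ≃+ E) (ζ : Additive (center Q) →+ E) (hζ : Injective ζ)
    (hf : ∀ v, π (abm φ v) = ε * π v)
    (hb : ∀ v w, ζ (β v w) = cj q (π v) * π w - cj q (π w) * π v) :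
    ∃ π' Y : Q → E, Cd q τ φ ε π' Y := by
  have e2 : cj q (2 : E) = 2 := map_ofNat _ 2
  let s : Q → E := fun x => ζ (Additive.ofMul ⟨τ x * x, hτ x⟩)
  have hab : ∀ x, ab (τ x) = -ab x := fun x => by
    have := (h.ab_eq_zero _).2 (hτ x)
    rw [ab_mul] at this
    exact eq_neg_of_add_eq_zero_left this
  have hζ0 : ∀ w, ζ w + cj q (ζ w) = 0 := fun w => by
    obtain ⟨x, y, e⟩ := h.hs _ w.toMul.2
    have : w = β (ab x) (ab y) := by rw [hβ]; exact congrArg Additive.ofMul (Subtype.ext e.symm)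
    rw [this, hb]
    simp [cj_cj]; ring
  have smul : ∀ x y, s (x * y) = s x + s y +
      (cj q (π (ab x)) * π (ab y) - cj q (π (ab y)) * π (ab x)) := fun x y => by
    have k : β (ab x⁻¹) (ab y⁻¹) = β (ab x) (ab y) := by
      have : ∀ x : Q, ab x⁻¹ = -ab x := fun x => by simp [ab]
      simp [this]
    rw [← hb, ← k, hβ]
    simp only [s, ← map_add, ← ofMul_mul]
    congr 2
    apply Subtype.ext
    have a1 := mem_center_iff.1 (hτ y)
    simp only [coe_mul, map_mul, commutatorElement_def, inv_inv]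
    calc τ x * τ y * (x * y) = τ x * (τ y * y) * (y⁻¹ * x * y) := by group
      _ = τ x * x * (x⁻¹ * (τ y * y)) * (y⁻¹ * x * y) := by group
      _ = _ := by rw [a1 x⁻¹]; group
  have scen : ∀ z (hz : z ∈ center Q), s z = 2 * ζ (Additive.ofMul ⟨z, hz⟩) := fun z hz => by
    rw [two_mul, ← map_add, ← ofMul_mul]
    simp only [s]
    congr 2
    exact Subtype.ext (by simp [hτz z hz])
  have hcen : ∀ x, π (ab x) = 0 ↔ x ∈ center Q := fun x => by
    rw [← h.ab_eq_zero, map_eq_zero_iff _ π.injective]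
  have hY : ∀ x y, (π (ab (x * y)) * cj q (π (ab (x * y))) + s (x * y)) / 2 =
      (π (ab x) * cj q (π (ab x)) + s x) / 2 + (π (ab y) * cj q (π (ab y)) + s y) / 2 +
        cj q (π (ab x)) * π (ab y) := fun x y => by
    rw [smul, ab_mul, map_add, map_add]; field_simp; ring
  have hiso : ∀ x, (π (ab x) * cj q (π (ab x)) + s x) / 2 +
      cj q ((π (ab x) * cj q (π (ab x)) + s x) / 2) = π (ab x) * cj q (π (ab x)) := fun x => by
    have := hζ0 (Additive.ofMul ⟨τ x * x, hτ x⟩)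
    simp only [map_div₀, map_add, map_mul, cj_cj, e2]
    field_simp
    linear_combination this
  refine ⟨fun x => π (ab x), fun x => (π (ab x) * cj q (π (ab x)) + s x) / 2,
    fun x y => by rw [ab_mul, map_add], hY, hiso, fun x h0 h1 => ?_, fun p y hy => ?_, hcen,
    fun x => by rw [← abm_ab, hf], fun x => ?_, fun x => by rw [hab, map_neg], fun x => ?_⟩
  · have hx := (hcen x).1 h0
    simp only [h0, scen x hx] at h1
    have : ζ (Additive.ofMul ⟨x, hx⟩) = 0 := by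
      field_simp at h1; simpa [h2] using h1
    have := (injective_iff_map_eq_zero ζ).1 hζ _ this
    exact congrArg Subtype.val (ofMul_eq_zero.1 this)
  · obtain ⟨x, hx⟩ := ab_surj (π.symm p)
    have hp : π (ab x) = p := by rw [hx, π.apply_symm_apply]
    obtain ⟨x₁, h₁⟩ := ab_surj (π.symm 1)
    obtain ⟨x₂, h₂⟩ := ab_surj (π.symm ((y - (π (ab x) * cj q (π (ab x)) + s x) / 2) / 2))
    have hz := h.hc x₁ x₂
    have k := hb (ab x₁) (ab x₂)
    rw [hβ, h₁, h₂, π.apply_symm_apply, π.apply_symm_apply] at k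
    have k0 := (hcen _).2 hz
    refine ⟨x * ⁅x₁, x₂⁆, by rw [ab_mul, map_add, hp, k0, add_zero], ?_⟩
    have i := hiso x
    beta_reduce
    rw [hY, scen _ hz, k, k0]
    generalize (π (ab x) * cj q (π (ab x)) + s x) / 2 = w at i ⊢
    rw [hp, ← hy] at i
    simp only [map_div₀, map_sub, map_one, e2]
    field_simp
    linear_combination i
  · have : s (φ x) = s x := by
      simp only [s]
      congr 2
      exact Subtype.ext (by simp only [← hφτ, ← map_mul, hφz _ (hτ x)])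
    simp only [this, ← abm_ab, hf, map_mul]
    congr 1
    linear_combination π (ab x) * cj q (π (ab x)) * hε
  · have : s (τ x) = s x := by
      simp only [s]
      congr 2
      apply Subtype.ext
      have := mem_center_iff.1 (hτ x) x
      simp only [hττ]
      apply mul_right_cancel (b := x)
      rw [mul_assoc, this]
    simp only [this, hab, map_neg]
    ring

theorem Sp.beta_props (h : Sp Q)
    {β : Additive (Abelianization Q) →+ Additive (Abelianization Q) →+ Additive (center Q)}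
    (hβ : ∀ x y, β (ab x) (ab y) = Additive.ofMul ⟨⁅x, y⁆, h.hc x y⟩) :
    (∀ v, β v v = 0) ∧ ∀ w, ∃ x y, β x y = w := by
  refine ⟨fun v => ?_, fun w => ?_⟩
  · obtain ⟨x, rfl⟩ := ab_surj v
    rw [hβ, ofMul_eq_zero]
    exact Subtype.ext (by simp)
  · obtain ⟨x, y, e⟩ := h.hs _ w.toMul.2
    exact ⟨ab x, ab y, by rw [hβ]; exact congrArg Additive.ofMul (Subtype.ext e)⟩

theorem Sp.cd7 [Finite Q] [Fact (Fintype.card E = 7 ^ 2)] (h : Sp Q) (hQ : Nat.card Q = 343)
    (hZ : Nat.card (center Q) = 7) (hp : ∀ x : Q, x ^ 7 ∈ center Q)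
    {τ φ : Q →* Q} (hτz : ∀ z ∈ center Q, τ z = z) (hτ : ∀ x, τ x * x ∈ center Q)
    (hττ : ∀ x, τ (τ x) = x)
    (hφz : ∀ z ∈ center Q, φ z = z) (hφτ : ∀ x, φ (τ x) = τ (φ x))
    (hrel : ∀ x, ab (φ (φ x)) = (3 : ℤ) • ab (φ x) - ab x) {ε : E} (hε : ε ^ 2 = 3 * ε - 1) :
    ∃ π' Y : Q → E, Cd 7 τ φ ε π' Y := by
  haveI : Fact (Nat.Prime 7) := ⟨by norm_num⟩
  haveI : CharP E 7 := charP_of_card_eq_prime_pow (Fact.out (p := Fintype.card E = 7 ^ 2))
  have h7 : (7 : E) = 0 := by exact_mod_cast CharP.cast_eq_zero E 7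
  obtain ⟨β, hβ⟩ := h.exists_beta
  obtain ⟨b1, b2⟩ := h.beta_props hβ
  have hV := h.card_ab
  rw [hQ, hZ] at hV
  obtain ⟨π, ζ, k1, k2, k3⟩ := lin7 (W := Additive (center Q)) (by omega) hZ (fun v => by
      obtain ⟨x, rfl⟩ := ab_surj v
      rw [← (h.ab_eq_zero _).2 (hp x)]; simp [ab]) β b1 b2 (abm φ) (fun v => by
      obtain ⟨x, rfl⟩ := ab_surj v
      exact hrel x) ε hε
  refine h.cd (fun e => one_ne_zero (α := E) (by linear_combination h7 - 3 * e)) hτz hτ hττ hφz hφτ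
    ?_ hβ π ζ k1 k2 k3
  rw [cj_apply]
  linear_combination (ε ^ 6 + 3 * ε ^ 5 + 8 * ε ^ 4 + 21 * ε ^ 3 + 55 * ε ^ 2 + 144 * ε + 377) * hε +
    (141 * ε - 54) * h7

theorem Sp.cd9 [Finite Q] [Fact (Fintype.card E = 9 ^ 2)] (h : Sp Q) (hQ : Nat.card Q = 729)
    (hZ : Nat.card (center Q) = 9) (hp : ∀ x : Q, x ^ 3 ∈ center Q)
    {τ φ : Q →* Q} (hτz : ∀ z ∈ center Q, τ z = z) (hτ : ∀ x, τ x * x ∈ center Q)
    (hττ : ∀ x, τ (τ x) = x)
    (hφz : ∀ z ∈ center Q, φ z = z) (hφτ : ∀ x, φ (τ x) = τ (φ x))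
    (hrel : ∀ x, ab (φ (φ (φ (φ x)))) = -ab x - ab (φ x) - ab (φ (φ x)) - ab (φ (φ (φ x))))
    {η : E} (hη : η ^ 4 = -1 - η - η ^ 2 - η ^ 3) :
    ∃ π' Y : Q → E, Cd 9 τ φ η π' Y := by
  haveI : CharP E 3 := charP_of_card_eq_prime_pow (f := 4)
    (by rw [Fact.out (p := Fintype.card E = 9 ^ 2)]; norm_num)
  have h3 : (3 : E) = 0 := by exact_mod_cast CharP.cast_eq_zero E 3
  obtain ⟨β, hβ⟩ := h.exists_beta
  obtain ⟨b1, b2⟩ := h.beta_props hβ
  have hV := h.card_ab
  rw [hQ, hZ] at hV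
  have h3V : ∀ v : Additive (Abelianization Q), 3 • v = 0 := fun v => by
    obtain ⟨x, rfl⟩ := ab_surj v
    rw [← (h.ab_eq_zero _).2 (hp x)]; simp [ab]
  obtain ⟨π, ζ, k1, k2, k3⟩ := lin9 (W := Additive (center Q)) (by omega) hZ h3V (fun w => by
      obtain ⟨x, y, rfl⟩ := b2 w
      rw [← map_nsmul, h3V, map_zero]) β b1 b2 (abm φ) (fun v => by
      obtain ⟨x, rfl⟩ := ab_surj v
      exact hrel x) (fun v w => by
      obtain ⟨x, rfl⟩ := ab_surj v
      obtain ⟨y, rfl⟩ := ab_surj w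
      rw [abm_ab, abm_ab, hβ, hβ]
      congr 1
      exact Subtype.ext (by simp only [← map_commutatorElement, hφz _ (h.hc x y)])) η hη
  refine h.cd (fun e => one_ne_zero (α := E) (by linear_combination h3 - e)) hτz hτ hττ hφz hφτ
    ?_ hβ π ζ k1 k2 k3
  rw [cj_apply]
  linear_combination (η ^ 5 + 1) * (η - 1) * hη

end Cfsg.Agent.U3Id
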