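import Mathlib
import Cfsg.Agent.Amalg.UFrame

/-!
The hermitian form with a hyperbolic pair in odd characteristic, and `SU₃(q)` in these coordinates.
-/

set_option autoImplicit false

namespace Cfsg.Agent.U3Id

open Cfsg Cfsg.Agent.Amalg Subgroup Matrix

variable {E : Type*} [Field E] [Fintype E] {q : ℕ} [Fact (Fintype.card E = q ^ 2)]

/-- The hermitian form with a hyperbolic pair in the coordinates `0`, `2`. -/
def hB (q : ℕ) [Fact (Fintype.card E = q ^ 2)] (u v : Fin 3 → E) : E :=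
  u 0 * cj q (v 2) + u 2 * cj q (v 0) - u 1 * cj q (v 1)

theorem exists_P (h2 : (2 : E) ≠ 0) :
    ∃ P Pi : Matrix (Fin 3) (Fin 3) E, P * Pi = 1 ∧ Pi * P = 1 ∧
      ∀ u v, hf q (P *ᵥ u) (P *ᵥ v) = hB q u v := by
  obtain ⟨c, hc⟩ := exists_norm_eq q (s := (-1 : E)) (by simp)
  have hc0 : c ≠ 0 := by rintro rfl; simp at hc
  have h1 : !![1, 0, 2⁻¹; 0, c, 0; c, 0, -(c * 2⁻¹)] * !![2⁻¹, 0, 2⁻¹ * c⁻¹; 0, c⁻¹, 0; 1, 0, -c⁻¹] =
      (1 : Matrix (Fin 3) (Fin 3) E) := by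
    ext i j
    fin_cases i <;> fin_cases j <;> simp [Matrix.mul_apply, Fin.sum_univ_three, hc0] <;>
      field_simp <;> ring
  refine ⟨_, _, h1, mul_eq_one_comm.1 h1, fun u v => ?_⟩
  have e2 : cj q (2 : E) = 2 := map_ofNat _ 2
  have hh : (2 : E) * 2⁻¹ = 1 := mul_inv_cancel₀ h2
  simp only [hf, hB, Fin.sum_univ_three, mulVec, dotProduct]
  simp [e2]
  generalize (2 : E)⁻¹ = d at hh
  linear_combination (u 0 * cj q (v 0) - d * u 0 * cj q (v 2) - d * u 2 * cj q (v 0) +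
    d * d * u 2 * cj q (v 2) + u 1 * cj q (v 1)) * hc +
    (u 0 * cj q (v 2) + u 2 * cj q (v 0)) * hh

theorem exists_rho (h2 : (2 : E) ≠ 0) :
    ∃ ρ : SU 3 E q →* Matrix (Fin 3) (Fin 3) E, Function.Injective ρ ∧
      (∀ A, (ρ A).det = 1) ∧ (∀ A u v, hB q (ρ A *ᵥ u) (ρ A *ᵥ v) = hB q u v) ∧
      (∀ M : Matrix (Fin 3) (Fin 3) E, M.det = 1 →
        (∀ u v, hB q (M *ᵥ u) (M *ᵥ v) = hB q u v) → ∃ A, ρ A = M) ∧
      ∀ A, A ∈ center (SU 3 E q) ↔ ∃ l : E, ∀ v, ρ A *ᵥ v = l • v := by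
  obtain ⟨P, Pi, h1, h1', hP⟩ := exists_P (q := q) h2
  have hd : P.det * Pi.det = 1 := by rw [← det_mul, h1, det_one]
  have hv : ∀ v, P *ᵥ (Pi *ᵥ v) = v := fun v => by rw [mulVec_mulVec, h1, one_mulVec]
  have hv' : ∀ v, Pi *ᵥ (P *ᵥ v) = v := fun v => by rw [mulVec_mulVec, h1', one_mulVec]
  let ρ : SU 3 E q →* Matrix (Fin 3) (Fin 3) E :=
    { toFun := fun A => Pi * suM A * P
      map_one' := by rw [suM_one, mul_one, h1']
      map_mul' := fun A B => by
        rw [suM_mul]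
        calc Pi * (suM A * suM B) * P = Pi * suM A * (P * Pi) * suM B * P := by
              rw [h1]; simp only [mul_one, mul_assoc]
          _ = _ := by simp only [mul_assoc] }
  have hρ : ∀ A v, ρ A *ᵥ v = Pi *ᵥ (A • (P *ᵥ v)) := fun A v => by
    rw [su_smul_def, mulVec_mulVec, mulVec_mulVec]; rfl
  refine ⟨ρ, fun A B e => ?_, fun A => ?_, fun A u v => ?_, fun M hM hB => ?_,
    fun A => ⟨fun h => ?_, ?_⟩⟩
  · refine su_ext_vec fun v => ?_
    have := congrArg (fun M => P *ᵥ (M *ᵥ (Pi *ᵥ v))) e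
    simpa only [hρ, hv] using this
  · change (Pi * suM A * P).det = 1
    rw [det_mul, det_mul, suM_det]
    linear_combination hd
  · rw [← hP, hρ, hρ, hv, hv, hf_smul_smul, hP]
  · refine ⟨⟨⟨P * M * Pi, ?_⟩, fun u v => ?_⟩, ?_⟩
    · rw [det_mul, det_mul, hM]; linear_combination hd
    · change hf q ((P * M * Pi) *ᵥ u) ((P * M * Pi) *ᵥ v) = hf q u v
      rw [← mulVec_mulVec, ← mulVec_mulVec, ← mulVec_mulVec, ← mulVec_mulVec, hP, hB, ← hP, hv, hv]
    · change Pi * (P * M * Pi) * P = M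
      calc _ = (Pi * P) * M * (Pi * P) := by simp only [mul_assoc]
        _ = M := by rw [h1', one_mul, mul_one]
  · obtain ⟨l, hl⟩ := center_scalar3 h
    exact ⟨l, fun v => by rw [hρ, hl, mulVec_smul, hv']⟩
  · rintro ⟨l, hl⟩
    rw [mem_center_iff]
    intro B
    refine (scalar_comm (l := l) (fun v => ?_) B).symm
    have := congrArg (P *ᵥ ·) (hl (Pi *ᵥ v))
    simpa only [hρ, hv, mulVec_smul] using this

theorem iso_cases {v : Fin 3 → E} (hv : hB q v v = 0) : (∃ c : E, v = c • ![0, 0, 1]) ∨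
      ∃ c p y : E, y + cj q y = p * cj q p ∧ v = c • ![1, p, y] := by
  by_cases h0 : v 0 = 0
  · left
    have h1 : v 1 = 0 := by simpa [hB, h0] using hv
    exact ⟨v 2, by ext i; fin_cases i <;> simp [h0, h1]⟩
  · right
    have h0' : cj q (v 0) ≠ 0 := by simpa using h0
    refine ⟨v 0, v 1 / v 0, v 2 / v 0, ?_, by ext i; fin_cases i <;> simp [mul_div_cancel₀, h0]⟩
    simp only [map_div₀]
    field_simp
    unfold hB at hv
    linear_combination hv

/-- a matrix of `SU₃` fixing the two hyperbolic lines is determined by one eigenvalue -/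
theorem diag_eq {M M' : Matrix (Fin 3) (Fin 3) E} (hd : M.det = 1) (hd' : M'.det = 1)
    (hM : ∀ u v, hB q (M *ᵥ u) (M *ᵥ v) = hB q u v)
    (hM' : ∀ u v, hB q (M' *ᵥ u) (M' *ᵥ v) = hB q u v) {c b b' : E}
    (h1 : M *ᵥ ![0, 0, 1] = c • ![0, 0, 1]) (h0 : M *ᵥ ![1, 0, 0] = b • ![1, 0, 0])
    (h1' : M' *ᵥ ![0, 0, 1] = c • ![0, 0, 1]) (h0' : M' *ᵥ ![1, 0, 0] = b' • ![1, 0, 0]) :
    M = M' := by
  have key : ∀ {N : Matrix (Fin 3) (Fin 3) E} {b : E}, N.det = 1 →
      (∀ u v, hB q (N *ᵥ u) (N *ᵥ v) = hB q u v) → N *ᵥ ![0, 0, 1] = c • ![0, 0, 1] →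
      N *ᵥ ![1, 0, 0] = b • ![1, 0, 0] →
      N = !![(cj q c)⁻¹, 0, 0; 0, cj q c * c⁻¹, 0; 0, 0, c] := by
    intro N b hd hN h1 h0
    have e1 := hN ![1, 0, 0] ![0, 0, 1]
    have e2 := hN ![0, 1, 0] ![0, 0, 1]
    have e3 := hN ![0, 1, 0] ![1, 0, 0]
    rw [h0, h1] at e1
    rw [h1] at e2
    rw [h0] at e3
    have hb : b * cj q c = 1 := by simpa [hB] using e1
    have hc0 : cj q c ≠ 0 := by rintro h; simp [h] at hb
    have hc0' : c ≠ 0 := by simpa using hc0
    have hb0 : b ≠ 0 := by rintro rfl; simp at hb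
    have a01 : N 0 1 = 0 := by
      simpa [hB, mulVec, dotProduct, Fin.sum_univ_three, hc0'] using e2
    have a21 : N 2 1 = 0 := by
      simpa [hB, mulVec, dotProduct, Fin.sum_univ_three, hb0] using e3
    have c0 := fun i => congrFun h0 i
    have c2 := fun i => congrFun h1 i
    simp only [mulVec, dotProduct, Fin.sum_univ_three] at c0 c2
    have a00 : N 0 0 = b := by simpa using c0 0
    have a10 : N 1 0 = 0 := by simpa using c0 1
    have a20 : N 2 0 = 0 := by simpa using c0 2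
    have a02 : N 0 2 = 0 := by simpa using c2 0
    have a12 : N 1 2 = 0 := by simpa using c2 1
    have a22 : N 2 2 = c := by simpa using c2 2
    have hb' : b = (cj q c)⁻¹ := eq_inv_of_mul_eq_one_left hb
    have a11 : N 1 1 = cj q c * c⁻¹ := by
      rw [det_fin_three] at hd
      simp only [a00, a10, a20, a02, a12, a22, a01, a21, hb'] at hd
      field_simp at hd ⊢
      linear_combination hd
    ext i j
    fin_cases i <;> fin_cases j <;> simp [*]
  rw [key hd hM h1 h0, key hd' hM' h1' h0']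

theorem scalar_of (h2 : (2 : E) ≠ 0) {M : Matrix (Fin 3) (Fin 3) E}
    (h1 : ∃ c : E, M *ᵥ ![0, 0, 1] = c • ![0, 0, 1])
    (h0 : ∀ p y : E, y + cj q y = p * cj q p → ∃ c : E, M *ᵥ ![1, p, y] = c • ![1, p, y]) :
    ∃ l : E, ∀ v, M *ᵥ v = l • v := by
  obtain ⟨c, hc⟩ := h1
  obtain ⟨e, he⟩ := exists_cj_ne (F := E) q
  have hδ : e - cj q e ≠ 0 := fun h => he (sub_eq_zero.1 h).symm
  have hδ' : e - cj q e + cj q (e - cj q e) = 0 := by simp [cj_cj]
  generalize e - cj q e = δ at hδ hδ'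
  have e2 : cj q (2 : E) = 2 := map_ofNat _ 2
  have hh : (2 : E)⁻¹ + 2⁻¹ = 1 := by field_simp; ring
  have hy : (2 : E)⁻¹ + cj q 2⁻¹ = 1 := by rw [map_inv₀, e2, hh]
  generalize (2 : E)⁻¹ = y at hy
  obtain ⟨c1, h1⟩ := h0 0 0 (by simp)
  obtain ⟨c2, h2'⟩ := h0 0 δ (by simpa using hδ')
  obtain ⟨c3, h3⟩ := h0 1 y (by simpa using hy)
  obtain ⟨c4, h4⟩ := h0 1 (y + δ) (by simp; linear_combination hy + hδ')
  have k := fun i => congrFun hc i
  have k1 := fun i => congrFun h1 i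
  have k2 := fun i => congrFun h2' i
  have k3 := fun i => congrFun h3 i
  have k4 := fun i => congrFun h4 i
  simp only [mulVec, dotProduct, Fin.sum_univ_three] at k k1 k2 k3 k4
  have a00 : M 0 0 = c1 := by simpa using k1 0
  have a10 : M 1 0 = 0 := by simpa using k1 1
  have a20 : M 2 0 = 0 := by simpa using k1 2
  have a02 : M 0 2 = 0 := by simpa using k 0
  have a12 : M 1 2 = 0 := by simpa using k 1
  have a22 : M 2 2 = c := by simpa using k 2
  have e1 : c1 = c2 := by simpa [a00, a02] using k2 0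
  have e2 : c = c2 := by simpa [a20, a22, hδ] using k2 2
  have f0 : c1 + M 0 1 = c3 := by simpa [a00, a02] using k3 0
  have f1 : M 1 1 = c3 := by simpa [a10, a12] using k3 1
  have f2 : M 2 1 + c * y = c3 * y := by simpa [a20, a22] using k3 2
  have g1 : M 1 1 = c4 := by simpa [a10, a12] using k4 1
  have g2 : M 2 1 + c * (y + δ) = c4 * (y + δ) := by simpa [a20, a22] using k4 2
  have e3 : c3 = c := by
    apply mul_right_cancel₀ hδ
    linear_combination f2 - g2 + (y + δ) * (g1 - f1)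
  have a01 : M 0 1 = 0 := by linear_combination f0 + e3 + e2 - e1
  have a21 : M 2 1 = 0 := by linear_combination f2 + y * e3
  refine ⟨c, fun v => ?_⟩
  have : M = c • (1 : Matrix (Fin 3) (Fin 3) E) := by
    ext i j
    fin_cases i <;> fin_cases j <;> simp [a00, a10, a20, a02, a12, a22, a01, a21, f1, e3, e1, e2]
  rw [this, smul_mulVec, one_mulVec]

/-- a circle meets a line in at most two points -/
theorem circle_line {β₁ β₂ β₃ A B A' γ : E} (h12 : β₁ ≠ β₂) (h13 : β₁ ≠ β₃) (h23 : β₂ ≠ β₃)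
    (c1 : (A + B * β₁) + cj q (A + B * β₁) = β₁ * cj q β₁)
    (c2 : (A + B * β₂) + cj q (A + B * β₂) = β₂ * cj q β₂)
    (c3 : (A + B * β₃) + cj q (A + B * β₃) = β₃ * cj q β₃)
    (l1 : (A' + γ * β₁) + cj q (A' + γ * β₁) = 0)
    (l2 : (A' + γ * β₂) + cj q (A' + γ * β₂) = 0)
    (l3 : (A' + γ * β₃) + cj q (A' + γ * β₃) = 0) : γ = 0 := by
  by_contra hγ
  simp only [map_add, map_mul] at c1 c2 c3 l1 l2 l3
  have hBB := cj_cj q B
  -- `b i = γ (β i - B̄)` are roots of one quadratic polynomial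
  set s := -(A' + cj q A') - γ * cj q B - cj q γ * B with hs
  set n := γ * cj q γ * (A + cj q A + B * cj q B) with hn
  have r : ∀ β : E, A + B * β + (cj q A + cj q B * cj q β) = β * cj q β →
      A' + γ * β + (cj q A' + cj q γ * cj q β) = 0 →
      (γ * (β - cj q B)) ^ 2 - s * (γ * (β - cj q B)) + n = 0 := fun β c l => by
    rw [hs, hn]
    linear_combination (γ * (β - cj q B)) * l + γ * cj q γ * c
  have r1 := r _ c1 l1
  have r2 := r _ c2 l2
  have r3 := r _ c3 l3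
  have d12 : γ * (β₁ - β₂) ≠ 0 := mul_ne_zero hγ (sub_ne_zero.2 h12)
  have d13 : γ * (β₁ - β₃) ≠ 0 := mul_ne_zero hγ (sub_ne_zero.2 h13)
  have e12 : γ * (β₁ - cj q B) + γ * (β₂ - cj q B) = s := by
    apply mul_left_cancel₀ d12; linear_combination r1 - r2
  have e13 : γ * (β₁ - cj q B) + γ * (β₃ - cj q B) = s := by
    apply mul_left_cancel₀ d13; linear_combination r1 - r3
  exact mul_ne_zero hγ (sub_ne_zero.2 h23) (by linear_combination e12 - e13)

end Cfsg.Agent.U3Id
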