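import Mathlib
import Cfsg.Agent.U3Id.Form

/-!
Recognition of `PSU₃(q)`, `q` odd, from coordinates on a unital.
-/

set_option autoImplicit false

namespace Cfsg.Agent.U3Id

open Cfsg Cfsg.Agent.Amalg Subgroup Matrix MulAction

/-- Coordinates on the regular normal subgroup of a point stabiliser together with the
description of the fixed point sets of involutions. -/
structure Co {G Ω E : Type*} [Group G] [MulAction G Ω] [Field E] [Fintype E] (q : ℕ)
    [Fact (Fintype.card E = q ^ 2)] (U : Subgroup G) (a b : Ω) (t : G) (π Y : G → E) : Prop where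
  h2 : (2 : E) ≠ 0
  hUa : ∀ x ∈ U, x • a = a
  hba : b ≠ a
  hΩ : ∀ y, y ≠ a → ∃ x ∈ U, x • b = y
  hreg : ∀ x ∈ U, x • b = b → x = 1
  hn : ∀ g : G, g • a = a → ∀ x ∈ U, g * x * g⁻¹ ∈ U
  hπ : ∀ x ∈ U, ∀ y ∈ U, π (x * y) = π x + π y
  hY : ∀ x ∈ U, ∀ y ∈ U, Y (x * y) = Y x + Y y + cj q (π x) * π y
  hiso : ∀ x ∈ U, Y x + cj q (Y x) = π x * cj q (π x)
  hinj : ∀ x ∈ U, π x = 0 → Y x = 0 → x = 1
  hsurj : ∀ p y, y + cj q y = p * cj q p → ∃ x ∈ U, π x = p ∧ Y x = y
  uniq : ∀ s s' : G, orderOf s = 2 → orderOf s' = 2 → ∀ y y' : Ω, y ≠ y' → s • y = y →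
    s • y' = y' → s' • y = y → s' • y' = y' → s = s'
  ex : ∀ y y' : Ω, y ≠ y' → ∃ s : G, orderOf s = 2 ∧ s • y = y ∧ s • y' = y' ∧
    ∃ y'', y'' ≠ y ∧ y'' ≠ y' ∧ s • y'' = y''
  ot : orderOf t = 2
  ta : t • a = a
  tfix : ∀ x ∈ U, t • x • b = x • b ↔ π x = 0
  blk : ∀ i ∈ U, π i ≠ 0 → 2 * Y i = π i * cj q (π i) → ∃ s : G, orderOf s = 2 ∧
    (∀ y, s • y = y → ∃ j ∈ U, y = j • b ∧ Y j = Y i) ∧
    ∀ j ∈ U, Y j = Y i → π j * cj q (π j) = π i * cj q (π i) → s • j • b = j • b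

namespace Co

variable {G Ω E : Type*} [Group G] [MulAction G Ω] [Field E] [Fintype E] {q : ℕ}
  [Fact (Fintype.card E = q ^ 2)] {U : Subgroup G} {a b : Ω} {t : G} {π Y : G → E}

theorem pi_one (h : Co q U a b t π Y) : π 1 = 0 := by
  simpa using h.hπ 1 U.one_mem 1 U.one_mem

theorem Y_one (h : Co q U a b t π Y) : Y 1 = 0 := by
  simpa [h.pi_one] using h.hY 1 U.one_mem 1 U.one_mem

theorem ne_a (h : Co q U a b t π Y) {x : G} (hx : x ∈ U) : x • b ≠ a := fun e => h.hba (by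
  have := congrArg (x⁻¹ • ·) e
  simpa [h.hUa _ (U.inv_mem hx)] using this)

theorem inj (h : Co q U a b t π Y) {x y : G} (hx : x ∈ U) (hy : y ∈ U) (e : x • b = y • b) :
    x = y := by
  have := h.hreg (y⁻¹ * x) (U.mul_mem (U.inv_mem hy) hx) (by rw [mul_smul, e, inv_smul_smul])
  exact (inv_mul_eq_one.1 this).symm

theorem pi_inv (h : Co q U a b t π Y) {x : G} (hx : x ∈ U) : π x⁻¹ = -π x := by
  have a1 := h.hπ _ (U.inv_mem hx) _ hx
  rw [inv_mul_cancel, h.pi_one] at a1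
  linear_combination -a1

theorem Y_inv (h : Co q U a b t π Y) {x : G} (hx : x ∈ U) : Y x⁻¹ = cj q (Y x) := by
  have a1 := h.hY _ (U.inv_mem hx) _ hx
  rw [inv_mul_cancel, h.Y_one, h.pi_inv hx, map_neg] at a1
  linear_combination -a1 - h.hiso x hx

theorem coord (h : Co q U a b t π Y) {x y : G} (hx : x ∈ U) (hy : y ∈ U) (e : π x = π y)
    (e' : Y x = Y y) : x = y := by
  have hx' := U.inv_mem hx
  have := h.hinj (x⁻¹ * y) (U.mul_mem hx' hy) (by rw [h.hπ _ hx' _ hy, h.pi_inv hx, e]; ring)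
    (by rw [h.hY _ hx' _ hy, h.Y_inv hx, h.pi_inv hx, map_neg, e, e']
        linear_combination h.hiso y hy)
  exact inv_mul_eq_one.1 this

theorem cases (h : Co q U a b t π Y) (y : Ω) : y = a ∨ ∃ x ∈ U, y = x • b := by
  by_cases e : y = a
  · exact Or.inl e
  · obtain ⟨x, hx, e⟩ := h.hΩ y e
    exact Or.inr ⟨x, hx, e.symm⟩

open Classical in
/-- the vector attached to a point -/
noncomputable def v (h : Co q U a b t π Y) (y : Ω) : Fin 3 → E :=
  if e : y = a then ![0, 0, 1] else ![1, π (h.hΩ y e).choose, Y (h.hΩ y e).choose]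

theorem va (h : Co q U a b t π Y) : h.v a = ![0, 0, 1] := by simp [v]

theorem vx (h : Co q U a b t π Y) {x : G} (hx : x ∈ U) : h.v (x • b) = ![1, π x, Y x] := by
  have e := h.ne_a hx
  have hs := (h.hΩ _ e).choose_spec
  simp only [v, dif_neg e]
  rw [h.inj hs.1 hx hs.2]

theorem vb (h : Co q U a b t π Y) : h.v b = ![1, 0, 0] := by
  simpa [h.pi_one, h.Y_one] using h.vx U.one_mem

theorem v0 (h : Co q U a b t π Y) (y : Ω) : h.v y ≠ 0 := by
  rcases h.cases y with rfl | ⟨x, hx, rfl⟩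
  · rw [h.va]; intro e; simpa using congrFun e 2
  · rw [h.vx hx]; intro e; simpa using congrFun e 0

theorem vinj (h : Co q U a b t π Y) {y y' : Ω} {c : E} (e : h.v y = c • h.v y') : y = y' := by
  rcases h.cases y with rfl | ⟨x, hx, rfl⟩ <;> rcases h.cases y' with rfl | ⟨x', hx', rfl⟩
  · rfl
  · rw [h.va, h.vx hx'] at e
    have e0 : c = 0 := by simpa [eq_comm] using congrFun e 0
    simpa [e0] using congrFun e 2
  · rw [h.va, h.vx hx] at e
    simpa using congrFun e 0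
  · rw [h.vx hx, h.vx hx'] at e
    have e0 : c = 1 := by simpa [eq_comm] using congrFun e 0
    rw [h.coord hx hx' (by simpa [e0] using congrFun e 1) (by simpa [e0] using congrFun e 2)]

theorem viso (h : Co q U a b t π Y) (y : Ω) : hB q (h.v y) (h.v y) = 0 := by
  rcases h.cases y with rfl | ⟨x, hx, rfl⟩
  · simp [h.va, hB]
  · simp only [h.vx hx, hB]
    simp
    linear_combination h.hiso x hx

theorem conj_ord {s : G} (hs : orderOf s = 2) (g : G) : orderOf (g * s * g⁻¹) = 2 := by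
  rw [← hs]; exact (MulAut.conj g).orderOf_eq s

/-- elements of `U` act linearly on the vectors -/
theorem v_smul (h : Co q U a b t π Y) {x : G} (hx : x ∈ U) (y : Ω) :
    h.v (x • y) = !![1, 0, 0; π x, 1, 0; Y x, cj q (π x), 1] *ᵥ h.v y := by
  rcases h.cases y with rfl | ⟨y, hy, rfl⟩
  · rw [h.hUa x hx, h.va]; ext i; fin_cases i <;> simp [mulVec, dotProduct, Fin.sum_univ_three]
  · rw [← mul_smul x y, h.vx hy, h.vx (U.mul_mem hx hy), h.hπ _ hx _ hy, h.hY _ hx _ hy]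
    ext i; fin_cases i <;> simp [mulVec, dotProduct, Fin.sum_univ_three]
    ring

/-- the fixed points of `s` lie on a line -/
def OnLine (h : Co q U a b t π Y) (s : G) : Prop :=
  ∃ l : Fin 3 → E, l ≠ 0 ∧ ∀ y, s • y = y → l ⬝ᵥ h.v y = 0

theorem OnLine.conj {h : Co q U a b t π Y} {s : G} (hs : h.OnLine s) {x : G} (hx : x ∈ U) :
    h.OnLine (x * s * x⁻¹) := by
  obtain ⟨l, hl, hs⟩ := hs
  have hx' := U.inv_mem hx
  refine ⟨l ᵥ* !![1, 0, 0; π x⁻¹, 1, 0; Y x⁻¹, cj q (π x⁻¹), 1], fun e => hl ?_, fun y hy => ?_⟩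
  · have e0 := congrFun e 0
    have e1 := congrFun e 1
    have e2 := congrFun e 2
    simp [vecMul, dotProduct, Fin.sum_univ_three] at e0 e1 e2
    ext i
    fin_cases i <;> simp_all
  · rw [← dotProduct_mulVec, ← h.v_smul hx']
    refine hs _ ?_
    rw [mul_smul, mul_smul, smul_eq_iff_eq_inv_smul] at hy
    exact hy

theorem onLine_t (h : Co q U a b t π Y) : h.OnLine t := by
  refine ⟨![0, 1, 0], fun e => by simpa using congrFun e 1, fun y hy => ?_⟩
  rcases h.cases y with rfl | ⟨x, hx, rfl⟩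
  · simp [h.va, dotProduct, Fin.sum_univ_three]
  · simp [h.vx hx, dotProduct, Fin.sum_univ_three, (h.tfix x hx).1 hy]

theorem tb (h : Co q U a b t π Y) : t • b = b := by
  simpa using (h.tfix 1 U.one_mem).2 h.pi_one

theorem onLine_b (h : Co q U a b t π Y) {s : G} (hs : orderOf s = 2) (hb : s • b = b) {y : Ω}
    (hy : y ≠ b) (hsy : s • y = y) : h.OnLine s := by
  rcases h.cases y with rfl | ⟨x, hx, rfl⟩
  · rw [h.uniq s t hs h.ot _ _ hy hsy hb h.ta h.tb]; exact h.onLine_t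
  by_cases h0 : π x = 0
  · rw [h.uniq s t hs h.ot _ _ hy hsy hb ((h.tfix x hx).2 h0) h.tb]; exact h.onLine_t
  have hp0 : cj q (π x) ≠ 0 := by simpa using h0
  have hiso := h.hiso x hx
  have hY0 : Y x ≠ 0 := by
    intro e
    rw [e] at hiso
    exact mul_ne_zero h0 hp0 (by simpa using hiso.symm)
  have hY0' : cj q (Y x) ≠ 0 := by simpa using hY0
  have e2 : cj q (2 : E) = 2 := map_ofNat _ 2
  have h2 := h.h2
  -- the centre of the circle
  obtain ⟨i, hi, hpi, hYi⟩ := h.hsurj (-(cj q (Y x) / cj q (π x)))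
    (Y x * cj q (Y x) / (π x * cj q (π x)) / 2) (by
      simp only [map_neg, map_div₀, map_mul, cj_cj, e2]; field_simp; ring)
  obtain ⟨s', hs', hfix, hmem⟩ := h.blk i hi (by rw [hpi]; simp [hY0, h0]) (by
    rw [hpi, hYi]; simp only [map_neg, map_div₀, cj_cj]; field_simp)
  have hl : h.OnLine s' := by
    refine ⟨![Y i, 0, -1], fun e => by simpa using congrFun e 2, fun y hy => ?_⟩
    obtain ⟨j, hj, rfl, e⟩ := hfix y hy
    simp [h.vx hj, dotProduct, Fin.sum_univ_three, e]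
  have k1 : s' • i • b = i • b := hmem i hi rfl rfl
  have k2 : s' • (i * x) • b = (i * x) • b := by
    refine hmem _ (U.mul_mem hi hx) ?_ ?_
    · rw [h.hY _ hi _ hx, hpi]
      simp only [map_neg, map_div₀, cj_cj]; field_simp; ring
    · rw [h.hπ _ hi _ hx, hpi]
      simp only [map_neg, map_div₀, cj_cj, map_add]
      field_simp
      linear_combination (-(π x * cj q (π x))) * hiso
  have := hl.conj (U.inv_mem hi)
  rwa [← h.uniq s _ hs (conj_ord hs' i⁻¹) _ _ hy hsy hb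
    (by rw [inv_inv, mul_smul, mul_smul, ← mul_smul i x, k2, mul_smul, inv_smul_smul])
    (by rw [inv_inv, mul_smul, mul_smul, k1, inv_smul_smul])] at this

theorem onLine (h : Co q U a b t π Y) {s : G} (hs : orderOf s = 2) {y y' : Ω}
    (hy : y ≠ y') (e : s • y = y) (e' : s • y' = y') : h.OnLine s := by
  wlog hya : y ≠ a generalizing y y'
  · exact this hy.symm e' e (fun k => hy ((not_not.1 hya).trans k.symm))
  obtain ⟨x, hx, rfl⟩ := h.hΩ y hya
  have := (h.onLine_b (conj_ord hs x⁻¹) (y := x⁻¹ • y')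
    (by rw [inv_inv, mul_smul, mul_smul, e, inv_smul_smul])
    (fun k => hy (by rw [← k, smul_inv_smul]))
    (by rw [inv_inv, mul_smul, mul_smul, smul_inv_smul, e'])).conj hx
  simpa [mul_assoc] using this

/-- normalised coordinates with respect to the point `b` -/
theorem norm (h : Co q U a b t π Y) {y : Ω} (hy : y ≠ b) :
    ∃ c α β : E, c ≠ 0 ∧ α + cj q α = β * cj q β ∧ h.v y = c • ![α, β, 1] := by
  rcases h.cases y with rfl | ⟨x, hx, rfl⟩
  · exact ⟨1, 0, 0, one_ne_zero, by simp, by simp [h.va]⟩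
  have hiso := h.hiso x hx
  have hY0 : Y x ≠ 0 := by
    intro e
    rw [e] at hiso
    have : π x = 0 := by simpa using hiso.symm
    exact hy (by rw [h.hinj x hx this e, one_smul])
  have hY0' : cj q (Y x) ≠ 0 := by simpa using hY0
  refine ⟨Y x, (Y x)⁻¹, π x / Y x, hY0, ?_, ?_⟩
  · simp only [map_inv₀, map_div₀]; field_simp; linear_combination hiso
  · rw [h.vx hx]; ext i; fin_cases i <;> simp [hY0]; field_simp

/-- An element fixing `b` and all blocks through `b` is a transvection. -/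
theorem transl (h : Co q U a b t π Y) {z : G} (hzb : z • b = b)
    (hz : ∀ s : G, orderOf s = 2 → s • b = b → ∀ y : Ω, s • y = y → s • z • y = z • y) :
    ∃ δ : E, δ + cj q δ = 0 ∧ ∀ y, ∃ c : E,
      !![1, 0, δ; 0, 1, 0; 0, 0, 1] *ᵥ h.v y = c • h.v (z • y) := by
  classical
  have hne : ∀ y, y ≠ b → z • y ≠ b := fun y hy e => hy (by
    rw [← hzb] at e; exact (smul_left_cancel_iff z).1 e)
  choose! c α β hc hαβ hv using fun y (hy : y ≠ b) => h.norm hy
  have hinj : ∀ y y', y ≠ b → y' ≠ b → α y = α y' → β y = β y' → y = y' := fun y y' hy hy' e e' =>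
    h.vinj (c := c y * (c y')⁻¹) (by
      rw [hv y hy, hv y' hy', e, e', smul_smul, inv_mul_cancel_right₀ (hc y' hy')])
  have hline : ∀ {l : Fin 3 → E} {y}, y ≠ b → l ⬝ᵥ h.v y = 0 →
      l 0 * α y + l 1 * β y + l 2 = 0 := fun {l y} hy e => by
    rw [hv y hy, dotProduct_smul] at e
    simpa [hc y hy, dotProduct, Fin.sum_univ_three] using e
  have hβ : ∀ y, y ≠ b → β (z • y) = β y := fun y hy => by
    obtain ⟨s, hs, hsb, hsy, -⟩ := h.ex b y hy.symm
    obtain ⟨l, hl, hl'⟩ := h.onLine hs hy hsy hsb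
    have l0 : l 0 = 0 := by simpa [h.vb, dotProduct, Fin.sum_univ_three] using hl' b hsb
    have e1 := hline hy (hl' y hsy)
    have e2 := hline (hne y hy) (hl' _ (hz s hs hsb y hsy))
    have l1 : l 1 ≠ 0 := fun k => hl (by
      ext i; fin_cases i
      · exact l0
      · exact k
      · simpa [l0, k] using e1)
    apply mul_left_cancel₀ l1
    rw [l0] at e1 e2
    linear_combination e2 - e1
  have hδ : ∀ y, y ≠ b → (α (z • y) - α y) + cj q (α (z • y) - α y) = 0 := fun y hy => by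
    have e1 := hαβ y hy
    have e2 := hαβ _ (hne y hy)
    rw [hβ y hy] at e2
    rw [map_sub]; linear_combination e2 - e1
  -- a line through two points with different `β`
  have hAB : ∀ {s : G} {y y'}, orderOf s = 2 → y ≠ b → y' ≠ b → β y ≠ β y' → s • y = y →
      s • y' = y' → ∃ A B : E, ∀ w, s • w = w → w ≠ b ∧ α w = A + B * β w := by
    intro s y y' hs hy hy' hb e e'
    obtain ⟨l, hl, hl'⟩ := h.onLine hs (fun k => hb (by rw [k])) e e'
    have e1 := hline hy (hl' y e)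
    have e2 := hline hy' (hl' y' e')
    have l0 : l 0 ≠ 0 := fun k => hl (by
      rw [k] at e1 e2
      have l1 : l 1 = 0 := by
        apply mul_right_cancel₀ (sub_ne_zero.2 hb); linear_combination e1 - e2
      ext i; fin_cases i
      · exact k
      · exact l1
      · simpa [l1] using e1)
    refine ⟨-(l 2 / l 0), -(l 1 / l 0), fun w hw => ?_⟩
    have hwb : w ≠ b := by
      rintro rfl
      exact l0 (by simpa [h.vb, dotProduct, Fin.sum_univ_three] using hl' _ hw)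
    refine ⟨hwb, ?_⟩
    have := hline hwb (hl' w hw)
    field_simp
    linear_combination this
  have hcst : ∀ y y', y ≠ b → y' ≠ b → β y ≠ β y' → α (z • y) - α y = α (z • y') - α y' := by
    intro y y' hy hy' hb
    obtain ⟨s, hs, e, e', y'', n1, n2, e''⟩ := h.ex y y' (fun k => hb (by rw [k]))
    obtain ⟨A, B, hs1⟩ := hAB hs hy hy' hb e e'
    have hz' : ∀ w : Ω, s • w = w → (z * s * z⁻¹) • z • w = z • w := fun w hw => by
      rw [mul_smul, mul_smul, inv_smul_smul, hw]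
    obtain ⟨A', B', hs2⟩ := hAB (conj_ord hs z) (hne y hy) (hne y' hy')
      (by rwa [hβ y hy, hβ y' hy']) (hz' y e) (hz' y' e')
    obtain ⟨hy'', a3⟩ := hs1 y'' e''
    have a1 := (hs1 y e).2
    have a2 := (hs1 y' e').2
    have b1 := (hs2 _ (hz' y e)).2
    have b2 := (hs2 _ (hz' y' e')).2
    have b3 := (hs2 _ (hz' y'' e'')).2
    rw [hβ _ hy] at b1
    rw [hβ _ hy'] at b2
    rw [hβ _ hy''] at b3
    have d : ∀ w, w ≠ b → α w = A + B * β w → α (z • w) = A' + B' * β w →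
        (A' - A + (B' - B) * β w) + cj q (A' - A + (B' - B) * β w) = 0 := fun w hw e1 e2 => by
      have := hδ w hw
      rwa [e1, e2, show A' + B' * β w - (A + B * β w) = A' - A + (B' - B) * β w by ring] at this
    have := circle_line (q := q) (β₁ := β y) (β₂ := β y') (β₃ := β y'') (A := A) (B := B) hb
      (fun k => n1 (hinj _ _ hy'' hy (by rw [a1, a3, k]) k.symm))
      (fun k => n2 (hinj _ _ hy'' hy' (by rw [a2, a3, k]) k.symm))
      (a1 ▸ hαβ y hy) (a2 ▸ hαβ y' hy') (a3 ▸ hαβ y'' hy'')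
      (d y hy a1 b1) (d y' hy' a2 b2) (d y'' hy'' a3 b3)
    rw [a1, a2, b1, b2]
    linear_combination (β y - β y') * this
  have hab := h.hba.symm
  have hβa : β a = 0 := by
    have := congrFun (hv a hab) 1
    simpa [h.va, hc a hab] using this.symm
  obtain ⟨y₁, hy₁, hβ₁⟩ : ∃ y₁, y₁ ≠ b ∧ β y₁ ≠ 0 := by
    have e2 : cj q (2 : E) = 2 := map_ofNat _ 2
    obtain ⟨x, hx, e1, -⟩ := h.hsurj 1 2⁻¹ (by
      rw [map_inv₀, e2, map_one]; have := h.h2; field_simp; ring)
    have hxb : x • b ≠ b := fun k => by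
      rw [h.hreg x hx k, h.pi_one] at e1; exact zero_ne_one e1
    refine ⟨x • b, hxb, fun k => ?_⟩
    have := congrFun (hv _ hxb) 1
    simp [h.vx hx, e1, k] at this
  have hall : ∀ y, y ≠ b → α (z • y) - α y = α (z • a) - α a := fun y hy => by
    by_cases k : β y = 0
    · rw [hcst y y₁ hy hy₁ (by rw [k]; exact hβ₁.symm), hcst y₁ a hy₁ hab (by rwa [hβa])]
    · exact hcst y a hy hab (by rwa [hβa])
  refine ⟨_, hδ a hab, fun y => ?_⟩
  by_cases hy : y = b
  · refine ⟨1, ?_⟩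
    rw [hy, hzb, h.vb]; ext i; fin_cases i <;> simp [mulVec, dotProduct, Fin.sum_univ_three]
  · refine ⟨c y * (c (z • y))⁻¹, ?_⟩
    rw [hv y hy, hv _ (hne y hy), smul_smul, inv_mul_cancel_right₀ (hc _ (hne y hy)), hβ y hy,
      mulVec_smul, ← hall y hy]
    congr 1
    ext i; fin_cases i <;> simp [mulVec, dotProduct, Fin.sum_univ_three]

/-- **Recognition of `PSU₃(q)`** from the unital. -/
theorem psu [Finite G] [IsSimpleGroup G] [FaithfulSMul G Ω] [IsPretransitive G Ω]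
    (h : Co q U a b t π Y)
    (hK : q ^ 2 - 1 ≤ Nat.card ↥(stabilizer G a ⊓ stabilizer G b)) :
    Nonempty (G ≃* PSU 3 E q) := by
  classical
  obtain ⟨ρ, hρi, hρd, hρB, hρs, hρc⟩ := exists_rho (E := E) (q := q) h.h2
  have hinjv : ∀ A w, ρ A *ᵥ w = 0 → w = 0 := fun A w e => by
    have := congrArg (ρ A⁻¹ *ᵥ ·) e
    simpa only [mulVec_mulVec, ← map_mul, inv_mul_cancel, map_one, one_mulVec, mulVec_zero]
      using this
  let R : SU 3 E q → G → Prop := fun A g => ∀ y, ∃ c : E, ρ A *ᵥ h.v y = c • h.v (g • y)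
  have R1 : R 1 1 := fun y => ⟨1, by simp⟩
  have Rmul : ∀ A g B k, R A g → R B k → R (A * B) (g * k) := fun A g B k hA hB y => by
    obtain ⟨c, hc⟩ := hB y
    obtain ⟨d, hd⟩ := hA (k • y)
    exact ⟨c * d, by rw [map_mul, ← mulVec_mulVec, hc, mulVec_smul, hd, smul_smul, mul_smul g]⟩
  have Rc0 : ∀ A y w (c : E), ρ A *ᵥ h.v y = c • w → c ≠ 0 := fun A y w c e h0 =>
    h.v0 y (hinjv A _ (by rw [e, h0, zero_smul]))
  have Rinv : ∀ A g, R A g → R A⁻¹ g⁻¹ := fun A g hA y => by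
    obtain ⟨c, hc⟩ := hA (g⁻¹ • y)
    have hc0 := Rc0 _ _ _ _ hc
    refine ⟨c⁻¹, ?_⟩
    have := congrArg (ρ A⁻¹ *ᵥ ·) hc
    simp only [mulVec_mulVec, ← map_mul, inv_mul_cancel, map_one, one_mulVec, smul_inv_smul,
      mulVec_smul] at this
    rw [this, smul_smul, inv_mul_cancel₀ hc0, one_smul]
  have Runiq : ∀ A g k, R A g → R A k → g = k := fun A g k hg hh => by
    refine eq_of_smul_eq_smul (α := Ω) fun y => ?_
    obtain ⟨c, hc⟩ := hg y
    obtain ⟨d, hd⟩ := hh y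
    refine h.vinj (c := c⁻¹ * d) ?_
    rw [mul_smul, ← hd, hc, smul_smul, inv_mul_cancel₀ (Rc0 _ _ _ _ hc), one_smul]
  have hMU : ∀ x ∈ U, ∃ A, R A x := fun x hx => by
    obtain ⟨A, hA⟩ := hρs !![1, 0, 0; π x, 1, 0; Y x, cj q (π x), 1]
      (by simp [det_fin_three]) (fun u w => by
        simp only [hB, mulVec, dotProduct, Fin.sum_univ_three]
        simp [cj_cj]
        linear_combination u 0 * cj q (w 0) * h.hiso x hx)
    exact ⟨A, fun y => ⟨1, by rw [hA, h.v_smul hx, one_smul]⟩⟩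
  let H : Subgroup G :=
    { carrier := {g | ∃ A, R A g}
      one_mem' := ⟨1, R1⟩
      mul_mem' := fun ⟨A, hA⟩ ⟨B, hB⟩ => ⟨A * B, Rmul _ _ _ _ hA hB⟩
      inv_mem' := fun ⟨A, hA⟩ => ⟨A⁻¹, Rinv _ _ hA⟩ }
  have hUH : ∀ x ∈ U, x ∈ H := hMU
  -- a nontrivial central element of `U`
  obtain ⟨z, hzU, hπz, hz1⟩ : ∃ z ∈ U, π z = 0 ∧ z ≠ 1 := by
    obtain ⟨e, he⟩ := exists_cj_ne (F := E) q
    obtain ⟨z, hz, e1, e2⟩ := h.hsurj 0 (e - cj q e) (by simp [cj_cj])
    refine ⟨z, hz, e1, ?_⟩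
    rintro rfl
    rw [h.Y_one] at e2
    exact he (sub_eq_zero.1 e2.symm).symm
  have hzc : ∀ x ∈ U, z * x = x * z := fun x hx =>
    h.coord (U.mul_mem hzU hx) (U.mul_mem hx hzU)
      (by rw [h.hπ _ hzU _ hx, h.hπ _ hx _ hzU, add_comm])
      (by rw [h.hY _ hzU _ hx, h.hY _ hx _ hzU, hπz]; simp [add_comm])
  have hzblk : ∀ s : G, orderOf s = 2 → s • a = a → ∀ y : Ω, s • y = y → s • z • y = z • y := by
    intro s hs hsa y hy
    rcases h.cases y with rfl | ⟨x, hx, rfl⟩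
    · rw [h.hUa z hzU, hsa]
    · have : s = x * t * x⁻¹ := h.uniq _ _ hs (conj_ord h.ot x) _ _ (h.ne_a hx) hy hsa
        (by rw [mul_smul, mul_smul, inv_smul_smul, h.tb])
        (by rw [mul_smul, mul_smul, h.hUa _ (U.inv_mem hx), h.ta, h.hUa _ hx])
      rw [this, ← mul_smul z x, hzc x hx, mul_smul x z, mul_smul, mul_smul, inv_smul_smul,
        (h.tfix z hzU).2 hπz]
  have hconj : ∀ g : G, g • a = b → g * z * g⁻¹ ∈ H := fun g hg => by
    obtain ⟨δ, hδ, hM⟩ := h.transl (z := g * z * g⁻¹)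
      (by rw [← hg, mul_smul, mul_smul, inv_smul_smul, h.hUa z hzU]) (fun s hs hsb y hy => by
        have := hzblk (g⁻¹ * s * g⁻¹⁻¹) (conj_ord hs _)
          (by rw [inv_inv, mul_smul, mul_smul, hg, hsb, ← hg, inv_smul_smul]) (g⁻¹ • y)
          (by rw [inv_inv, mul_smul, mul_smul, smul_inv_smul, hy])
        rw [inv_inv, mul_smul, mul_smul, inv_smul_eq_iff] at this
        simpa only [mul_smul] using this)
    obtain ⟨A, hA⟩ := hρs !![1, 0, δ; 0, 1, 0; 0, 0, 1] (by simp [det_fin_three]) (fun u w => by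
      simp only [hB, mulVec, dotProduct, Fin.sum_univ_three]
      simp
      linear_combination u 2 * cj q (w 2) * hδ)
    exact ⟨A, fun y => by rw [hA]; exact hM y⟩
  have hH : ∀ g, g ∈ H := by
    have hle : normalClosure ({z} : Set G) ≤ H := by
      rw [normalClosure, closure_le]
      intro w hw
      obtain ⟨z', hz', hc⟩ := Group.mem_conjugatesOfSet_iff.1 hw
      rw [Set.mem_singleton_iff] at hz'
      subst hz'
      obtain ⟨g, rfl⟩ := isConj_iff.1 hc
      rcases h.cases (g • a) with e | ⟨x, hx, e⟩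
      · exact hUH _ (h.hn g e _ hzU)
      · have := H.mul_mem (H.mul_mem (hUH x hx) (hconj (x⁻¹ * g)
          (by rw [mul_smul, e, inv_smul_smul]))) (H.inv_mem (hUH x hx))
        simpa [mul_assoc] using this
    rcases (normalClosure_normal (s := ({z} : Set G))).eq_bot_or_eq_top with e | e
    · exact absurd (mem_bot.1 (e ▸ subset_normalClosure (Set.mem_singleton z))) hz1
    · intro g; exact hle (e ▸ mem_top g)
  choose M hM using hH
  have hpt : ∀ A y, ∃ y', ∃ c : E, ρ A *ᵥ h.v y = c • h.v y' := fun A y => by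
    rcases iso_cases ((hρB A _ _).trans (h.viso y)) with ⟨c, hc⟩ | ⟨c, p, w, hw, hc⟩
    · exact ⟨a, c, by rw [hc, h.va]⟩
    · obtain ⟨x, hx, rfl, rfl⟩ := h.hsurj p w hw
      exact ⟨x • b, c, by rw [hc, h.vx hx]⟩
  have step0 : ∀ A (c d : E), ρ A *ᵥ h.v a = c • h.v a → ρ A *ᵥ h.v b = d • h.v b →
      ∃ g, R A g := by
    let K := stabilizer G a ⊓ stabilizer G b
    have k1 : ∀ k : K, ∃ c : Eˣ, ρ (M k) *ᵥ h.v a = (c : E) • h.v a := fun k => by
      obtain ⟨c, hc⟩ := hM k a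
      rw [mem_stabilizer_iff.1 k.2.1] at hc
      exact ⟨Units.mk0 c (Rc0 _ _ _ _ hc), hc⟩
    have k2 : ∀ k : K, ∃ c : E, ρ (M k) *ᵥ h.v b = c • h.v b := fun k => by
      obtain ⟨c, hc⟩ := hM k b
      rw [mem_stabilizer_iff.1 k.2.2] at hc
      exact ⟨c, hc⟩
    choose f hf using k1
    have hfi : Function.Injective f := fun k k' e => by
      obtain ⟨d, hd⟩ := k2 k
      obtain ⟨d', hd'⟩ := k2 k'
      have e1 := hf k
      have e2 := hf k'
      rw [← e] at e2
      rw [h.va] at e1 e2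
      rw [h.vb] at hd hd'
      have := hρi (diag_eq (hρd _) (hρd _) (hρB _) (hρB _) e1 hd e2 hd')
      exact Subtype.ext (Runiq _ _ _ (hM k) (this ▸ hM k'))
    have hfs : Function.Surjective f := by
      refine (hfi.bijective_of_nat_card_le ?_).2
      rw [Nat.card_units, Nat.card_eq_fintype_card, Fact.out (p := Fintype.card E = q ^ 2)]
      exact hK
    intro A c d hc hd
    obtain ⟨k, hk⟩ := hfs (Units.mk0 c (Rc0 _ _ _ _ hc))
    obtain ⟨d', hd'⟩ := k2 k
    have e1 := hf k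
    rw [hk, Units.val_mk0, h.va] at e1
    rw [h.va] at hc
    rw [h.vb] at hd hd'
    exact ⟨k, hρi (diag_eq (hρd _) (hρd _) (hρB _) (hρB _) e1 hd' hc hd) ▸ hM k⟩
  have hback : ∀ A g y y' (c : E), ρ A *ᵥ h.v y = c • h.v (g • y') →
      ∃ c' : E, ρ ((M g)⁻¹ * A) *ᵥ h.v y = c' • h.v y' := fun A g y y' c e => by
    obtain ⟨d, hd⟩ := Rinv _ _ (hM g) (g • y')
    rw [inv_smul_smul] at hd
    exact ⟨c * d, by rw [map_mul, ← mulVec_mulVec, e, mulVec_smul, hd, smul_smul]⟩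
  have step1 : ∀ A (c : E), ρ A *ᵥ h.v a = c • h.v a → ∃ g, R A g := fun A c hA => by
    obtain ⟨y, d, hd⟩ := hpt A b
    rcases h.cases y with rfl | ⟨x, hx, rfl⟩
    · exfalso
      have hc0 := Rc0 _ _ _ _ hA
      have := hinjv A (h.v b - (d * c⁻¹) • h.v y) (by
        rw [mulVec_sub, mulVec_smul, hd, hA, smul_smul, inv_mul_cancel_right₀ hc0, sub_self])
      exact h.hba (h.vinj (sub_eq_zero.1 this))
    obtain ⟨c1, h1⟩ := hback A x a a c (by rwa [h.hUa x hx])
    obtain ⟨c2, h2⟩ := hback A x b b d hd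
    obtain ⟨g, hg⟩ := step0 _ _ _ h1 h2
    exact ⟨_, by simpa using Rmul _ _ _ _ (hM x) hg⟩
  have step2 : ∀ A, ∃ g, R A g := fun A => by
    obtain ⟨y, c, hc⟩ := hpt A a
    obtain ⟨g, rfl⟩ := exists_smul_eq G a y
    obtain ⟨c1, h1⟩ := hback A g a a c hc
    obtain ⟨k, hk⟩ := step1 _ _ h1
    exact ⟨_, by simpa using Rmul _ _ _ _ (hM g) hk⟩
  choose f hf using step2
  let φ : SU 3 E q →* G := MonoidHom.mk' f fun A B =>
    Runiq _ _ _ (hf (A * B)) (Rmul _ _ _ _ (hf A) (hf B))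
  have hφ : ∀ A g, R A g → φ A = g := fun A g k => Runiq _ _ _ (hf A) k
  have hsur : Function.Surjective φ := fun g => ⟨M g, hφ _ _ (hM g)⟩
  have hker : φ.ker = center (SU 3 E q) := by
    ext A
    rw [MonoidHom.mem_ker, hρc]
    constructor
    · intro k
      have hR : R A 1 := k ▸ hf A
      refine scalar_of (q := q) h.h2 ?_ fun p y hy => ?_
      · simpa only [one_smul, h.va] using hR a
      · obtain ⟨x, hx, rfl, rfl⟩ := h.hsurj p y hy
        simpa only [one_smul, h.vx hx] using hR (x • b)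
    · rintro ⟨l, hl⟩
      exact hφ _ _ fun y => ⟨l, by rw [hl, one_smul]⟩
  exact ⟨((QuotientGroup.quotientMulEquivOfEq hker.symm).trans
    (QuotientGroup.quotientKerEquivOfSurjective φ hsur)).symm⟩

end Co

end Cfsg.Agent.U3Id
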