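import Mathlib
import Cfsg.Agent.U3Id.Chr
import Cfsg.Agent.Mat.Frob
import Cfsg.Agent.Local.HalfTrans

/-!
Local analysis for the identification of `PSU₃(7)` and `PSU₃(9)`, first part.
-/

set_option autoImplicit false
set_option linter.unusedSectionVars false

namespace Cfsg.Agent.U3Id

open Cfsg Cfsg.Agent.Char Function Subgroup MulAction
open scoped commutatorElement

/-- the centre of `Q` as a subgroup of the ambient group -/
def Zc {G : Type*} [Group G] (Q : Subgroup G) : Subgroup G := Q ⊓ centralizer (Q : Set G)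

/-- the stabiliser of two points -/
abbrev KK (G : Type*) {Ω : Type*} [Group G] [MulAction G Ω] (a b : Ω) : Subgroup G :=
  stabilizer G a ⊓ stabilizer G b

theorem mem_Zc {G : Type*} [Group G] {Q : Subgroup G} {z : G} :
    z ∈ Zc Q ↔ z ∈ Q ∧ ∀ y ∈ Q, y * z = z * y := by
  simp [Zc, mem_centralizer_iff]

theorem mem_center_iff_Zc {G : Type*} [Group G] {Q : Subgroup G} {z : Q} :
    z ∈ center Q ↔ (z : G) ∈ Zc Q := by
  rw [mem_Zc, mem_center_iff]
  exact ⟨fun h => ⟨z.2, fun y hy => congrArg Subtype.val (h ⟨y, hy⟩)⟩,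
    fun h y => Subtype.ext (h.2 y y.2)⟩

theorem card_center_eq {G : Type*} [Group G] (Q : Subgroup G) :
    Nat.card (center Q) = Nat.card (Zc Q) := by
  rw [← card_map_of_injective Q.subtype_injective]
  congr 2
  ext z
  exact ⟨fun ⟨w, hw, e⟩ => e ▸ mem_center_iff_Zc.1 hw,
    fun h => ⟨⟨z, h.1⟩, mem_center_iff_Zc.2 h, rfl⟩⟩

theorem card_cent_eq {G : Type*} [Group G] (Q : Subgroup G) (x : Q) :
    Nat.card (centralizer ({x} : Set Q)) = Nat.card ↥(Q ⊓ centralizer ({(x : G)} : Set G)) := by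
  rw [← card_map_of_injective Q.subtype_injective]
  congr 2
  ext z
  simp only [mem_map, mem_inf, mem_centralizer_singleton_iff]
  exact ⟨fun ⟨w, hw, e⟩ => e ▸ ⟨w.2, congrArg Subtype.val hw⟩,
    fun h => ⟨⟨z, h.1⟩, Subtype.ext h.2, rfl⟩⟩

theorem dvd_of_free {G Ω : Type*} [Group G] [MulAction G Ω] [Finite Ω] (H : Subgroup G)
    (S : Set Ω) (hinv : ∀ h ∈ H, ∀ y ∈ S, h • y ∈ S)
    (hfree : ∀ h ∈ H, ∀ y ∈ S, h • y = y → h = 1) : Nat.card H ∣ S.ncard := by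
  refine Cfsg.Agent.Local.dvd_ncard_of_dvd_index_stabilizer (B := H) _ S (Set.toFinite S)
    (fun h y hy => hinv h h.2 y hy) fun y hy => ?_
  have : stabilizer H y = ⊥ :=
    (eq_bot_iff_forall _).2 fun h hh => Subtype.ext (hfree h h.2 y hy hh)
  rw [this, index_bot]

theorem eq_one_of_zpowers {G : Type*} [Group G] [Finite G] {k r : G} (hk : (orderOf k).Prime)
    (hr : r ∈ zpowers k) (h1 : r ≠ 1) : k ∈ zpowers r := by
  have : zpowers r = zpowers k := by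
    refine eq_of_le_of_card_ge (zpowers_le.2 hr) ?_
    rw [Nat.card_zpowers, Nat.card_zpowers]
    have := orderOf_dvd_of_mem_zpowers hr
    rcases (Nat.dvd_prime hk).1 this with e | e
    · exact absurd (orderOf_eq_one_iff.1 e) h1
    · exact e.ge
  rw [this]; exact mem_zpowers k

theorem conj_mem_of_zpowers {G : Type*} [Group G] [Finite G] {k r : G} (hr : r ∈ zpowers k)
    {X : Set G} (hX : ∀ u ∈ X, k * u * k⁻¹ ∈ X) : ∀ u ∈ X, r * u * r⁻¹ ∈ X := by
  obtain ⟨n, rfl⟩ := mem_powers_iff_mem_zpowers.2 hr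
  simp only
  clear hr
  induction n with
  | zero => simp
  | succ n ih =>
    intro u hu
    have := hX _ (ih u hu)
    rwa [show k * (k ^ n * u * (k ^ n)⁻¹) * k⁻¹ = k ^ (n + 1) * u * (k ^ (n + 1))⁻¹ by group] at this

/-- a fixed point free element of prime order -/
theorem prime_dvd_ncard {G : Type*} [Group G] [Finite G] {k : G} (hk : (orderOf k).Prime)
    {X : Set G} (hX : ∀ u ∈ X, k * u * k⁻¹ ∈ X) (h : ∀ u ∈ X, ¬ Commute k u) :
    orderOf k ∣ X.ncard := by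
  rw [← Nat.card_zpowers]
  refine Cfsg.Agent.Mat.card_dvd_of_free (fun r hr => conj_mem_of_zpowers hr hX) fun r hr u hu hc => ?_
  by_contra h1
  obtain ⟨n, e⟩ := mem_zpowers_iff.1 (eq_one_of_zpowers hk hr h1)
  exact h u hu (e ▸ hc.zpow_left n)

/-- the hypotheses of the identification theorem -/
structure Hyp {G Ω : Type*} [Group G] [MulAction G Ω] (q : ℕ) (a b : Ω) (Q : Subgroup G)
    (χ : G → ℂ) : Prop where
  hq : q = 7 ∨ q = 9
  hG : Nat.card G = q ^ 3 * (q ^ 3 + 1) * (q ^ 2 - 1)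
  hΩ : Nat.card Ω = q ^ 3 + 1
  hba : b ≠ a
  hQ : Nat.card Q = q ^ 3
  hQa : ∀ x ∈ Q, x • a = a
  hn : ∀ g : G, g • a = a → ∀ x ∈ Q, g * x * g⁻¹ ∈ Q
  hreg : ∀ x ∈ Q, ∀ y, y ≠ a → x • y = y → x = 1
  hχ : IsCharacter G χ
  h1 : χ 1 = q ^ 2 - q
  hfix : ∀ g, ¬ (orderOf g).Coprime (q ^ 2 - 1) → χ g = 2 - Nat.card (fixedBy Ω g)
  nc : ∃ x ∈ Q, ∃ y ∈ Q, x * y ≠ y * x
  zle : Nat.card (Zc Q) ≤ q
  zeq : Nat.card (Zc Q) = q → ∀ x ∈ Q, x ∉ Zc Q →
    χ x = 0 ∧ Nat.card ↥(Q ⊓ centralizer ({x} : Set G)) ≤ q ^ 2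

namespace Hyp

variable {G Ω : Type*} [Group G] [Finite G] [IsSimpleGroup G] [MulAction G Ω] [Finite Ω]
  [IsPretransitive G Ω] {q : ℕ} {a b : Ω} {Q : Subgroup G} {χ : G → ℂ}

theorem faithful (h : Hyp q a b Q χ) : FaithfulSMul G Ω := by
  rcases (toPermHom G Ω).normal_ker.eq_bot_or_eq_top with e | e
  · refine ⟨fun {g g'} hg => (MonoidHom.ker_eq_bot_iff _).1 e ?_⟩
    ext y; exact hg y
  · obtain ⟨g, hg⟩ := exists_smul_eq G a b
    have : g ∈ (toPermHom G Ω).ker := e ▸ mem_top g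
    have := congrArg (fun σ : Equiv.Perm Ω => σ a) (MonoidHom.mem_ker.1 this)
    exact absurd (hg.symm.trans this) h.hba

theorem ne_a (h : Hyp q a b Q χ) {x : G} (hx : x ∈ Q) : x • b ≠ a := fun e => h.hba (by
  have := congrArg (x⁻¹ • ·) e
  simpa [h.hQa _ (Q.inv_mem hx)] using this)

theorem inj (h : Hyp q a b Q χ) {x y : G} (hx : x ∈ Q) (hy : y ∈ Q) (e : x • b = y • b) :
    x = y := by
  have := h.hreg (y⁻¹ * x) (Q.mul_mem (Q.inv_mem hy) hx) b h.hba
    (by rw [mul_smul, e, inv_smul_smul])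
  exact (inv_mul_eq_one.1 this).symm

theorem exQ (h : Hyp q a b Q χ) {y : Ω} (hy : y ≠ a) : ∃ x ∈ Q, x • b = y := by
  classical
  let f : Q → {y // y ≠ a} := fun x => ⟨(x : G) • b, h.ne_a x.2⟩
  have hf : Injective f := fun x x' e => Subtype.ext (h.inj x.2 x'.2 (congrArg Subtype.val e))
  have := Fintype.ofFinite Ω
  obtain ⟨x, hx⟩ := (hf.bijective_of_nat_card_le (by
    rw [h.hQ, Nat.card_eq_fintype_card, Fintype.card_subtype_compl, Fintype.card_subtype_eq,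
      ← Nat.card_eq_fintype_card, h.hΩ]; omega)).2 ⟨y, hy⟩
  exact ⟨x, x.2, congrArg Subtype.val hx⟩

theorem cases (h : Hyp q a b Q χ) (y : Ω) : y = a ∨ ∃ x ∈ Q, y = x • b := by
  by_cases e : y = a
  · exact Or.inl e
  · obtain ⟨x, hx, e⟩ := h.exQ e
    exact Or.inr ⟨x, hx, e.symm⟩

theorem two (h : Hyp q a b Q χ) {y y' : Ω} (hy : y ≠ y') : ∃ g : G, g • a = y ∧ g • b = y' := by
  obtain ⟨g, rfl⟩ := exists_smul_eq G a y
  obtain ⟨x, hx, e⟩ := h.exQ (y := g⁻¹ • y') (fun e => hy (by rw [← e, smul_inv_smul]))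
  exact ⟨g * x, by rw [mul_smul, h.hQa x hx], by rw [mul_smul, e, smul_inv_smul]⟩

theorem decomp (h : Hyp q a b Q χ) {g : G} (hg : g • a = a) :
    ∃ x ∈ Q, ∃ k ∈ KK G a b, g = x * k := by
  obtain ⟨x, hx, e⟩ := h.exQ (y := g • b) (fun e => h.hba (by
    rw [← hg] at e; exact (smul_left_cancel_iff g).1 e))
  refine ⟨x, hx, x⁻¹ * g, ⟨?_, ?_⟩, by simp⟩
  · change (x⁻¹ * g) • a = a
    rw [mul_smul, hg, h.hQa _ (Q.inv_mem hx)]
  · change (x⁻¹ * g) • b = b
    rw [mul_smul, ← e, inv_smul_smul]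

theorem cardK (h : Hyp q a b Q χ) : Nat.card (KK G a b) = q ^ 2 - 1 := by
  have h1 := (stabilizer G a).index_mul_card
  rw [index_stabilizer_of_transitive, h.hΩ, h.hG] at h1
  let f : Q × KK G a b → stabilizer G a := fun p =>
    ⟨p.1 * p.2, mul_mem (h.hQa _ p.1.2) p.2.2.1⟩
  have hf : Bijective f := by
    constructor
    · rintro ⟨x, k⟩ ⟨x', k'⟩ e
      have e := congrArg Subtype.val e
      simp only [f] at e
      have e1 : x = x' := Subtype.ext (h.inj x.2 x'.2 (by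
        have := congrArg (· • b) e
        simpa only [mul_smul, mem_stabilizer_iff.1 k.2.2, mem_stabilizer_iff.1 k'.2.2] using this))
      subst e1
      exact Prod.ext rfl (Subtype.ext (mul_left_cancel e))
    · rintro ⟨g, hg⟩
      obtain ⟨x, hx, k, hk, rfl⟩ := h.decomp hg
      exact ⟨(⟨x, hx⟩, ⟨k, hk⟩), rfl⟩
  have h2 := Nat.card_eq_of_bijective f hf
  rw [Nat.card_prod, h.hQ] at h2
  rw [← h2] at h1
  have : 0 < q ^ 3 * (q ^ 3 + 1) := by rcases h.hq with rfl | rfl <;> norm_num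
  exact Nat.eq_of_mul_eq_mul_left this (by rw [← h1]; ring)

theorem smul_b {k : G} (hk : k ∈ KK G a b) (x : G) : k • x • b = (k * x * k⁻¹) • b := by
  rw [mul_smul, mul_smul, mem_stabilizer_iff.1 (inv_mem hk.2)]

theorem fix_iff (h : Hyp q a b Q χ) {k : G} (hk : k ∈ KK G a b) {x : G} (hx : x ∈ Q) :
    k • x • b = x • b ↔ Commute k x := by
  rw [smul_b hk]
  exact ⟨fun e => mul_inv_eq_iff_eq_mul.1 (h.inj (h.hn k hk.1 x hx) hx e),
    fun e => by rw [e.eq, mul_inv_cancel_right]⟩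

theorem ncard_pts (h : Hyp q a b Q χ) {X : Set G} (hX : X ⊆ Q) :
    ((· • b) '' X).ncard = X.ncard :=
  Set.ncard_image_of_injOn fun _ hx _ hy e => h.inj (hX hx) (hX hy) e

theorem cardFix (h : Hyp q a b Q χ) {k : G} (hk : k ∈ KK G a b) :
    Nat.card (fixedBy Ω k) = Nat.card ↥(Q ⊓ centralizer ({k} : Set G)) + 1 := by
  have : fixedBy Ω k = insert a ((· • b) ''
      ((Q ⊓ centralizer ({k} : Set G) : Subgroup G) : Set G)) := by
    ext y
    rw [mem_fixedBy]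
    rcases h.cases y with rfl | ⟨x, hx, rfl⟩
    · simpa using hk.1
    · rw [h.fix_iff hk hx]
      refine ⟨fun e => Or.inr ⟨x, ⟨hx, mem_centralizer_singleton_iff.2 e.symm⟩, rfl⟩, ?_⟩
      rintro (e | ⟨x', hx', e⟩)
      · exact absurd e (h.ne_a hx)
      · rw [← h.inj hx'.1 hx e]
        exact (mem_centralizer_singleton_iff.1 hx'.2).symm
  rw [this, Nat.card_coe_set_eq, Set.ncard_insert_of_notMem
    (by rintro ⟨x, hx, e⟩; exact h.ne_a hx.1 e),
    h.ncard_pts fun x hx => hx.1]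
  rfl

theorem ordK (h : Hyp q a b Q χ) {k : G} (hk : k ∈ KK G a b) : orderOf k ∣ q ^ 2 - 1 :=
  h.cardK ▸ orderOf_dvd_natCard _ hk

theorem ordQ (h : Hyp q a b Q χ) {x : G} (hx : x ∈ Q) : orderOf x ∣ q ^ 3 :=
  h.hQ ▸ orderOf_dvd_natCard _ hx

theorem cop (h : Hyp q a b Q χ) : (q ^ 3).Coprime (q ^ 2 - 1) := by
  rcases h.hq with rfl | rfl <;> norm_num

theorem chiK (h : Hyp q a b Q χ) {k : G} (hk : k ∈ KK G a b) (h1 : k ≠ 1) :
    χ k = 1 - Nat.card ↥(Q ⊓ centralizer ({k} : Set G)) := by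
  rw [h.hfix k fun e => h1 (orderOf_eq_one_iff.1 (e.eq_one_of_dvd (h.ordK hk))), h.cardFix hk]
  push_cast; ring

theorem chiXK (h : Hyp q a b Q χ) {k : G} (hk : k ∈ KK G a b) (h1 : k ≠ 1) {x : G} (hx : x ∈ Q)
    (hx1 : x ≠ 1) (hc : Commute x k) : χ (x * k) = 1 := by
  have c : (orderOf x).Coprime (orderOf k) :=
    (h.cop.coprime_dvd_left (h.ordQ hx)).coprime_dvd_right (h.ordK hk)
  have : fixedBy Ω (x * k) = {a} := by
    ext y
    rw [mem_fixedBy, Set.mem_singleton_iff]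
    refine ⟨fun e => ?_, fun e => by rw [e, mul_smul, mem_stabilizer_iff.1 hk.1, h.hQa x hx]⟩
    by_contra hy
    have e2 : (x * k) ^ orderOf k ∈ stabilizer G y := pow_mem e _
    rw [hc.mul_pow, pow_orderOf_eq_one, mul_one] at e2
    have := orderOf_dvd_of_pow_eq_one (h.hreg _ (pow_mem hx _) y hy e2)
    exact hx1 (orderOf_eq_one_iff.1 (c.eq_one_of_dvd this))
  rw [h.hfix _ fun e => h1 (orderOf_eq_one_iff.1 ?_), this]
  · simp; norm_num
  · rw [hc.orderOf_mul_eq_mul_orderOf_of_coprime c] at e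
    exact (e.coprime_dvd_left (Dvd.intro_left _ rfl)).eq_one_of_dvd (h.ordK hk)

theorem conjZ (h : Hyp q a b Q χ) {g : G} (hg : g • a = a) {z : G} (hz : z ∈ Zc Q) :
    g * z * g⁻¹ ∈ Zc Q := by
  rw [mem_Zc] at hz ⊢
  refine ⟨h.hn g hg z hz.1, fun y hy => ?_⟩
  have := hz.2 _ (h.hn g⁻¹ (by rw [inv_smul_eq_iff, hg]) y hy)
  calc y * (g * z * g⁻¹) = g * (g⁻¹ * y * g⁻¹⁻¹ * z) * g⁻¹ := by group
    _ = _ := by rw [this]; group

theorem eq_one_of_cent (h : Hyp q a b Q χ) {k : G} (hk : k ∈ KK G a b)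
    (hc : ∀ x ∈ Q, Commute k x) : k = 1 := by
  haveI := h.faithful
  refine eq_of_smul_eq_smul (α := Ω) fun y => ?_
  rw [one_smul]
  rcases h.cases y with rfl | ⟨x, hx, rfl⟩
  · exact hk.1
  · exact (h.fix_iff hk hx).2 (hc x hx)

theorem pgrp (h : Hyp q a b Q χ) : ∃ p : ℕ, p.Prime ∧ IsPGroup p Q := by
  rcases h.hq with rfl | rfl
  · exact ⟨7, by norm_num, IsPGroup.of_card h.hQ⟩
  · exact ⟨3, by norm_num, IsPGroup.of_card (n := 6) h.hQ⟩

theorem exists_five (h : Hyp 9 a b Q χ) : ∃ k ∈ KK G a b, orderOf k = 5 := by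
  haveI : Fact (Nat.Prime 5) := ⟨by norm_num⟩
  obtain ⟨k, hk⟩ := exists_prime_orderOf_dvd_card' (G := KK G a b) 5 (by rw [h.cardK]; norm_num)
  exact ⟨k, k.2, by rw [← hk, Subgroup.orderOf_coe]⟩

theorem five_dvd {k : G} (h5 : orderOf k = 5) {Y C : Subgroup G} (hC : C ≤ Y)
    (hC' : C ≤ centralizer {k}) (hY : ∀ y ∈ Y, k * y * k⁻¹ ∈ Y)
    (hYC : ∀ y ∈ Y, Commute k y → y ∈ C) : 5 ∣ Nat.card Y - Nat.card C := by
  have := prime_dvd_ncard (k := k) (by rw [h5]; norm_num) (X := (Y : Set G) \ C)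
    (fun u hu => ⟨hY u hu.1, fun e => hu.2 (hYC u hu.1 (by
      have := mem_centralizer_singleton_iff.1 (hC' e)
      exact mul_left_cancel (a := k) (by
        calc k * (k * u) = k * (k * u * k⁻¹) * k := by group
          _ = _ := by rw [← this]; group)))⟩) fun u hu e => hu.2 (hYC u hu.1 e)
  rwa [h5, Set.ncard_diff hC] at this

theorem cent_five (h : Hyp 9 a b Q χ) {k : G} (hk : k ∈ KK G a b) (h5 : orderOf k = 5) :
    Q ⊓ centralizer {k} = Zc Q ∧ Nat.card (Zc Q) = 9 := by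
  set C := Q ⊓ centralizer ({k} : Set G) with hC
  have k1 : k ≠ 1 := by rintro rfl; simp at h5
  have hdv : ∀ Y : Subgroup G, Y ≤ Q → ∃ i ≤ 6, Nat.card Y = 3 ^ i := fun Y hY =>
    (Nat.dvd_prime_pow (by norm_num : Nat.Prime 3)).1 (by
      have := card_dvd_of_le hY
      rwa [h.hQ] at this)
  have hYC : ∀ y ∈ Q, Commute k y → y ∈ C := fun y hy e =>
    ⟨hy, mem_centralizer_singleton_iff.2 e.symm⟩
  have hCQ : C ≠ Q := fun e => k1 (h.eq_one_of_cent hk fun x hx =>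
    (mem_centralizer_singleton_iff.1 (e.ge hx).2).symm)
  have c9 : Nat.card C = 9 := by
    have h1 := five_dvd h5 (Y := Q) (C := C) inf_le_left inf_le_right (h.hn k hk.1) hYC
    obtain ⟨i, hi, e⟩ := hdv C inf_le_left
    have : Nat.card C ≠ 729 := fun e' =>
      hCQ (eq_of_le_of_card_ge inf_le_left (by rw [e', h.hQ]; norm_num))
    rw [h.hQ, e] at h1
    rw [e] at this ⊢
    interval_cases i <;> simp_all
  have irr : ∀ Y : Subgroup G, C ≤ Y → Y ≤ Q → (∀ y ∈ Y, k * y * k⁻¹ ∈ Y) → Y = C ∨ Y = Q := by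
    intro Y h1 h2 h3
    have h4 := five_dvd h5 h1 inf_le_right h3 fun y hy => hYC y (h2 hy)
    obtain ⟨i, hi, e⟩ := hdv Y h2
    have h6 := card_le_of_le h1
    rw [c9, e] at h4 h6
    have : i = 2 ∨ i = 6 := by interval_cases i <;> simp_all
    rcases this with rfl | rfl
    · exact Or.inl (eq_of_le_of_card_ge h1 (by rw [c9, e]; norm_num)).symm
    · exact Or.inr (eq_of_le_of_card_ge h2 (by rw [h.hQ, e]; norm_num))
  have hkC : k ∈ normalizer (C : Set G) := by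
    refine mem_normalizer_fintype fun c hc => ?_
    rw [← mem_centralizer_singleton_iff.1 hc.2, mul_inv_cancel_right]; exact hc
  have hN : Q ≤ normalizer (C : Set G) := by
    haveI : Fact (Nat.Prime 3) := ⟨by norm_num⟩
    haveI := (IsPGroup.of_card (p := 3) (n := 6) h.hQ).isNilpotent
    have := normalizerCondition_of_isNilpotent (G := Q) (C.subgroupOf Q)
      (lt_top_iff_ne_top.2 fun e => hCQ (le_antisymm inf_le_left (subgroupOf_eq_top.1 e)))
    obtain ⟨n, hn, hn'⟩ := SetLike.exists_of_lt this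
    rcases irr (Q ⊓ normalizer (C : Set G)) (le_inf inf_le_left le_normalizer) inf_le_left
      (fun y hy => ⟨h.hn k hk.1 y hy.1, (normalizer (C : Set G)).mul_mem
        ((normalizer (C : Set G)).mul_mem hkC hy.2) (inv_mem hkC)⟩) with e | e
    · refine absurd (mem_subgroupOf.2 (e.le ⟨n.2, mem_normalizer_fintype fun c hc => ?_⟩)) hn'
      exact mem_subgroupOf.1 ((mem_normalizer_iff.1 hn ⟨c, hc.1⟩).1 (mem_subgroupOf.2 hc))
    · exact e.ge.trans inf_le_right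
  have hCc : ∀ c ∈ C, ∀ c' ∈ C, c * c' = c' * c := fun c hc c' hc' => by
    haveI : Fact (Nat.Prime 3) := ⟨by norm_num⟩
    exact congrArg Subtype.val
      (IsPGroup.commutative_of_card_eq_prime_sq (p := 3) (G := C) c9 ⟨c, hc⟩ ⟨c', hc'⟩)
  have hle : C ≤ Zc Q := fun c hc => by
    rcases irr (Q ⊓ centralizer {c})
      (fun y hy => ⟨hy.1, mem_centralizer_singleton_iff.2 (hCc y hy c hc)⟩) inf_le_left
      (fun y hy => ⟨h.hn k hk.1 y hy.1, by
        have hkc : k ∈ centralizer ({c} : Set G) := mem_centralizer_singleton_iff.2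
          (mem_centralizer_singleton_iff.1 hc.2).symm
        exact (centralizer ({c} : Set G)).mul_mem
          ((centralizer ({c} : Set G)).mul_mem hkc hy.2) (inv_mem hkc)⟩) with e | e
    · exfalso
      have h1 := Cfsg.Agent.M11.card_inf_centralizer_mul Q c
      have h2 : {w | ∃ r ∈ Q, r * c * r⁻¹ = w}.ncard ≤ Nat.card C :=
        Set.ncard_le_ncard (t := (C : Set G)) (by
          rintro _ ⟨r, hr, rfl⟩
          exact (mem_normalizer_iff.1 (hN hr) c).1 hc)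
      rw [e, c9, h.hQ] at h1
      omega
    · exact mem_Zc.2 ⟨hc.1, fun y hy => mem_centralizer_singleton_iff.1 (e.ge hy).2⟩
  have := eq_of_le_of_card_ge hle (by rw [c9]; exact h.zle)
  exact ⟨this, this ▸ c9⟩

theorem cardZ (h : Hyp q a b Q χ) : Nat.card (Zc Q) = q := by
  rcases h.hq with rfl | rfl
  · haveI : Fact (Nat.Prime 7) := ⟨by norm_num⟩
    haveI : Nontrivial Q := Finite.one_lt_card_iff_nontrivial.1 (by rw [h.hQ]; norm_num)
    have h1 := Finite.one_lt_card_iff_nontrivial.2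
      (IsPGroup.of_card (p := 7) h.hQ).center_nontrivial
    rw [card_center_eq] at h1
    obtain ⟨i, hi, e⟩ := (Nat.dvd_prime_pow (by norm_num : Nat.Prime 7)).1 (by
      have := card_dvd_of_le (show Zc Q ≤ Q from inf_le_left)
      rwa [h.hQ] at this : Nat.card (Zc Q) ∣ 7 ^ 3)
    have h2 := h.zle
    rw [e] at h1 h2 ⊢
    interval_cases i <;> simp_all
  · obtain ⟨k, hk, h5⟩ := h.exists_five
    exact (h.cent_five hk h5).2

theorem exists_prime_pow {k : G} (h1 : k ≠ 1) : ∃ n : ℕ, (orderOf (k ^ n)).Prime := by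
  have h0 := (orderOf_pos k).ne'
  have : orderOf k ≠ 1 := fun e => h1 (orderOf_eq_one_iff.1 e)
  exact ⟨_, by rw [orderOf_pow_orderOf_div h0 (Nat.minFac_dvd _)]; exact Nat.minFac_prime this⟩

theorem cent_le (h : Hyp q a b Q χ) {k : G} (hk : k ∈ KK G a b) (h1 : k ≠ 1) {x : G} (hx : x ∈ Q)
    (hc : Commute k x) : x ∈ Zc Q := by
  by_contra hZ
  obtain ⟨n, hn⟩ := exists_prime_pow h1
  have hk' := pow_mem hk n
  refine cong h.hχ (hc.pow_left n).symm hn (pow_orderOf_eq_one _)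
    ((h.cop.coprime_dvd_left (h.ordQ hx)).coprime_dvd_right (h.ordK hk'))
    (h.zeq h.cardZ x hx hZ).1 fun i h0 hi => h.chiXK (pow_mem hk' i)
      (pow_ne_one_of_lt_orderOf h0.ne' hi) hx (fun e => hZ (e ▸ one_mem _))
      ((hc.pow_left n).pow_left i).symm

theorem ncard_coset (Z : Subgroup G) (x : G) : {w | w * x⁻¹ ∈ Z}.ncard = Nat.card Z := by
  have : {w | w * x⁻¹ ∈ Z} = (· * x) '' (Z : Set G) := by
    ext w
    exact ⟨fun hw => ⟨_, hw, by simp⟩, fun ⟨z, hz, e⟩ => by simpa [← e] using hz⟩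
  rw [this, Set.ncard_image_of_injective _ (mul_left_injective x)]
  rfl

theorem coset_fpf (h : Hyp q a b Q χ) {k : G} (hk : k ∈ KK G a b) {x : G} (hx : x ∈ Q)
    (hZ : x ∉ Zc Q) (e : k * x * k⁻¹ * x⁻¹ ∈ Zc Q) : k = 1 := by
  by_contra h1
  obtain ⟨n, hn⟩ := exists_prime_pow h1
  have hk' := pow_mem hk n
  have := prime_dvd_ncard hn (X := {w | w * x⁻¹ ∈ Zc Q})
    (conj_mem_of_zpowers (npow_mem_zpowers k n) fun u hu => by
      have := mul_mem (h.conjZ hk.1 hu) e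
      simpa [mul_assoc] using this)
    fun u hu hc => hZ (by
      have hu' : u ∈ Q := by simpa using mul_mem hu.1 hx
      have := h.cent_le hk' (fun e => by simp [e] at hn; exact Nat.not_prime_one hn) hu' hc
      simpa using mul_mem (inv_mem hu) this)
  rw [ncard_coset, h.cardZ] at this
  exact hn.one_lt.ne' (((h.cop.coprime_dvd_left (dvd_pow_self q (by norm_num))).coprime_dvd_right
    (h.ordK hk')).symm.eq_one_of_dvd this)

theorem trans (h : Hyp q a b Q χ) {x x' : G} (hx : x ∈ Q) (hZ : x ∉ Zc Q) (hx' : x' ∈ Q)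
    (hZ' : x' ∉ Zc Q) : ∃ z ∈ Zc Q, ∃ k ∈ KK G a b, z * (k * x * k⁻¹) = x' := by
  let f : Zc Q × KK G a b → ↥((Q : Set G) \ Zc Q) := fun p =>
    ⟨p.1 * (p.2 * x * (p.2 : G)⁻¹), mul_mem p.1.2.1 (h.hn _ p.2.2.1 x hx), fun e => hZ (by
      have := h.conjZ (inv_mem p.2.2).1 ((mul_mem_cancel_left p.1.2).1 e)
      simpa [mul_assoc] using this)⟩
  have hf : Injective f := by
    rintro ⟨z, k⟩ ⟨z', k'⟩ e
    have e := congrArg Subtype.val e
    simp only [f] at e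
    have : (k' : G)⁻¹ * k = 1 := h.coset_fpf (mul_mem (inv_mem k'.2) k.2) hx hZ (by
      have := h.conjZ (inv_mem k'.2).1 (mul_mem (inv_mem z.2) z'.2)
      convert this using 1
      calc _ = (k' : G)⁻¹ * (z : G)⁻¹ * (z * (k * x * (k : G)⁻¹)) * k' * x⁻¹ := by group
        _ = _ := by rw [e]; group)
    have e1 : k = k' := Subtype.ext (inv_mul_eq_one.1 this).symm
    subst e1
    exact Prod.ext (Subtype.ext (mul_right_cancel e)) rfl
  obtain ⟨⟨z, k⟩, e⟩ := (hf.bijective_of_nat_card_le (by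
    rw [Nat.card_prod, h.cardZ, h.cardK, Nat.card_coe_set_eq,
      Set.ncard_diff (show (Zc Q : Set G) ⊆ Q from fun _ hy => hy.1)]
    change Nat.card Q - Nat.card (Zc Q) ≤ _
    rw [h.hQ, h.cardZ]
    rcases h.hq with rfl | rfl <;> norm_num)).2 ⟨x', hx', hZ'⟩
  exact ⟨z, z.2, k, k.2, congrArg Subtype.val e⟩

theorem irr (h : Hyp q a b Q χ) {Y : Subgroup G} (h1 : Zc Q ≤ Y)
    (h3 : ∀ k ∈ KK G a b, ∀ y ∈ Y, k * y * k⁻¹ ∈ Y) {x : G} (hx : x ∈ Q) (hxY : x ∈ Y)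
    (hZ : x ∉ Zc Q) : Q ≤ Y := fun x' hx' => by
  by_cases hZ' : x' ∈ Zc Q
  · exact h1 hZ'
  · obtain ⟨z, hz, k, hk, rfl⟩ := h.trans hx hZ hx' hZ'
    exact mul_mem (h1 hz) (h3 k hk x hxY)

theorem exists_notMem (h : Hyp q a b Q χ) : ∃ x ∈ Q, x ∉ Zc Q := by
  obtain ⟨x, hx, y, hy, e⟩ := h.nc
  exact ⟨x, hx, fun k => e ((mem_Zc.1 k).2 y hy).symm⟩

end Hyp

end Cfsg.Agent.U3Id
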