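import Mathlib
import Cfsg.Agent.U3Id.LocA
import Cfsg.Agent.U3Id.Coord

/-!
Local analysis for the identification of `PSU₃(7)` and `PSU₃(9)`, second part.
-/

set_option autoImplicit false
set_option linter.unusedSectionVars false

namespace Cfsg.Agent.U3Id

open Cfsg Cfsg.Agent.Char Function Subgroup MulAction
open scoped IsMulCommutative commutatorElement

theorem Sp.comm_congr {Q : Type*} [Group Q] (h : Sp Q) {x y x' y' : Q} (e1 : ab x' = -ab y)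
    (e2 : ab y' = ab x) : ⁅x', y'⁆ = ⁅x, y⁆ := by
  obtain ⟨β, hβ⟩ := h.exists_beta
  have alt := (h.beta_props hβ).1
  have : β (ab x') (ab y') = β (ab x) (ab y) := by
    have := alt (ab x + ab y)
    simp only [map_add, AddMonoidHom.add_apply, alt] at this
    rw [e1, e2, map_neg, AddMonoidHom.neg_apply]
    linear_combination (norm := abel) -this
  rw [hβ, hβ] at this
  exact congrArg (fun w => (Additive.toMul w : center Q).1) this

theorem Sp.fix_center {Q : Type*} [Group Q] (h : Sp Q) {τ : Q →* Q}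
    (hτ : ∀ x, τ x * x ∈ center Q) : ∀ z ∈ center Q, τ z = z := by
  intro z hz
  obtain ⟨x, y, rfl⟩ := h.hs z hz
  have hab : ∀ x, ab (τ x) = -ab x := fun x => by
    have := (h.ab_eq_zero _).2 (hτ x)
    rw [ab_mul] at this
    exact eq_neg_of_add_eq_zero_left this
  rw [map_commutatorElement]
  exact (h.comm_congr (x := τ y) (y := x) (hab x) rfl).trans (h.comm_congr (hab y) rfl)

theorem conj_ord' {G : Type*} [Group G] (s g : G) : orderOf (g * s * g⁻¹) = orderOf s :=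
  (MulAut.conj g).orderOf_eq s

theorem mul_self_of_ord {G : Type*} [Group G] {t : G} (ht : orderOf t = 2) : t * t = 1 := by
  rw [← pow_two, ← ht, pow_orderOf_eq_one]

namespace Hyp

variable {G Ω : Type*} [Group G] [Finite G] [IsSimpleGroup G] [MulAction G Ω] [Finite Ω]
  [IsPretransitive G Ω] {q : ℕ} {a b : Ω} {Q : Subgroup G} {χ : G → ℂ}

theorem comm_mem (h : Hyp q a b Q χ) {x y : G} (hx : x ∈ Q) (hy : y ∈ Q) :
    x * y * x⁻¹ * y⁻¹ ∈ Zc Q := by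
  let Y : Subgroup G :=
    { carrier := {x | x ∈ Q ∧ ∀ y ∈ Q, x * y * x⁻¹ * y⁻¹ ∈ Zc Q}
      one_mem' := ⟨one_mem _, fun y _ => by simp⟩
      mul_mem' := fun {x x'} hx hx' => ⟨mul_mem hx.1 hx'.1, fun y hy => by
        have := mul_mem (h.conjZ (h.hQa x hx.1) (hx'.2 y hy)) (hx.2 y hy)
        convert this using 1; group⟩
      inv_mem' := fun {x} hx => ⟨inv_mem hx.1, fun y hy => by
        have := h.conjZ (h.hQa _ (inv_mem hx.1)) (inv_mem (hx.2 y hy))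
        convert this using 1; group⟩ }
  obtain ⟨p, hp, hP⟩ := h.pgrp
  haveI := Fact.mk hp
  obtain ⟨x₀, hx₀, hx₀'⟩ := h.exists_notMem
  haveI : Nontrivial (Q ⧸ center Q) := ⟨⟨(⟨x₀, hx₀⟩ : Q), 1, fun e =>
    hx₀' (mem_center_iff_Zc.1 ((QuotientGroup.eq_one_iff _).1 e))⟩⟩
  obtain ⟨⟨w, hw⟩, hw1⟩ := @exists_ne _ (hP.to_quotient (center Q)).center_nontrivial 1
  obtain ⟨w, rfl⟩ := QuotientGroup.mk_surjective w
  refine (h.irr (Y := Y) (fun z hz => ⟨hz.1, fun y hy => ?_⟩) (fun k hk x hx =>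
    ⟨h.hn k hk.1 x hx.1, fun y hy => ?_⟩) w.2 ⟨w.2, fun y hy => ?_⟩ (fun e => hw1 ?_) hx).2 y hy
  · rw [← (mem_Zc.1 hz).2 y hy]; simp
  · have := h.conjZ hk.1 (hx.2 _ (h.hn k⁻¹ (inv_mem hk).1 y hy))
    convert this using 1; group
  · have := mem_center_iff.1 hw ((⟨y, hy⟩ : Q) : Q ⧸ center Q)
    have k : ((w * ⟨y, hy⟩ * w⁻¹ * (⟨y, hy⟩ : Q)⁻¹ : Q) : Q ⧸ center Q) = 1 := by
      simp only [QuotientGroup.mk_mul, QuotientGroup.mk_inv, ← this]; group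
    exact mem_center_iff_Zc.1 ((QuotientGroup.eq_one_iff _).1 k)
  · exact Subtype.ext ((QuotientGroup.eq_one_iff _).2 (mem_center_iff_Zc.2 e))

theorem sp (h : Hyp q a b Q χ) : Sp Q := by
  refine ⟨fun x y => mem_center_iff_Zc.2 (h.comm_mem x.2 y.2), fun z hz => ?_⟩
  obtain ⟨x, hx, hZ⟩ := h.exists_notMem
  have h1 := Cfsg.Agent.M11.card_inf_centralizer_mul Q x
  have h2 := (h.zeq h.cardZ x hx hZ).2
  have h3 : {w | ∃ r ∈ Q, r * x * r⁻¹ = w} = {w | w * x⁻¹ ∈ Zc Q} := by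
    refine Set.eq_of_subset_of_ncard_le ?_ ?_
    · rintro _ ⟨r, hr, rfl⟩
      exact h.comm_mem hr hx
    · rw [ncard_coset, h.cardZ]
      rw [h.hQ] at h1
      by_contra hlt
      push Not at hlt
      have := Nat.mul_lt_mul_of_le_of_lt h2 hlt (by rcases h.hq with rfl | rfl <;> norm_num)
      rw [h1, ← pow_succ] at this
      exact lt_irrefl _ this
  obtain ⟨r, hr, e⟩ := h3.ge (show (z : G) * x ∈ {w | w * x⁻¹ ∈ Zc Q} by
    simpa using mem_center_iff_Zc.1 hz)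
  exact ⟨⟨r, hr⟩, ⟨x, hx⟩, Subtype.ext (by simp [commutatorElement_def, e])⟩

theorem pow_mem_center (h : Hyp q a b Q χ) {p : ℕ} (hp : p.Prime) (hpq : p ∣ q) (x : Q) :
    x ^ p ∈ center Q := by
  haveI := Fact.mk hp
  have hV := h.sp.card_ab
  rw [card_center_eq, h.cardZ, h.hQ] at hV
  have hq0 : 0 < q := by rcases h.hq with rfl | rfl <;> norm_num
  have hV' : Nat.card (Abelianization Q) = q ^ 2 := Nat.eq_of_mul_eq_mul_right hq0 hV
  obtain ⟨v, hv⟩ := exists_prime_orderOf_dvd_card' (G := Abelianization Q) p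
    (by rw [hV']; exact hpq.trans (dvd_pow_self q two_ne_zero))
  obtain ⟨x₀, hx₀⟩ := ab_surj (Additive.ofMul v)
  have h1 : (x₀ : G) ∉ Zc Q := fun e => by
    have := (h.sp.ab_eq_zero _).2 (mem_center_iff_Zc.2 e)
    rw [hx₀, ofMul_eq_zero] at this
    rw [this, orderOf_one] at hv
    exact hp.one_lt.ne hv
  have h2 : (x₀ : G) ^ p ∈ Zc Q := by
    refine (mem_center_iff_Zc (z := x₀ ^ p)).1 ((h.sp.ab_eq_zero _).1 ?_)
    have : Abelianization.of x₀ = v := congrArg Additive.toMul hx₀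
    rw [ab, map_pow, this, ← hv, pow_orderOf_eq_one]; rfl
  rw [mem_center_iff_Zc, coe_pow]
  by_cases hx : (x : G) ∈ Zc Q
  · exact pow_mem hx p
  obtain ⟨z, hz, k, hk, e⟩ := h.trans x₀.2 h1 x.2 hx
  have c : Commute z (k * x₀ * k⁻¹) := ((mem_Zc.1 hz).2 _ (h.hn k hk.1 _ x₀.2)).symm
  rw [← e, c.mul_pow, conj_pow]
  exact mul_mem (pow_mem hz p) (h.conjZ hk.1 h2)

/-- conjugation as an endomorphism of `Q` -/
def ac (h : Hyp q a b Q χ) {g : G} (hg : g ∈ KK G a b) : Q →* Q :=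
  MonoidHom.mk' (fun x => ⟨g * x * g⁻¹, h.hn g hg.1 x x.2⟩) fun x y => Subtype.ext (by simp)

theorem ac_val (h : Hyp q a b Q χ) {g : G} (hg : g ∈ KK G a b) (x : Q) :
    (h.ac hg x : G) = g * x * g⁻¹ := rfl

theorem exists_t (h : Hyp q a b Q χ) : ∃ t ∈ KK G a b, orderOf t = 2 := by
  obtain ⟨k, hk⟩ := exists_prime_orderOf_dvd_card' (G := KK G a b) 2
    (by rw [h.cardK]; rcases h.hq with rfl | rfl <;> norm_num)
  exact ⟨k, k.2, by rw [← hk, Subgroup.orderOf_coe]⟩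

variable {t : G}

theorem tinv (h : Hyp q a b Q χ) (ht : t ∈ KK G a b) (ho : orderOf t = 2) {x : G} (hx : x ∈ Q) :
    t * x * t⁻¹ * x ∈ Zc Q := by
  by_contra hZ
  have htt := mul_self_of_ord ho
  have hx' := h.hn t ht.1 x hx
  have := h.coset_fpf ht (mul_mem hx' hx) hZ (by
    have := h.comm_mem hx hx'
    convert this using 1
    calc _ = (t * t) * x * (t * t)⁻¹ * (t * x * t⁻¹) * (t * x * t⁻¹ * x)⁻¹ := by group
      _ = _ := by rw [htt]; group)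
  rw [this, orderOf_one] at ho
  exact absurd ho (by norm_num)

theorem tz (h : Hyp q a b Q χ) (ht : t ∈ KK G a b) (ho : orderOf t = 2) {z : G} (hz : z ∈ Zc Q) :
    Commute t z := by
  have := h.sp.fix_center (τ := h.ac ht) (fun x => mem_center_iff_Zc.2 (h.tinv ht ho x.2))
    ⟨z, hz.1⟩ (mem_center_iff_Zc.2 hz)
  exact mul_inv_eq_iff_eq_mul.1 (congrArg Subtype.val this)

theorem ab_t (h : Hyp q a b Q χ) (ht : t ∈ KK G a b) (ho : orderOf t = 2) (x : Q) :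
    ab (h.ac ht x) = -ab x := by
  have := (h.sp.ab_eq_zero (h.ac ht x * x)).2 (mem_center_iff_Zc.2 (h.tinv ht ho x.2))
  rw [ab_mul] at this
  exact eq_neg_of_add_eq_zero_left this

theorem ab_fpf (h : Hyp q a b Q χ) {k : G} (hk : k ∈ KK G a b) (h1 : k ≠ 1) {x : Q}
    (e : ab (h.ac hk x) = ab x) : ab x = 0 := by
  by_contra h0
  refine h1 (h.coset_fpf hk x.2 (fun e => h0 ((h.sp.ab_eq_zero x).2 (mem_center_iff_Zc.2 e))) ?_)
  refine (mem_center_iff_Zc (z := h.ac hk x * x⁻¹)).1 ((h.sp.ab_eq_zero _).1 ?_)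
  rw [ab_mul, e, ← ab_mul, mul_inv_cancel]; rfl

theorem ac_mul (h : Hyp q a b Q χ) {k k' : G} (hk : k ∈ KK G a b) (hk' : k' ∈ KK G a b) (x : Q) :
    h.ac (mul_mem hk hk') x = h.ac hk (h.ac hk' x) :=
  Subtype.ext (by simp only [ac_val]; group)

theorem uniqK (h : Hyp q a b Q χ) (ht : t ∈ KK G a b) (ho : orderOf t = 2) {t' : G}
    (ht' : t' ∈ KK G a b) (ho' : orderOf t' = 2) : t = t' := by
  obtain ⟨x, hx, hZ⟩ := h.exists_notMem
  have : t * t' = 1 := by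
    by_contra h1
    exact hZ (mem_center_iff_Zc.1 ((h.sp.ab_eq_zero ⟨x, hx⟩).1 (h.ab_fpf (mul_mem ht ht') h1 (by
      rw [h.ac_mul ht ht', h.ab_t ht ho, h.ab_t ht' ho', neg_neg]))))
  rw [← mul_left_cancel_iff (a := t), this, mul_self_of_ord ho]

theorem uniq (h : Hyp q a b Q χ) {s s' : G} (hs : orderOf s = 2) (hs' : orderOf s' = 2) {y y' : Ω}
    (hy : y ≠ y') (e1 : s • y = y) (e2 : s • y' = y') (e3 : s' • y = y) (e4 : s' • y' = y') :
    s = s' := by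
  obtain ⟨g, rfl, rfl⟩ := h.two hy
  have m : ∀ s : G, s • g • a = g • a → s • g • b = g • b → g⁻¹ * s * g⁻¹⁻¹ ∈ KK G a b :=
    fun s e e' => ⟨by simp [mul_smul, e], by simp [mul_smul, e']⟩
  have := h.uniqK (m s e1 e2) (by rw [conj_ord', hs]) (m s' e3 e4) (by rw [conj_ord', hs'])
  simpa using this

theorem tfix (h : Hyp q a b Q χ) (ht : t ∈ KK G a b) (ho : orderOf t = 2) {x : G} (hx : x ∈ Q) :
    t • x • b = x • b ↔ x ∈ Zc Q := by
  rw [h.fix_iff ht hx]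
  exact ⟨h.cent_le ht (by rintro rfl; simp at ho) hx, h.tz ht ho⟩

theorem exists_z (h : Hyp q a b Q χ) : ∃ z ∈ Zc Q, z ≠ 1 := by
  by_contra hne
  push Not at hne
  have := h.cardZ
  rw [(eq_bot_iff_forall _).2 hne, card_bot] at this
  rcases h.hq with rfl | rfl <;> omega

theorem ex (h : Hyp q a b Q χ) {y y' : Ω} (hy : y ≠ y') : ∃ s : G, orderOf s = 2 ∧ s • y = y ∧
    s • y' = y' ∧ Nat.card (fixedBy Ω s) = q + 1 ∧ ∃ y'', y'' ≠ y ∧ y'' ≠ y' ∧ s • y'' = y'' := by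
  obtain ⟨g, rfl, rfl⟩ := h.two hy
  obtain ⟨t, ht, ho⟩ := h.exists_t
  obtain ⟨z, hz, hz1⟩ := h.exists_z
  refine ⟨g * t * g⁻¹, by rw [conj_ord', ho], by simpa [mul_smul] using ht.1,
    by simpa [mul_smul] using ht.2, ?_, g • z • b, by simpa using h.ne_a hz.1,
    fun e => hz1 (h.hreg z hz.1 b h.hba (by simpa using e)),
    by simpa [mul_smul] using (h.tfix ht ho hz.1).2 hz⟩
  rw [← smul_fixedBy, Nat.card_coe_set_eq, Set.ncard_smul_set, ← Nat.card_coe_set_eq, h.cardFix ht,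
    ← h.cardZ]
  congr 3
  ext x
  exact ⟨fun hx => h.cent_le ht (by rintro rfl; simp at ho) hx.1
    (mem_centralizer_singleton_iff.1 hx.2).symm,
    fun hx => ⟨hx.1, mem_centralizer_singleton_iff.2 (h.tz ht ho hx).symm⟩⟩

/-- the pointwise stabiliser of the fixed points of `t` -/
abbrev K0 (Ω : Type*) [MulAction G Ω] (t : G) : Subgroup G := fixingSubgroup G (fixedBy Ω t)

theorem mem_K0 (h : Hyp q a b Q χ) (ht : t ∈ KK G a b) (ho : orderOf t = 2) {u : G} :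
    u ∈ K0 Ω t ↔ u ∈ KK G a b ∧ ∀ z ∈ Zc Q, Commute u z := by
  rw [mem_fixingSubgroup_iff]
  constructor
  · intro hu
    have hK : u ∈ KK G a b := ⟨hu a ht.1, hu b ht.2⟩
    exact ⟨hK, fun z hz => (h.fix_iff hK hz.1).1 (hu _ ((h.tfix ht ho hz.1).2 hz))⟩
  · rintro ⟨hK, hu⟩ y hy
    rcases h.cases y with rfl | ⟨x, hx, rfl⟩
    · exact hK.1
    · exact (h.fix_iff hK hx).2 (hu x ((h.tfix ht ho hx).1 hy))

theorem conj_K0 {g u : G} (hg : Commute g t) (hu : u ∈ K0 Ω t) : g * u * g⁻¹ ∈ K0 Ω t := by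
  rw [mem_fixingSubgroup_iff] at hu ⊢
  intro y hy
  rw [mul_smul, mul_smul, hu (g⁻¹ • y), smul_inv_smul]
  rw [mem_fixedBy] at hy ⊢
  rw [← mul_smul, ← hg.inv_left.eq, mul_smul, hy]

theorem comm_t (h : Hyp q a b Q χ) (ht : t ∈ KK G a b) (ho : orderOf t = 2) {g : G}
    (h1 : t • g⁻¹ • a = g⁻¹ • a) (h2 : t • g⁻¹ • b = g⁻¹ • b) : Commute g t :=
  mul_inv_eq_iff_eq_mul.1 (h.uniqK (t := g * t * g⁻¹) ⟨by simp [mul_smul, h1], by simp [mul_smul, h2]⟩
    (by rw [conj_ord', ho]) ht ho)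

theorem comm_tK (h : Hyp q a b Q χ) (ht : t ∈ KK G a b) (ho : orderOf t = 2) {k : G}
    (hk : k ∈ KK G a b) : Commute k t :=
  h.comm_t ht ho (by rw [mem_stabilizer_iff.1 (inv_mem hk).1]; exact ht.1)
    (by rw [mem_stabilizer_iff.1 (inv_mem hk).2]; exact ht.2)

theorem card_K0 (h : Hyp q a b Q χ) (ht : t ∈ KK G a b) (ho : orderOf t = 2) :
    Nat.card (K0 Ω t) ≤ q + 1 := by
  classical
  have := Fintype.ofFinite (K0 Ω t)
  obtain ⟨n, hn⟩ := inner_char_char (char_restrict h.hχ (K0 Ω t)) char_one'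
  rw [inner_char_right char_one', ← Finset.add_sum_erase _ _ (Finset.mem_univ 1),
    Finset.sum_congr rfl (g := fun _ => 1 - (q : ℂ)) fun u hu => by
      have hu' := (h.mem_K0 ht ho).1 u.2
      have h1 : (u : G) ≠ 1 := fun e => (Finset.mem_erase.1 hu).1 (Subtype.ext e)
      rw [h.chiK hu'.1 h1, ← h.cardZ, Pi.one_apply, mul_one]
      congr 4
      ext x
      exact ⟨fun hx => h.cent_le hu'.1 h1 hx.1 (mem_centralizer_singleton_iff.1 hx.2).symm,
        fun hx => ⟨hx.1, mem_centralizer_singleton_iff.2 (hu'.2 x hx).symm⟩⟩] at hn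
  simp only [OneMemClass.coe_one, h.h1, Pi.one_apply, mul_one, Finset.sum_const,
    Finset.card_erase_of_mem (Finset.mem_univ _), Finset.card_univ, ← Nat.card_eq_fintype_card,
    nsmul_eq_mul] at hn
  obtain ⟨m, hm⟩ : ∃ m, Nat.card (K0 Ω t) = m + 1 :=
    ⟨_, (Nat.succ_pred_eq_of_pos Nat.card_pos).symm⟩
  rw [hm, inv_mul_eq_iff_eq_mul₀ (by exact_mod_cast m.succ_ne_zero), Nat.add_sub_cancel] at hn
  have : (q : ℤ) ^ 2 - q + m * (1 - q) = (m + 1) * n := by exact_mod_cast hn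
  rw [hm]
  have : (0 : ℤ) ≤ (m + 1) * n := by positivity
  rcases h.hq with rfl | rfl <;> omega

theorem cent_t_le (h : Hyp q a b Q χ) (ht : t ∈ KK G a b) (ho : orderOf t = 2)
    (hK : ∀ k ∈ KK G a b, k ∈ centralizer (K0 Ω t : Set G)) {g : G} (hg : Commute g t) :
    g ∈ centralizer (K0 Ω t : Set G) := by
  have hZ : ∀ z ∈ Zc Q, z ∈ centralizer (K0 Ω t : Set G) := fun z hz u hu =>
    ((h.mem_K0 ht ho).1 hu).2 z hz
  have st : ∀ g : G, Commute g t → g • a = a → g ∈ centralizer (K0 Ω t : Set G) := by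
    intro g hg ha
    obtain ⟨x, hx, k, hk, rfl⟩ := h.decomp ha
    have : Commute x t := by simpa using hg.mul_left (h.comm_tK ht ho hk).inv_left
    exact mul_mem (hZ x (h.cent_le ht (by rintro rfl; simp at ho) hx this.symm)) (hK k hk)
  have pt : ∀ g : G, Commute g t → g • a ≠ a → ∃ z ∈ Zc Q, g • a = z • b := fun g hg ha => by
    obtain ⟨x, hx, e⟩ := h.exQ ha
    refine ⟨x, (h.tfix ht ho hx).1 ?_, e.symm⟩
    rw [e, ← mul_smul, ← hg.eq, mul_smul, mem_stabilizer_iff.1 ht.1]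
  obtain ⟨w, hwa, hwb⟩ := h.two h.hba
  have hw : Commute w t := h.comm_t ht ho (by rw [← hwb, inv_smul_smul]; exact ht.2)
    (by rw [← hwa, inv_smul_smul]; exact ht.1)
  obtain ⟨z₂, hz₂, hz₂1⟩ := h.exists_z
  have hm : Commute (w * z₂ * w⁻¹) t := (hw.mul_left (h.tz ht ho hz₂).symm).mul_left hw.inv_left
  have hm' : w * z₂ * w⁻¹ ∈ centralizer (K0 Ω t : Set G) := fun u hu => by
    have := hZ z₂ hz₂ _ (conj_K0 hw.inv_left hu)
    calc u * (w * z₂ * w⁻¹) = w * (w⁻¹ * u * w⁻¹⁻¹ * z₂) * w⁻¹ := by group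
      _ = _ := by rw [this]; group
  obtain ⟨z₃, hz₃, e₃⟩ := pt _ hm (fun e => hz₂1 (h.hreg z₂ hz₂.1 b h.hba (by
    rw [← hwb, mul_smul, mul_smul, inv_smul_smul] at e
    exact (smul_left_cancel_iff w).1 e)))
  by_cases ha : g • a = a
  · exact st g hg ha
  obtain ⟨z₁, hz₁, e₁⟩ := pt g hg ha
  have := st ((w * z₂ * w⁻¹)⁻¹ * z₃ * z₁⁻¹ * g)
    (((hm.inv_left.mul_left (h.tz ht ho hz₃).symm).mul_left
      (h.tz ht ho hz₁).symm.inv_left).mul_left hg)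
    (by rw [mul_smul, e₁, mul_smul, inv_smul_smul, mul_smul, ← e₃, inv_smul_smul])
  exact (mul_mem_cancel_left (mul_mem (mul_mem (inv_mem hm') (hZ _ hz₃))
    (inv_mem (hZ _ hz₁)))).1 this

/-- The orbits of the pointwise stabiliser of a block are blocks. -/
theorem kl (h : Hyp q a b Q χ) (ht : t ∈ KK G a b) (ho : orderOf t = 2) {u : G}
    (hu : zpowers u = K0 Ω t) (hou : orderOf u = q + 1) {x₀ s₀ : G} (hx₀ : x₀ ∈ Q)
    (hZ₀ : x₀ ∉ Zc Q) (hs₀ : orderOf s₀ = 2) (e₀ : s₀ • x₀ • b = x₀ • b) (hc : Commute s₀ u)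
    {x : G} (hx : x ∈ Q) (hZ : x ∉ Zc Q) :
    ∃ s : G, orderOf s = 2 ∧ ∀ y : Ω, s • y = y ↔ ∃ n : ℕ, y = u ^ n • x • b := by
  obtain ⟨z, hz, k, hk, rfl⟩ := h.trans hx₀ hZ₀ hx hZ
  have hzk : Commute (z * k) t := (h.tz ht ho hz).symm.mul_left (h.comm_tK ht ho hk)
  have e1 : (z * (k * x₀ * k⁻¹)) • b = (z * k) • x₀ • b := by
    rw [mul_smul z, ← smul_b hk, mul_smul]
  rw [e1]
  have hc' : ∀ v ∈ K0 Ω t, Commute (z * k * s₀ * (z * k)⁻¹) v := fun v hv => by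
    have := conj_K0 hzk.inv_left hv
    rw [← hu] at this
    obtain ⟨n, hn⟩ := mem_zpowers_iff.1 this
    have c := (hc.zpow_right n).eq
    rw [hn] at c
    change _ = _
    calc z * k * s₀ * (z * k)⁻¹ * v = z * k * (s₀ * ((z * k)⁻¹ * v * (z * k)⁻¹⁻¹)) * (z * k)⁻¹ := by
          group
      _ = _ := by rw [c]; group
  generalize hs : z * k * s₀ * (z * k)⁻¹ = s at hc'
  have hos : orderOf s = 2 := by rw [← hs, conj_ord', hs₀]
  have hy : s • (z * k) • x₀ • b = (z * k) • x₀ • b := by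
    rw [← hs, mul_smul, mul_smul, inv_smul_smul, e₀]
  rw [← e1] at hy ⊢
  generalize z * (k * x₀ * k⁻¹) = x at hx hZ hy
  have hfree : stabilizer (K0 Ω t) (x • b) = ⊥ := (eq_bot_iff_forall _).2 fun v hv => by
    by_contra h1
    have hv' := ((h.mem_K0 ht ho).1 v.2).1
    exact hZ (h.cent_le hv' (fun e => h1 (Subtype.ext e)) hx ((h.fix_iff hv' hx).1 hv))
  have hcard : (orbit (K0 Ω t) (x • b)).ncard = q + 1 := by
    rw [← index_stabilizer, hfree, index_bot, ← hu, Nat.card_zpowers, hou]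
  have hsub : orbit (K0 Ω t) (x • b) ⊆ fixedBy Ω s := by
    rintro _ ⟨v, rfl⟩
    change s • (v : G) • x • b = (v : G) • x • b
    rw [← mul_smul, (hc' v v.2).eq, mul_smul, hy]
  have htK : t ∈ K0 Ω t := (mem_fixingSubgroup_iff _).2 fun y hy => hy
  have hne : x • b ≠ t • x • b := fun e => hZ ((h.tfix ht ho hx).1 e.symm)
  obtain ⟨s', hs', k1, k2, k3, -⟩ := h.ex hne
  have := h.uniq hos hs' hne hy (hsub ⟨⟨t, htK⟩, rfl⟩) k1 k2
  subst this
  have heq := Set.eq_of_subset_of_ncard_le hsub (by rw [hcard, ← k3]; rfl)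
  refine ⟨s, hos, fun y => ?_⟩
  rw [← mem_fixedBy, ← heq]
  constructor
  · rintro ⟨⟨v, hv⟩, rfl⟩
    obtain ⟨n, rfl⟩ := mem_powers_iff_mem_zpowers.2 (hu.ge hv)
    exact ⟨n, rfl⟩
  · rintro ⟨n, rfl⟩
    exact ⟨⟨u ^ n, hu.le (npow_mem_zpowers u n)⟩, rfl⟩

end Hyp

end Cfsg.Agent.U3Id
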