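import Mathlib
import Cfsg.Agent.U3Id.LocB
import Cfsg.Agent.U3Id.Design
import Cfsg.Agent.LinP.NormalRank

/-!
Identification of `PSU₃(7)` and `PSU₃(9)`.
-/

set_option autoImplicit false
set_option linter.unusedSectionVars false

namespace Cfsg.Agent.U3Id

open Cfsg Cfsg.Agent.Amalg Cfsg.Agent.Char Function Subgroup MulAction
open scoped IsMulCommutative commutatorElement

theorem Cd.comp {Q E : Type*} [Group Q] [Field E] [Fintype E] {q : ℕ}
    [Fact (Fintype.card E = q ^ 2)] {τ φ ψ : Q →* Q} {ε : E} {π Y : Q → E} (h : Cd q τ φ ε π Y)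
    (e : ∀ x, ψ x = φ (τ x)) : Cd q τ ψ (-ε) π Y :=
  { h with
    πφ := fun x => by rw [e, h.πφ, h.πτ]; ring
    Yφ := fun x => by rw [e, h.Yφ, h.Yτ] }

namespace Hyp

variable {G Ω : Type*} [Group G] [Finite G] [IsSimpleGroup G] [MulAction G Ω] [Finite Ω]
  [IsPretransitive G Ω] {q : ℕ} {a b : Ω} {Q : Subgroup G} {χ : G → ℂ} {t : G}

theorem Z_eq (h : Hyp 7 a b Q χ) {z : G} (hz : z ∈ Zc Q) (h1 : z ≠ 1) : zpowers z = Zc Q := by
  refine eq_of_le_of_card_ge (zpowers_le.2 hz) ?_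
  have := orderOf_dvd_natCard _ hz
  rw [h.cardZ] at this ⊢
  rw [Nat.card_zpowers]
  rcases (Nat.dvd_prime (by norm_num)).1 this with e | e
  · exact absurd (orderOf_eq_one_iff.1 e) h1
  · exact e.ge

theorem K0_of_comm (h : Hyp 7 a b Q χ) (ht : t ∈ KK G a b) (ho : orderOf t = 2) {k z : G}
    (hk : k ∈ KK G a b) (hz : z ∈ Zc Q) (h1 : z ≠ 1) (hc : Commute k z) : k ∈ K0 Ω t :=
  (h.mem_K0 ht ho).2 ⟨hk, fun w hw => by
    obtain ⟨n, rfl⟩ := mem_zpowers_iff.1 ((h.Z_eq hz h1).ge hw)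
    exact hc.zpow_right n⟩

theorem card_K0_seven (h : Hyp 7 a b Q χ) (ht : t ∈ KK G a b) (ho : orderOf t = 2) :
    Nat.card (K0 Ω t) = 8 := by
  refine le_antisymm (h.card_K0 ht ho) ?_
  obtain ⟨z, hz, hz1⟩ := h.exists_z
  have h1 := Cfsg.Agent.M11.card_inf_centralizer_mul (KK G a b) z
  have h2 : {w | ∃ r ∈ KK G a b, r * z * r⁻¹ = w}.ncard ≤ ((Zc Q : Set G) \ {1}).ncard :=
    Set.ncard_le_ncard (by
      rintro _ ⟨r, hr, rfl⟩
      exact ⟨h.conjZ hr.1 hz, by simpa using hz1⟩)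
  rw [Set.ncard_diff_singleton_of_mem (one_mem _)] at h2
  have h3 : (Zc Q : Set G).ncard = 7 := h.cardZ
  have h4 := card_le_of_le (show KK G a b ⊓ centralizer {z} ≤ K0 Ω t from fun k hk =>
    h.K0_of_comm ht ho hk.1 hz hz1 (mem_centralizer_singleton_iff.1 hk.2))
  rw [h.cardK] at h1
  rw [h3] at h2
  by_contra hlt
  have := Nat.mul_le_mul (show Nat.card ↥(KK G a b ⊓ centralizer {z}) ≤ 7 by omega) h2
  omega

theorem four_mem (h : Hyp 7 a b Q χ) (ht : t ∈ KK G a b) (ho : orderOf t = 2) {k : G}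
    (hk : k ∈ KK G a b) (h4 : orderOf k = 4) : k ∈ K0 Ω t := by
  by_contra hn
  have hkk : k * k = t := h.uniqK (mul_mem hk hk)
    (by rw [← pow_two, orderOf_pow' _ two_ne_zero, h4]; norm_num) ht ho
  have hinv : ∀ z ∈ Zc Q, k * z * k⁻¹ * z = 1 := fun z hz => by
    by_contra h1
    refine hn (h.K0_of_comm ht ho hk (mul_mem (h.conjZ hk.1 hz) hz) h1 ?_)
    have c1 := (h.tz ht ho hz).eq
    have c2 := (mem_Zc.1 hz).2 _ (h.conjZ hk.1 hz).1
    rw [← hkk] at c1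
    change _ = _
    calc k * (k * z * k⁻¹ * z) = (k * k * z) * k⁻¹ * z := by group
      _ = (z * (k * z * k⁻¹)) * k := by rw [c1]; group
      _ = _ := by rw [← c2]
  obtain ⟨x, hx, hZ⟩ := h.exists_notMem
  have hx₁ := h.hn k hk.1 x hx
  have hc : Commute (k * x * k⁻¹) x := by
    have e := h.sp.comm_congr (x := ⟨x, hx⟩) (y := (h.ac hk ⟨x, hx⟩)⁻¹) (x' := h.ac hk ⟨x, hx⟩)
      (y' := ⟨x, hx⟩) (by simp [ab]) rfl
    have e2 := h.sp.comm_congr (x := h.ac hk ⟨x, hx⟩) (y := ⟨x, hx⟩)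
      (x' := h.ac hk (h.ac hk ⟨x, hx⟩)) (y' := h.ac hk ⟨x, hx⟩) (by
        rw [← h.ac_mul, ← h.ab_t ht ho]; congr 1; exact Subtype.ext (by simp only [ac_val, hkk])) rfl
    rw [← map_commutatorElement] at e2
    have hz := mem_center_iff_Zc.1 (h.sp.hc (h.ac hk ⟨x, hx⟩) ⟨x, hx⟩)
    have e3 := hinv _ hz
    rw [← ac_val h hk, e2, ← pow_two] at e3
    have o1 := orderOf_dvd_of_pow_eq_one e3
    have o2 := orderOf_dvd_natCard _ hz
    rw [h.cardZ] at o2
    have := orderOf_eq_one_iff.1 (Nat.eq_one_of_dvd_coprimes (by norm_num) o1 o2)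
    exact commutatorElement_eq_one_iff_commute.1 this
  set Y := Q ⊓ centralizer ({x} : Set G) with hY
  have hZY : Zc Q ≤ Y := fun z hz =>
    ⟨hz.1, mem_centralizer_singleton_iff.2 ((mem_Zc.1 hz).2 x hx).symm⟩
  have c49 : Nat.card Y = 49 := by
    have h1 := (h.zeq h.cardZ x hx hZ).2
    obtain ⟨i, hi, e⟩ := (Nat.dvd_prime_pow (by norm_num : Nat.Prime 7)).1 (by
      have := card_dvd_of_le (show Y ≤ Q from inf_le_left)
      rwa [h.hQ] at this : Nat.card Y ∣ 7 ^ 3)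
    have h2 := card_le_of_le hZY
    have h3 : Nat.card Y ≠ 7 := fun e' => hZ ((eq_of_le_of_card_ge hZY
      (by rw [e', h.cardZ])).ge ⟨hx, mem_centralizer_singleton_iff.2 rfl⟩)
    rw [h.cardZ] at h2
    rw [← hY] at h1
    rw [e] at h1 h2 h3 ⊢
    interval_cases i <;> simp_all
  have hx₁Z : k * x * k⁻¹ ∉ Zc Q := fun e => hZ (by
    simpa [mul_assoc] using h.conjZ (inv_mem hk).1 e)
  have hYe : Y = Q ⊓ centralizer {k * x * k⁻¹} := by
    haveI : Fact (Nat.Prime 7) := ⟨by norm_num⟩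
    refine eq_of_le_of_card_ge (fun y hy => ⟨hy.1, mem_centralizer_singleton_iff.2 ?_⟩)
      (by rw [c49]; exact (h.zeq h.cardZ _ hx₁ hx₁Z).2)
    exact congrArg Subtype.val (IsPGroup.commutative_of_card_eq_prime_sq (p := 7) (G := Y) c49
      ⟨y, hy⟩ ⟨_, hx₁, mem_centralizer_singleton_iff.2 hc⟩)
  have := Cfsg.Agent.Mat.card_dvd_of_free (R := zpowers k) (X := (Y : Set G) \ Zc Q)
    (fun r hr => conj_mem_of_zpowers hr fun y hy => ⟨by
      rw [hYe]
      refine ⟨h.hn k hk.1 y hy.1.1, mem_centralizer_singleton_iff.2 ?_⟩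
      have := mem_centralizer_singleton_iff.1 hy.1.2
      calc _ = k * (y * x) * k⁻¹ := by group
        _ = _ := by rw [this]; group, fun e => hy.2 (by
      simpa [mul_assoc] using h.conjZ (inv_mem hk).1 e)⟩)
    (fun r hr y hy hc => by
      by_contra h1
      exact hy.2 (h.cent_le (zpowers_le.2 hk hr) h1 hy.1.1 hc))
  rw [Nat.card_zpowers, h4, Set.ncard_diff hZY] at this
  change 4 ∣ Nat.card Y - Nat.card (Zc Q) at this
  rw [c49, h.cardZ] at this
  omega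

theorem gen_seven (h : Hyp 7 a b Q χ) (ht : t ∈ KK G a b) (ho : orderOf t = 2) :
    ∃ u, zpowers u = K0 Ω t ∧ orderOf u = 8 ∧ ∀ k ∈ KK G a b, Commute k u := by
  have hle : K0 Ω t ≤ KK G a b := fun u hu => ((h.mem_K0 ht ho).1 hu).1
  have c8 := h.card_K0_seven ht ho
  have c8' : Nat.card ((K0 Ω t).subgroupOf (KK G a b)) = 8 := by
    rw [Nat.card_congr (subgroupOfEquivOfLe hle).toEquiv, c8]
  obtain ⟨S, hS⟩ := (IsPGroup.of_card (p := 2) (n := 3) c8').exists_le_sylow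
  have c16 : Nat.card S = 16 := by
    rw [S.card_eq_multiplicity, h.cardK, show 7 ^ 2 - 1 = 2 ^ 4 * 3 by norm_num,
      Nat.factorization_mul (by norm_num) (by norm_num), Nat.Prime.factorization_pow (by norm_num),
      Nat.Prime.factorization (by norm_num)]
    simp
  have hcyc : IsCyclic S := by
    refine (Cfsg.Agent.LinP.cyclic_or_quaternion S.isPGroup' fun z c hz hc => ?_).resolve_right ?_
    · by_cases c1 : c = 1
      · rw [c1]; exact one_mem _
      have e := h.uniqK (t := ((z : KK G a b) : G)) (z : KK G a b).2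
        (by rw [Subgroup.orderOf_coe, Subgroup.orderOf_coe, hz]) (c : KK G a b).2
        (by rw [Subgroup.orderOf_coe, Subgroup.orderOf_coe]; exact orderOf_eq_prime hc c1)
      rw [← Subtype.ext (Subtype.ext e)]; exact mem_zpowers z
    · rintro ⟨-, n, ⟨e⟩⟩
      have k1 : ∀ i, (e.symm (QuaternionGroup.xa i) : KK G a b) ∈
          (K0 Ω t).subgroupOf (KK G a b) := fun i =>
        mem_subgroupOf.2 <| h.four_mem ht ho (e.symm (QuaternionGroup.xa i) : KK G a b).2 (by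
          rw [Subgroup.orderOf_coe, Subgroup.orderOf_coe, e.symm.orderOf_eq,
            QuaternionGroup.orderOf_xa])
      have : (S : Subgroup (KK G a b)) ≤ (K0 Ω t).subgroupOf (KK G a b) := fun s hs => by
        rcases hg : e ⟨s, hs⟩ with i | i
        · have := mul_mem (k1 0) (k1 (i - (2 ^ (n + 1) : ℕ)))
          rw [← coe_mul, ← map_mul, QuaternionGroup.xa_mul_xa, sub_zero, add_sub_cancel, ← hg,
            e.symm_apply_apply] at this
          exact this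
        · have := k1 i
          rwa [← hg, e.symm_apply_apply] at this
      have := card_le_of_le this
      omega
  haveI : IsCyclic ((K0 Ω t).subgroupOf (KK G a b)) := Subgroup.isCyclic_of_le hS
  obtain ⟨u, hu⟩ := IsCyclic.exists_ofOrder_eq_natCard (α := (K0 Ω t).subgroupOf (KK G a b))
  have hu8 : orderOf ((u : KK G a b) : G) = 8 := by
    rw [Subgroup.orderOf_coe, Subgroup.orderOf_coe, hu, c8']
  have hz : zpowers ((u : KK G a b) : G) = K0 Ω t :=
    eq_of_le_of_card_ge (zpowers_le.2 u.2) (by rw [Nat.card_zpowers, hu8, c8])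
  refine ⟨_, hz, hu8, ?_⟩
  have d16 : 16 ∣ Nat.card (centralizer ({(u : KK G a b)} : Set (KK G a b))) := by
    rw [← c16]
    refine card_dvd_of_le fun s hs => mem_centralizer_singleton_iff.2 ?_
    exact congrArg Subtype.val (mul_comm (⟨s, hs⟩ : S) ⟨_, hS u.2⟩)
  have d3 : 3 ∣ Nat.card (centralizer ({(u : KK G a b)} : Set (KK G a b))) := by
    haveI : Fact (Nat.Prime 3) := ⟨by norm_num⟩
    obtain ⟨y, hy⟩ := exists_prime_orderOf_dvd_card' (G := KK G a b) 3 (by rw [h.cardK]; norm_num)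
    rw [← hy]
    refine orderOf_dvd_natCard _ (mem_centralizer_singleton_iff.2 (Subtype.ext ?_))
    obtain ⟨i, hi⟩ := mem_powers_iff_mem_zpowers.2 (hz.ge (conj_K0 (h.comm_tK ht ho y.2)
      (mem_subgroupOf.1 u.2)))
    simp only at hi
    change (y : G) * ((u : KK G a b) : G) = ((u : KK G a b) : G) * y
    have y3 : (y : G) ^ 3 = 1 := by rw [← hy, ← Subgroup.orderOf_coe, pow_orderOf_eq_one]
    generalize ((u : KK G a b) : G) = v at hi hu8 ⊢
    have e : v ^ (i * i * i) = v ^ 1 := by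
      rw [pow_mul, pow_mul, hi, conj_pow, hi, conj_pow, conj_pow, hi]
      calc _ = (y : G) ^ 3 * v * ((y : G) ^ 3)⁻¹ := by simp [pow_succ, mul_assoc]
        _ = _ := by rw [y3]; group
    rw [pow_eq_pow_iff_modEq, hu8] at e
    have e' : v ^ i = v ^ 1 := by
      rw [pow_eq_pow_iff_modEq, hu8]
      unfold Nat.ModEq at e ⊢
      rw [Nat.mul_mod, Nat.mul_mod i i] at e
      have := Nat.mod_lt i (show 0 < 8 by norm_num)
      generalize i % 8 = j at e this ⊢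
      interval_cases j <;> simp_all
    rw [pow_one, hi] at e'
    exact mul_inv_eq_iff_eq_mul.1 e'
  have := (centralizer ({(u : KK G a b)} : Set (KK G a b))).eq_top_of_le_card (by
    rw [h.cardK]
    exact Nat.le_of_dvd Nat.card_pos (Nat.Coprime.mul_dvd_of_dvd_of_dvd (by norm_num) d16 d3))
  intro k hk
  exact congrArg Subtype.val (mem_centralizer_singleton_iff.1 (this.ge (mem_top (⟨k, hk⟩ : KK G a b))))

theorem rel_seven (h : Hyp 7 a b Q χ) (ht : t ∈ KK G a b) (ho : orderOf t = 2) {u : G}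
    (hu : u ∈ KK G a b) (h8 : orderOf u = 8) (hc : ∀ k ∈ KK G a b, Commute k u) :
    (∀ x, ab (h.ac hu (h.ac hu x)) = (3 : ℤ) • ab (h.ac hu x) - ab x) ∨
      ∀ x, ab (h.ac hu (h.ac hu x)) = -((3 : ℤ) • ab (h.ac hu x)) - ab x := by
  have h4 : u * (u * (u * u)) = t := h.uniqK (mul_mem hu (mul_mem hu (mul_mem hu hu)))
    (by rw [show u * (u * (u * u)) = u ^ 4 by simp [pow_succ, mul_assoc], orderOf_pow' _ (by norm_num), h8]; norm_num)
    ht ho
  set f := abm (h.ac hu) with hf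
  have f4 : ∀ v, f (f (f (f v))) = -v := fun v => by
    obtain ⟨x, rfl⟩ := ab_surj v
    simp only [hf, abm_ab, ← h.ac_mul]
    rw [← h.ab_t ht ho]
    congr 1
    exact Subtype.ext (by simp only [ac_val, h4])
  have f7 : ∀ v : Additive (Abelianization Q), (7 : ℤ) • v = 0 := fun v => by
    obtain ⟨x, rfl⟩ := ab_surj v
    rw [← (h.sp.ab_eq_zero _).2 (h.pow_mem_center (p := 7) (by norm_num) dvd_rfl x)]
    simp [ab, ← natCast_zsmul]
  by_cases hw : ∀ v, f (f v) = (3 : ℤ) • f v - v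
  · exact Or.inl fun x => hw (ab x)
  right
  push Not at hw
  obtain ⟨w, hw⟩ := hw
  obtain ⟨x₀, hx₀⟩ := ab_surj (f (f w) - ((3 : ℤ) • f w - w))
  have r0 : f (f (ab x₀)) = -((3 : ℤ) • f (ab x₀)) - ab x₀ := by
    simp only [hx₀, map_sub, map_zsmul, f4]
    linear_combination (norm := module) -f7 (f (f w))
  have hZ₀ : (x₀ : G) ∉ Zc Q := fun e => hw (by
    rw [(h.sp.ab_eq_zero _).2 (mem_center_iff_Zc.2 e)] at hx₀
    exact sub_eq_zero.1 hx₀.symm)
  intro x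
  change f (f (ab x)) = -((3 : ℤ) • f (ab x)) - ab x
  by_cases hx : (x : G) ∈ Zc Q
  · simp [(h.sp.ab_eq_zero _).2 (mem_center_iff_Zc.2 hx)]
  obtain ⟨z, hz, k, hk, e⟩ := h.trans x₀.2 hZ₀ x.2 hx
  have e1 : ab x = abm (h.ac hk) (ab x₀) := by
    have : x = ⟨z, hz.1⟩ * h.ac hk x₀ := Subtype.ext e.symm
    rw [this, ab_mul, (h.sp.ab_eq_zero _).2 (mem_center_iff_Zc.2 hz), zero_add, abm_ab]
  have cm : ∀ v, f (abm (h.ac hk) v) = abm (h.ac hk) (f v) := fun v => by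
    obtain ⟨y, rfl⟩ := ab_surj v
    simp only [hf, abm_ab, ← h.ac_mul]
    congr 1
    exact Subtype.ext (by simp only [ac_val, (hc k hk).eq])
  rw [e1, cm, cm, r0, map_sub, map_neg, map_zsmul]

theorem comm_five (h : Hyp 9 a b Q χ) (ht : t ∈ KK G a b) (ho : orderOf t = 2) {k g : G}
    (hk : k ∈ KK G a b) (h5 : orderOf k = 5) (hg : Commute g k) : Commute g t := by
  have key : ∀ y : Ω, k • y = y → t • g⁻¹ • y = g⁻¹ • y := fun y hy => by
    have : k • g⁻¹ • y = g⁻¹ • y := by rw [← mul_smul, ← hg.inv_left.eq, mul_smul, hy]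
    generalize g⁻¹ • y = w at this
    rcases h.cases w with rfl | ⟨x, hx, rfl⟩
    · exact ht.1
    · exact (h.tfix ht ho hx).2 (h.cent_le hk (by rintro rfl; simp at h5) hx
        ((h.fix_iff hk hx).1 this))
  exact h.comm_t ht ho (key a hk.1) (key b hk.2)

theorem blk_nine (h : Hyp 9 a b Q χ) (ht : t ∈ KK G a b) (ho : orderOf t = 2) {k : G}
    (hk : k ∈ KK G a b) (h5 : orderOf k = 5) : ∃ x₀ ∈ Q, x₀ ∉ Zc Q ∧ ∃ s₀, orderOf s₀ = 2 ∧
      s₀ • x₀ • b = x₀ • b ∧ Commute s₀ (k * t) := by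
  haveI : Fact (Nat.Prime 5) := ⟨by norm_num⟩
  obtain ⟨T, hT⟩ := (IsPGroup.of_card (p := 5) (n := 1) (G := zpowers k)
    (by rw [Nat.card_zpowers, h5]; norm_num)).exists_le_sylow
  have c25 : Nat.card T = 5 ^ 2 := by
    rw [T.card_eq_multiplicity, h.hG, show 9 ^ 3 * (9 ^ 3 + 1) * (9 ^ 2 - 1) = 5 ^ 2 * 1702944 by
      norm_num, Nat.factorization_mul (by norm_num) (by norm_num),
      Nat.Prime.factorization_pow (by norm_num)]
    simp [Nat.factorization_eq_zero_of_not_dvd (show ¬ 5 ∣ 1702944 by norm_num)]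
  have hcT : ∀ r ∈ T, Commute r k := fun r hr => congrArg Subtype.val
    (IsPGroup.commutative_of_card_eq_prime_sq (p := 5) (G := T) c25 ⟨r, hr⟩
      ⟨k, hT (mem_zpowers k)⟩)
  obtain ⟨r, hr, y, hy, e, hr1⟩ : ∃ r ∈ T, ∃ y ∈ (fixedBy Ω k)ᶜ, r • y = y ∧ r ≠ 1 := by
    by_contra hne
    push Not at hne
    have := dvd_of_free (T : Subgroup G) (fixedBy Ω k)ᶜ (fun r hr y hy e => hy (by
      rw [mem_fixedBy, ← mul_smul, ← (hcT r hr).eq, mul_smul, smul_left_cancel_iff] at e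
      exact e)) hne
    have h2 := Set.ncard_add_ncard_compl (fixedBy Ω k)
    rw [← Nat.card_coe_set_eq, h.cardFix hk, (h.cent_five hk h5).1, h.cardZ, h.hΩ] at h2
    rw [c25] at this
    omega
  obtain ⟨x, hx, rfl⟩ := h.exQ (y := y) (fun e => hy (by rw [e]; exact hk.1))
  have hZ : x ∉ Zc Q := fun e' => hy ((h.fix_iff hk hx).2
    (mem_centralizer_singleton_iff.1 ((h.cent_five hk h5).1.ge e').2).symm)
  have hne : x • b ≠ t • x • b := fun e => hZ ((h.tfix ht ho hx).1 e.symm)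
  obtain ⟨g, g1, g2⟩ := h.two hne
  have hrt := h.comm_five ht ho hk h5 (hcT r hr)
  have hr' : g⁻¹ * r * g⁻¹⁻¹ ∈ KK G a b := ⟨by simp [mul_smul, g1, e, inv_smul_eq_iff], by
    change (g⁻¹ * r * g⁻¹⁻¹) • b = b
    simp only [inv_inv, mul_smul, g2, inv_smul_eq_iff]
    rw [← mul_smul, hrt.eq, mul_smul, e]⟩
  have o5 : orderOf (g⁻¹ * r * g⁻¹⁻¹) = 5 := by
    have d1 := h.ordK hr'
    have d2 := orderOf_dvd_natCard _ hr
    rw [conj_ord'] at d1 ⊢
    rw [c25] at d2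
    have := Nat.dvd_gcd d1 d2
    exact ((Nat.dvd_prime (by norm_num)).1 this).resolve_left fun e => hr1 (orderOf_eq_one_iff.1 e)
  have c := (h.comm_five ht ho hr' o5 (g := g⁻¹ * k * g⁻¹⁻¹) (by
    change _ = _
    calc _ = g⁻¹ * (k * r) * g := by group
      _ = _ := by rw [← (hcT r hr).eq]; group)).eq
  have s1 : (g * t * g⁻¹) • x • b = x • b := by
    rw [← g1, mul_smul, mul_smul, inv_smul_smul, mem_stabilizer_iff.1 ht.1]
  have s2 : (g * t * g⁻¹) • t • x • b = t • x • b := by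
    rw [← g2, mul_smul, mul_smul, inv_smul_smul, mem_stabilizer_iff.1 ht.2]
  refine ⟨x, hx, hZ, g * t * g⁻¹, by rw [conj_ord', ho], s1, Commute.mul_right ?_ ?_⟩
  · change _ = _
    calc g * t * g⁻¹ * k = g * (t * (g⁻¹ * k * g⁻¹⁻¹)) * g⁻¹ := by group
      _ = _ := by rw [← c]; group
  · have htt : ∀ y : Ω, t • t • y = y := fun y => by rw [← mul_smul, mul_self_of_ord ho, one_smul]
    have ti : ∀ y : Ω, t⁻¹ • y = t • y := fun y => by rw [inv_smul_eq_iff, htt]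
    exact (mul_inv_eq_iff_eq_mul.1 (h.uniq (s := t * (g * t * g⁻¹) * t⁻¹)
      (by rw [conj_ord', conj_ord', ho]) (by rw [conj_ord', ho]) hne
      (by rw [mul_smul, mul_smul, ti, s2, htt]) (by rw [mul_smul, mul_smul, ti, htt, s1]) s1 s2)).symm

theorem cd_args (h : Hyp q a b Q χ) (ht : t ∈ KK G a b) (ho : orderOf t = 2) {u : G}
    (hu : u ∈ KK G a b) (hu0 : u ∈ K0 Ω t) :
    (∀ z ∈ center Q, h.ac ht z = z) ∧ (∀ x, h.ac ht x * x ∈ center Q) ∧
      (∀ x, h.ac ht (h.ac ht x) = x) ∧ (∀ z ∈ center Q, h.ac hu z = z) ∧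
      ∀ x, h.ac hu (h.ac ht x) = h.ac ht (h.ac hu x) := by
  refine ⟨fun z hz => Subtype.ext ?_, fun x => mem_center_iff_Zc.2 (h.tinv ht ho x.2),
    fun x => Subtype.ext ?_, fun z hz => Subtype.ext ?_, fun x => Subtype.ext ?_⟩
  · rw [ac_val, (h.tz ht ho (mem_center_iff_Zc.1 hz)).eq, mul_inv_cancel_right]
  · rw [← h.ac_mul, ac_val, mul_self_of_ord ho]; simp
  · rw [ac_val, (((h.mem_K0 ht ho).1 hu0).2 _ (mem_center_iff_Zc.1 hz)).eq, mul_inv_cancel_right]
  · rw [← h.ac_mul, ← h.ac_mul, ac_val, ac_val, (h.comm_tK ht ho hu).eq]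

theorem data (h : Hyp q a b Q χ) (ht : t ∈ KK G a b) (ho : orderOf t = 2) {E : Type*} [Field E]
    [Fintype E] [Fact (Fintype.card E = q ^ 2)] :
    ∃ (u : G) (hu : u ∈ KK G a b) (ε : E) (π Y : Q → E), (2 : E) ≠ 0 ∧
      Cd q (h.ac ht) (h.ac hu) ε π Y ∧ orderOf ε = q + 1 ∧ ∀ x ∈ Q, x ∉ Zc Q →
        ∃ s : G, orderOf s = 2 ∧ ∀ y : Ω, s • y = y ↔ ∃ n : ℕ, y = u ^ n • x • b := by
  obtain ⟨ε, -, hε⟩ := exists_norm_one_order (F := E) q
  have hle : K0 Ω t ≤ KK G a b := fun u hu => ((h.mem_K0 ht ho).1 hu).1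
  rcases h.hq with rfl | rfl
  · haveI : Fact (Nat.Prime 7) := ⟨by norm_num⟩
    haveI : CharP E 7 := charP_of_card_eq_prime_pow (Fact.out (p := Fintype.card E = 7 ^ 2))
    have h7 : (7 : E) = 0 := by exact_mod_cast CharP.cast_eq_zero E 7
    have h2 : (2 : E) ≠ 0 := fun e => one_ne_zero (α := E) (by linear_combination h7 - 3 * e)
    obtain ⟨u, hz, h8, hc⟩ := h.gen_seven ht ho
    have hu0 : u ∈ K0 Ω t := hz.le (mem_zpowers u)
    have hu := hle hu0
    have ord : ∀ ε : E, ε ^ 4 = -1 → orderOf ε = 7 + 1 := fun ε e =>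
      orderOf_eq_prime_pow (p := 2) (n := 2) (fun k => h2 (by linear_combination e - k))
        (by linear_combination (ε ^ 4 - 1) * e)
    obtain ⟨ε, hε⟩ : ∃ ε : E, ε ^ 2 = 3 * ε - 1 := by
      have e8 : ε ^ 8 = 1 := by rw [← show orderOf ε = 8 from hε, pow_orderOf_eq_one]
      have e4 : ε ^ 4 - 1 ≠ 0 := sub_ne_zero.2 (pow_ne_one_of_lt_orderOf (by norm_num) (by omega))
      have : (ε ^ 2 - (3 * ε - 1)) * ((-ε) ^ 2 - (3 * -ε - 1)) = 0 := by
        apply mul_left_cancel₀ e4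
        linear_combination e8 - (ε ^ 4 - 1) * ε ^ 2 * h7
      rcases mul_eq_zero.1 this with e | e
      · exact ⟨_, sub_eq_zero.1 e⟩
      · exact ⟨_, sub_eq_zero.1 e⟩
    have e4 : ε ^ 4 = -1 := by
      linear_combination (ε ^ 2 + 3 * ε + 1) * hε + ε ^ 2 * h7
    have hbl : ∀ x ∈ Q, x ∉ Zc Q →
        ∃ s : G, orderOf s = 2 ∧ ∀ y : Ω, s • y = y ↔ ∃ n : ℕ, y = u ^ n • x • b := by
      intro x hx hZ
      have hne : x • b ≠ t • x • b := fun e => hZ ((h.tfix ht ho hx).1 e.symm)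
      obtain ⟨s, hs, s1, s2, -⟩ := h.ex hne
      have htt : ∀ y : Ω, t • t • y = y := fun y => by
        rw [← mul_smul, mul_self_of_ord ho, one_smul]
      have ti : ∀ y : Ω, t⁻¹ • y = t • y := fun y => by rw [inv_smul_eq_iff, htt]
      have hst : Commute s t := (mul_inv_eq_iff_eq_mul.1 (h.uniq (s := t * s * t⁻¹)
        (by rw [conj_ord', hs]) hs hne (by rw [mul_smul, mul_smul, ti, s2, htt])
        (by rw [mul_smul, mul_smul, ti, htt, s1]) s1 s2)).symm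
      have := h.cent_t_le ht ho (fun k hk v hv => by
        obtain ⟨n, rfl⟩ := mem_zpowers_iff.1 (hz.ge hv)
        exact ((hc k hk).zpow_right n).symm) hst u hu0
      exact h.kl ht ho hz h8 hx hZ hs s1 this.symm hx hZ
    rcases h.rel_seven ht ho hu h8 hc with hrel | hrel
    · obtain ⟨a1, a2, a3, a4, a5⟩ := h.cd_args ht ho hu hu0
      obtain ⟨π, Y, hcd⟩ := h.sp.cd7 h.hQ (by rw [card_center_eq, h.cardZ])
        (h.pow_mem_center (by norm_num) dvd_rfl) a1 a2 a3 a4 a5 hrel hε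
      exact ⟨u, hu, ε, π, Y, h2, hcd, ord ε e4, hbl⟩
    · have htK : t ∈ K0 Ω t := (mem_fixingSubgroup_iff _).2 fun y hy => hy
      obtain ⟨a1, a2, a3, a4, a5⟩ := h.cd_args ht ho (mul_mem hu ht) (mul_mem hu0 htK)
      have neg : ∀ x, ab (h.ac (mul_mem hu ht) x) = -ab (h.ac hu x) := fun x => by
        rw [h.ac_mul hu ht, ← abm_ab, h.ab_t ht ho, map_neg, abm_ab]
      obtain ⟨π, Y, hcd⟩ := h.sp.cd7 h.hQ (by rw [card_center_eq, h.cardZ])
        (h.pow_mem_center (by norm_num) dvd_rfl) a1 a2 a3 a4 a5 (fun x => by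
          rw [neg, ← abm_ab, neg, map_neg, neg_neg, abm_ab, hrel, smul_neg]) hε
      exact ⟨u, hu, -ε, π, Y, h2, hcd.comp fun x => by rw [h.ac_mul hu ht, a3],
        ord _ (by rw [← e4]; ring), hbl⟩
  · haveI : CharP E 3 := charP_of_card_eq_prime_pow (f := 4)
      (by rw [Fact.out (p := Fintype.card E = 9 ^ 2)]; norm_num)
    have h3 : (3 : E) = 0 := by exact_mod_cast CharP.cast_eq_zero E 3
    have h2 : (2 : E) ≠ 0 := fun e => one_ne_zero (α := E) (by linear_combination h3 - e)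
    obtain ⟨k, hk, h5⟩ := h.exists_five
    have k1 : k ≠ 1 := by rintro rfl; simp at h5
    have hk0 : k ∈ K0 Ω t := (h.mem_K0 ht ho).2 ⟨hk, fun z hz =>
      (mem_centralizer_singleton_iff.1 ((h.cent_five hk h5).1.ge hz).2).symm⟩
    have htK : t ∈ K0 Ω t := (mem_fixingSubgroup_iff _).2 fun y hy => hy
    have o10 : orderOf (k * t) = 9 + 1 := by
      rw [(h.comm_tK ht ho hk).orderOf_mul_eq_mul_orderOf_of_coprime (by rw [h5, ho]; norm_num),
        h5, ho]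
    have hz : zpowers (k * t) = K0 Ω t := eq_of_le_of_card_ge (zpowers_le.2 (mul_mem hk0 htK))
      (by rw [Nat.card_zpowers, o10]; exact h.card_K0 ht ho)
    obtain ⟨x₀, hx₀, hZ₀, s₀, hs₀, e₀, hc⟩ := h.blk_nine ht ho hk h5
    have hη : (-ε) ^ 4 = -1 - -ε - (-ε) ^ 2 - (-ε) ^ 3 := by
      have e10 : ε ^ 10 = 1 := by rw [← show orderOf ε = 10 from hε, pow_orderOf_eq_one]
      have e5 : ε ^ 5 - 1 ≠ 0 := sub_ne_zero.2 (pow_ne_one_of_lt_orderOf (by norm_num) (by omega))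
      have e2 : ε ^ 2 - 1 ≠ 0 := sub_ne_zero.2 (pow_ne_one_of_lt_orderOf (by norm_num) (by omega))
      apply mul_left_cancel₀ (mul_ne_zero e5 e2)
      linear_combination (ε - 1) * e10
    obtain ⟨a1, a2, a3, a4, a5⟩ := h.cd_args ht ho hk hk0
    obtain ⟨π, Y, hcd⟩ := h.sp.cd9 h.hQ (by rw [card_center_eq, h.cardZ])
      (h.pow_mem_center (by norm_num) (by norm_num)) a1 a2 a3 a4 a5 (fun x => by
        have f5 : h.ac hk (h.ac hk (h.ac hk (h.ac hk (h.ac hk x)))) = x := by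
          simp only [← h.ac_mul]
          apply Subtype.ext
          rw [ac_val, show k * (k * (k * (k * k))) = k ^ 5 by simp [pow_succ, mul_assoc],
             ← h5, pow_orderOf_eq_one]
          simp
        have := h.ab_fpf hk k1 (x := x * h.ac hk x * h.ac hk (h.ac hk x) *
          h.ac hk (h.ac hk (h.ac hk x)) * h.ac hk (h.ac hk (h.ac hk (h.ac hk x)))) (by
            simp only [map_mul, ab_mul, f5]; abel)
        simp only [ab_mul] at this
        linear_combination (norm := abel) this) hη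
    exact ⟨k * t, mul_mem hk ht, ε, π, Y, h2, by
      simpa using hcd.comp (ψ := h.ac (mul_mem hk ht)) (h.ac_mul hk ht), hε,
      fun x hx hZ => h.kl ht ho hz o10 hx₀ hZ₀ hs₀ e₀ hc hx hZ⟩

theorem psu (h : Hyp q a b Q χ) {E : Type*} [Field E] [Fintype E]
    (hE : Fintype.card E = q ^ 2) : Nonempty (G ≃* PSU 3 E q) := by
  classical
  haveI := Fact.mk hE
  haveI := h.faithful
  obtain ⟨t, ht, ho⟩ := h.exists_t
  obtain ⟨u, hu, ε, π, Y, h2, hcd, hε, hbl⟩ := h.data (E := E) ht ho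
  let π' : G → E := fun g => if hg : g ∈ Q then π ⟨g, hg⟩ else 0
  let Y' : G → E := fun g => if hg : g ∈ Q then Y ⟨g, hg⟩ else 0
  have eπ : ∀ g (hg : g ∈ Q), π' g = π ⟨g, hg⟩ := fun g hg => dif_pos hg
  have eY : ∀ g (hg : g ∈ Q), Y' g = Y ⟨g, hg⟩ := fun g hg => dif_pos hg
  have hpow : ∀ (n : ℕ) (x : Q), π (h.ac (pow_mem hu n) x) = ε ^ n * π x ∧
      Y (h.ac (pow_mem hu n) x) = Y x := fun n x => by
    induction n with
    | zero =>
      have : h.ac (pow_mem hu 0) x = x := Subtype.ext (by simp [ac_val])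
      rw [this]; simp
    | succ n ih =>
      have : h.ac (pow_mem hu (n + 1)) x = h.ac hu (h.ac (pow_mem hu n) x) :=
        Subtype.ext (by simp only [ac_val]; group)
      rw [this, hcd.πφ, hcd.Yφ, ih.1, ih.2]
      exact ⟨by ring, rfl⟩
  have hco : ∀ x y : Q, π x = π y → Y x = Y y → x = y := fun x y e e' => by
    have p1 : π 1 = 0 := by simpa using hcd.hπ 1 1
    have Y1 : Y 1 = 0 := by simpa [p1] using hcd.hY 1 1
    have a1 := hcd.hπ x⁻¹ x
    have a2 := hcd.hY x⁻¹ x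
    rw [inv_mul_cancel] at a1 a2
    exact inv_mul_eq_one.1 (hcd.hinj (x⁻¹ * y) (by rw [hcd.hπ, ← e, ← a1, p1])
      (by rw [hcd.hY, ← e, ← e', ← a2, Y1]))
  refine Co.psu (U := Q) (a := a) (b := b) (t := t) (π := π') (Y := Y')
    { h2 := h2
      hUa := h.hQa
      hba := h.hba
      hΩ := fun y hy => h.exQ hy
      hreg := fun x hx => h.hreg x hx b h.hba
      hn := h.hn
      hπ := fun x hx y hy => by
        rw [eπ _ (mul_mem hx hy), eπ _ hx, eπ _ hy]; exact hcd.hπ ⟨x, hx⟩ ⟨y, hy⟩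
      hY := fun x hx y hy => by
        rw [eY _ (mul_mem hx hy), eY _ hx, eY _ hy, eπ _ hx, eπ _ hy]; exact hcd.hY ⟨x, hx⟩ ⟨y, hy⟩
      hiso := fun x hx => by rw [eY _ hx, eπ _ hx]; exact hcd.hiso _
      hinj := fun x hx e e' => by
        rw [eπ _ hx] at e
        rw [eY _ hx] at e'
        exact congrArg Subtype.val (hcd.hinj _ e e')
      hsurj := fun p y hy => by
        obtain ⟨x, e, e'⟩ := hcd.hsurj p y hy
        exact ⟨x, x.2, by rw [eπ _ x.2]; exact e, by rw [eY _ x.2]; exact e'⟩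
      uniq := fun s s' hs hs' y y' hy => h.uniq hs hs' hy
      ex := fun y y' hy => by
        obtain ⟨s, k1, k2, k3, -, k4⟩ := h.ex hy
        exact ⟨s, k1, k2, k3, k4⟩
      ot := ho
      ta := ht.1
      tfix := fun x hx => by rw [h.tfix ht ho hx, eπ _ hx, hcd.hcen, mem_center_iff_Zc]
      blk := fun i hi h0 _ => ?_ } h.cardK.ge
  rw [eπ _ hi] at h0
  obtain ⟨s, hs, hfix⟩ := hbl i hi fun e => h0 ((hcd.hcen _).2 (mem_center_iff_Zc.2 e))
  refine ⟨s, hs, fun y hy => ?_, fun j hj e e' => (hfix _).2 ?_⟩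
  · obtain ⟨n, rfl⟩ := (hfix y).1 hy
    have hm := h.hn _ (pow_mem hu n).1 i hi
    exact ⟨_, hm, smul_b (pow_mem hu n) i, by
      rw [eY _ hm, eY _ hi]; exact (hpow n ⟨i, hi⟩).2⟩
  · rw [eY _ hj, eY _ hi] at e
    rw [eπ _ hj, eπ _ hi] at e'
    have hp : IsPrimitiveRoot ε (q + 1) := hε ▸ IsPrimitiveRoot.orderOf ε
    obtain ⟨n, -, hn⟩ := hp.eq_pow_of_pow_eq_one (ξ := π ⟨j, hj⟩ / π ⟨i, hi⟩) (by
      rw [div_pow, pow_succ', pow_succ', ← cj_apply, ← cj_apply, e', div_self]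
      simpa using h0)
    refine ⟨n, ?_⟩
    rw [smul_b (pow_mem hu n) i]
    have := hco ⟨j, hj⟩ (h.ac (pow_mem hu n) ⟨i, hi⟩)
      (by rw [(hpow n _).1, hn, div_mul_cancel₀ _ h0]) (by rw [(hpow n _).2, e])
    exact congrArg (fun w : Q => (w : G) • b) this

end Hyp

/-- **Identification of `PSU₃(7)` and `PSU₃(9)`.** -/
theorem ident {G Ω F : Type*} [Group G] [Finite G] [IsSimpleGroup G] [MulAction G Ω] [Finite Ω]
    [IsPretransitive G Ω] [Field F] [Fintype F] {q : ℕ} (hq : q = 7 ∨ q = 9)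
    (hF : Fintype.card F = q ^ 2) (hG : Nat.card G = q ^ 3 * (q ^ 3 + 1) * (q ^ 2 - 1))
    (hΩ : Nat.card Ω = q ^ 3 + 1) (a : Ω) (Q : Subgroup G) [Fintype Q] (hQ : Nat.card Q = q ^ 3)
    (hQa : Q ≤ stabilizer G a) (hn : ∀ g ∈ stabilizer G a, ∀ x ∈ Q, g * x * g⁻¹ ∈ Q)
    (hreg : ∀ x ∈ Q, ∀ y, y ≠ a → x • y = y → x = 1) (χ : G → ℂ) (hχ : IsCharacter G χ)
    (h1 : χ 1 = q ^ 2 - q)
    (hfix : ∀ g, ¬ (orderOf g).Coprime (q ^ 2 - 1) → χ g = 2 - Nat.card (fixedBy Ω g))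
    (hN : ∑ x : Q, χ x * χ (x : G)⁻¹ = q ^ 3 * (q - 1)) : Nonempty (G ≃* PSU 3 F q) := by
  haveI : Nontrivial Ω := Finite.one_lt_card_iff_nontrivial.1 (by
    rw [hΩ]; rcases hq with rfl | rfl <;> norm_num)
  obtain ⟨b, hb⟩ := exists_ne a
  obtain ⟨⟨x, y, hxy⟩, k2, k3⟩ := chr hq hQ (char_restrict hχ Q) h1 hN
  rw [card_center_eq] at k2 k3
  exact Hyp.psu (a := a) (b := b) (Q := Q) (χ := χ) ⟨hq, hG, hΩ, hb, hQ, hQa, hn, hreg, hχ, h1, hfix,
    ⟨x, x.2, y, y.2, fun e => hxy (Subtype.ext e)⟩, k2, fun hZ x hx hxZ => by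
      have := k3 hZ ⟨x, hx⟩ fun e => hxZ (mem_center_iff_Zc.1 e)
      rwa [card_cent_eq] at this⟩ hF

end Cfsg.Agent.U3Id
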